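import Mathlib

/-!
Automorphisms of odd order of an abelian 2-group with pairwise distinct invariants are trivial.
-/

set_option autoImplicit false

namespace Cfsg.Agent.Lib.Helper27

theorem zmod_two_torsion {a : ℕ} (ha : 1 ≤ a) (c : ZMod (2^a)) (hc : 2 * c = 0) :
    c = 0 ∨ c = ((2^(a-1) : ℕ) : ZMod (2^a)) := by
  have hpos : NeZero (2^a) := ⟨by positivity⟩
  have h1 : ((2 * c.val : ℕ) : ZMod (2^a)) = 0 := by
    push_cast
    rw [ZMod.natCast_zmod_val]
    exact hc
  rw [ZMod.natCast_eq_zero_iff] at h1
  obtain ⟨b, rfl⟩ : ∃ b, a = b + 1 := ⟨a - 1, by omega⟩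
  have h1' : 2 * 2^b ∣ 2 * c.val := by
    have e : 2 * 2^b = 2^(b+1) := by rw [pow_succ, mul_comm]
    rw [e]; exact h1
  have h2 : 2^b ∣ c.val := Nat.dvd_of_mul_dvd_mul_left (by norm_num) h1'
  obtain ⟨k, hk⟩ := h2
  have hlt : c.val < 2^(b+1) := ZMod.val_lt c
  have hk2 : k = 0 ∨ k = 1 := by
    rw [hk, pow_succ] at hlt
    have : k < 2 := Nat.lt_of_mul_lt_mul_left hlt
    omega
  rcases hk2 with rfl | rfl
  · left
    have : c.val = 0 := by simpa using hk
    exact (ZMod.val_eq_zero c).1 this
  · right
    have : c = ((c.val : ℕ) : ZMod _) := (ZMod.natCast_zmod_val c).symm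
    rw [this, hk]
    simp

theorem distinct_invariants_aux {n : ℕ} (a : Fin n → ℕ) (ha : StrictMono a) (ha1 : ∀ i, 1 ≤ a i)
    (f : ((i : Fin n) → ZMod (2 ^ a i)) →+ ((i : Fin n) → ZMod (2 ^ a i))) (m : ℕ) (hm : Odd m)
    (hf : ∀ x, f^[m] x = x) : ∀ x, f x = x := by
  -- torsion
  have htor : ∀ x : ((i : Fin n) → ZMod (2 ^ a i)), (2 ^ (∑ i, a i)) • x = 0 := by
    intro x
    funext i
    rw [Pi.smul_apply, nsmul_eq_mul, Pi.zero_apply,
      (ZMod.natCast_eq_zero_iff _ _).2 (pow_dvd_pow 2 (Finset.single_le_sum (fun _ _ => Nat.zero_le _)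
        (Finset.mem_univ i))), zero_mul]
  have hcop : ∀ x, f (f x - x) = f x - x → f x = x := by
    intro x hx
    have hit : ∀ k : ℕ, f^[k] x = x + k • (f x - x) := by
      intro k
      induction k with
      | zero => simp
      | succ k ih =>
        rw [Function.iterate_succ_apply', ih, map_add, map_nsmul, hx, succ_nsmul]
        abel
    have h1 : m • (f x - x) = 0 := by
      have := hit m
      rw [hf x] at this
      exact (left_eq_add.1 this)
    have h2 := htor (f x - x)
    have d1 := addOrderOf_dvd_of_nsmul_eq_zero h1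
    have d2 := addOrderOf_dvd_of_nsmul_eq_zero h2
    have hc : Nat.Coprime m (2 ^ (∑ i, a i)) := Nat.Coprime.pow_right _ (Nat.coprime_two_right.2 hm)
    have d3 : addOrderOf (f x - x) = 1 := Nat.eq_one_of_dvd_coprimes hc d1 d2
    exact sub_eq_zero.1 (AddMonoid.addOrderOf_eq_one_iff.1 d3)
  have hinj : Function.Injective f := by
    intro x y hxy
    obtain ⟨k, rfl⟩ := hm
    have h1 := hf x
    have h2 := hf y
    have h1' : (⇑f)^[2 * k] (f x) = x := h1
    have h2' : (⇑f)^[2 * k] (f y) = y := h2
    rw [← h1', ← h2', hxy]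
  -- elements of order two
  have hW : ∀ d j : ℕ, n ≤ j + d → ∀ x : ((i : Fin n) → ZMod (2 ^ a i)), 2 • x = 0 →
      (∀ i : Fin n, (i : ℕ) < j → x i = 0) → f x = x := by
    intro d
    induction d with
    | zero =>
      intro j hj x _ hx
      have : x = 0 := by
        funext i
        exact hx i (lt_of_lt_of_le i.2 hj)
      rw [this, map_zero]
    | succ d ih =>
      intro j hj x h2 hx
      by_cases hjn : n ≤ j
      · have : x = 0 := by
          funext i
          exact hx i (lt_of_lt_of_le i.2 hjn)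
        rw [this, map_zero]
      · rw [not_le] at hjn
        have IH := ih (j + 1) (by omega)
        have hx2 : ∀ i, 2 * x i = 0 := by
          intro i
          have := congrFun h2 i
          simpa [nsmul_eq_mul] using this
        -- x is divisible by 2^(a j - 1)
        obtain ⟨y, hy⟩ : ∃ y : ((i : Fin n) → ZMod (2 ^ a i)), x = (2 ^ (a ⟨j, hjn⟩ - 1)) • y := by
          refine ⟨fun i => if x i = 0 then 0 else ((2 ^ (a i - a ⟨j, hjn⟩) : ℕ) : ZMod (2 ^ a i)), ?_⟩
          funext i
          rw [Pi.smul_apply, nsmul_eq_mul]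
          by_cases h0 : x i = 0
          · simp [h0]
          · rw [if_neg h0]
            have hij : j ≤ (i : ℕ) := by
              by_contra hlt
              exact h0 (hx i (not_le.1 hlt))
            have hle : a ⟨j, hjn⟩ ≤ a i := ha.monotone (Fin.mk_le_of_le_val hij)
            rcases zmod_two_torsion (ha1 i) (x i) (hx2 i) with h | h
            · exact absurd h h0
            · rw [h, ← Nat.cast_mul, ← pow_add]
              congr 2
              have := ha1 ⟨j, hjn⟩
              omega
        have hfx2 : 2 • f x = 0 := by rw [← map_nsmul, h2, map_zero]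
        have hfx : ∀ i : Fin n, (i : ℕ) < j → f x i = 0 := by
          intro i hi
          rw [hy, map_nsmul, Pi.smul_apply, nsmul_eq_mul]
          have hlt : a i < a ⟨j, hjn⟩ := ha (Fin.lt_def.2 hi)
          rw [(ZMod.natCast_eq_zero_iff _ _).2 (pow_dvd_pow 2 (by omega)), zero_mul]
        have hfx2' : ∀ i, 2 * f x i = 0 := by
          intro i
          have := congrFun hfx2 i
          simpa [nsmul_eq_mul] using this
        have hstep : ∀ z : ((i : Fin n) → ZMod (2 ^ a i)), (∀ i : Fin n, (i : ℕ) < j → z i = 0) →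
            z ⟨j, hjn⟩ = 0 → ∀ i : Fin n, (i : ℕ) < j + 1 → z i = 0 := by
          intro z hz hzj i hi
          rcases Nat.lt_succ_iff_lt_or_eq.1 hi with h | h
          · exact hz i h
          · have : i = ⟨j, hjn⟩ := Fin.ext h
            rw [this]; exact hzj
        by_cases hxj : x ⟨j, hjn⟩ = 0
        · exact IH x h2 (hstep x hx hxj)
        by_cases hfxj : f x ⟨j, hjn⟩ = 0
        · exact hinj (IH (f x) hfx2 (hstep (f x) hfx hfxj))
        · apply hcop
          apply IH
          · rw [smul_sub, hfx2, h2, sub_zero]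
          · apply hstep
            · intro i hi
              rw [Pi.sub_apply, hfx i hi, hx i hi, sub_zero]
            · rw [Pi.sub_apply]
              rcases zmod_two_torsion (ha1 _) _ (hx2 ⟨j, hjn⟩) with h | h
              · exact absurd h hxj
              rcases zmod_two_torsion (ha1 _) _ (hfx2' ⟨j, hjn⟩) with h' | h'
              · exact absurd h' hfxj
              rw [h, h', sub_self]
  have hO : ∀ x : ((i : Fin n) → ZMod (2 ^ a i)), 2 • x = 0 → f x = x :=
    fun x hx => hW n 0 (by omega) x hx (fun i hi => absurd hi (Nat.not_lt_zero _))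
  have hk : ∀ k : ℕ, ∀ x : ((i : Fin n) → ZMod (2 ^ a i)), (2 ^ k) • x = 0 → f x = x := by
    intro k
    induction k with
    | zero =>
      intro x hx
      rw [pow_zero, one_smul] at hx
      rw [hx, map_zero]
    | succ k ih =>
      intro x hx
      have h1 : f (2 • x) = 2 • x := ih _ (by rw [smul_smul, ← pow_succ]; exact hx)
      apply hcop
      apply hO
      rw [smul_sub, ← map_nsmul, h1, sub_self]
  exact fun x => hk _ x (htor x)

theorem distinct_invariants_torsion {n : ℕ} (a : Fin n → ℕ) (x : ((i : Fin n) → ZMod (2 ^ a i))) :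
    (2 ^ (∑ i, a i)) • x = 0 := by
  funext i
  rw [Pi.smul_apply, nsmul_eq_mul, Pi.zero_apply,
    (ZMod.natCast_eq_zero_iff _ _).2 (pow_dvd_pow 2 (Finset.single_le_sum (fun _ _ => Nat.zero_le _)
      (Finset.mem_univ i))), zero_mul]

theorem distinct_invariants_aut {G : Type*} [Group G] {n : ℕ} (a : Fin n → ℕ) (ha : StrictMono a)
    (ha1 : ∀ i, 1 ≤ a i) (e : G ≃* Multiplicative ((i : Fin n) → ZMod (2 ^ a i))) (α : MulAut G)
    (m : ℕ) (hm : Odd m) (hα : α ^ m = 1) : α = 1 := by
  let f : ((i : Fin n) → ZMod (2 ^ a i)) →+ ((i : Fin n) → ZMod (2 ^ a i)) :=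
    { toFun := fun x => Multiplicative.toAdd (e (α (e.symm (Multiplicative.ofAdd x))))
      map_zero' := by simp
      map_add' := fun x y => by simp [ofAdd_add, map_mul, toAdd_mul] }
  have hf : ∀ x, f x = Multiplicative.toAdd (e (α (e.symm (Multiplicative.ofAdd x)))) := fun _ => rfl
  have hit : ∀ (k : ℕ) x, f^[k] x = Multiplicative.toAdd (e ((α ^ k) (e.symm (Multiplicative.ofAdd x)))) := by
    intro k
    induction k with
    | zero => intro x; simp
    | succ k ih =>
      intro x
      rw [Function.iterate_succ_apply', ih, hf, pow_succ', MulAut.mul_apply]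
      simp
  have key := distinct_invariants_aux a ha ha1 f m hm (fun x => by rw [hit, hα]; simp)
  ext s
  have := key (Multiplicative.toAdd (e s))
  rw [hf] at this
  simpa using this

end Cfsg.Agent.Lib.Helper27
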