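import Cfsg.Agent.Lib.Helper27.LargeExtra

set_option autoImplicit false

namespace Cfsg.Agent.Lib.Helper27

variable {G : Type*} [Group G]

/-- The conjugation action of `N_G(V)` on the nonidentity elements of `V`. -/
@[reducible] def normalizerAct (V : Subgroup G) :
    MulAction (Subgroup.normalizer (V : Set G)) {v : G // v ∈ V ∧ v ≠ 1} where
  smul h v := ⟨(h : G) * v * (h : G)⁻¹, conj_mem_of_normalizer h.2 v.2.1, by
    intro h1
    apply v.2.2
    calc (v : G) = (h : G)⁻¹ * ((h : G) * v * (h : G)⁻¹) * h := by group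
      _ = 1 := by rw [h1]; group⟩
  one_smul v := by
    apply Subtype.ext
    show ((1 : Subgroup.normalizer (V : Set G)) : G) * v *
      ((1 : Subgroup.normalizer (V : Set G)) : G)⁻¹ = v
    simp
  mul_smul h k v := by
    apply Subtype.ext
    show ((h * k : Subgroup.normalizer (V : Set G)) : G) * v *
      ((h * k : Subgroup.normalizer (V : Set G)) : G)⁻¹ = (h : G) * ((k : G) * v * (k : G)⁻¹) * (h : G)⁻¹
    simp only [Subgroup.coe_mul]
    group

theorem perm_eq_swap {T : Type*} [DecidableEq T] {a b c : T} (hT : ∀ t : T, t = a ∨ t = b ∨ t = c)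
    (hab : a ≠ b) (hac : a ≠ c) (σ : Equiv.Perm T) (h1 : σ a = a) (h2 : σ b = c) (h3 : σ c = b) :
    σ = Equiv.swap b c := by
  ext t
  rcases hT t with rfl | rfl | rfl
  · rw [h1, Equiv.swap_apply_of_ne_of_ne hab hac]
  · rw [h2, Equiv.swap_apply_left]
  · rw [h3, Equiv.swap_apply_right]

/-- A four-group `V = {1, z, b, zb}` on which `N_G(V)` induces two distinct transpositions has
`|N_G(V) : C_G(V)| = 6`. -/
theorem relIndex_eq_six {V : Subgroup G} {z b : G}
    (hV : ∀ v, v ∈ V ↔ v = 1 ∨ v = z ∨ v = b ∨ v = z * b) (hz1 : z ≠ 1) (hb1 : b ≠ 1)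
    (hzb : z ≠ b) (hzz : z * z = 1) (hbb : b * b = 1)
    {y n : G} (hyz : y * z * y⁻¹ = z) (hyb : y * b * y⁻¹ = z * b)
    (hnb : n * b * n⁻¹ = b) (hnz : n * z * n⁻¹ = z * b) :
    (Subgroup.centralizer (V : Set G)).relIndex (Subgroup.normalizer (V : Set G)) = 6 := by
  classical
  let _ := normalizerAct V
  have hsm : ∀ (h : Subgroup.normalizer (V : Set G)) (v : {v : G // v ∈ V ∧ v ≠ 1}),
      ((h • v : {v : G // v ∈ V ∧ v ≠ 1}) : G) = (h : G) * v * (h : G)⁻¹ := fun _ _ => rfl
  have hzb1 : z * b ≠ 1 := by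
    intro h
    apply hzb
    calc z = z * (b * b) := by rw [hbb, mul_one]
      _ = (z * b) * b := by group
      _ = b := by rw [h, one_mul]
  have hzbz : z ≠ z * b := by
    intro h
    apply hb1
    calc b = z⁻¹ * (z * b) := by group
      _ = 1 := by rw [← h]; group
  have hzbb : b ≠ z * b := by
    intro h
    apply hz1
    calc z = (z * b) * b⁻¹ := by group
      _ = 1 := by rw [← h]; group
  have hyzb : y * (z * b) * y⁻¹ = b := by
    calc y * (z * b) * y⁻¹ = (y * z * y⁻¹) * (y * b * y⁻¹) := by group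
      _ = b := by rw [hyz, hyb, ← mul_assoc, hzz, one_mul]
  have hnzb : n * (z * b) * n⁻¹ = z := by
    calc n * (z * b) * n⁻¹ = (n * z * n⁻¹) * (n * b * n⁻¹) := by group
      _ = z := by rw [hnz, hnb, mul_assoc, hbb, mul_one]
  -- membership in the normalizer
  have hmemN : ∀ h : G, (h * z * h⁻¹ ∈ V) → (h * b * h⁻¹ ∈ V) →
      h ∈ Subgroup.normalizer (V : Set G) := by
    intro h h1 h2
    have hle : ∀ v ∈ V, h * v * h⁻¹ ∈ V := by
      intro v hv
      rcases (hV v).1 hv with rfl | rfl | rfl | rfl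
      · simp
      · exact h1
      · exact h2
      · have : h * (z * b) * h⁻¹ = (h * z * h⁻¹) * (h * b * h⁻¹) := by group
        rw [this]; exact V.mul_mem h1 h2
    have hfin : Finite V := by
      apply Set.Finite.subset (Set.toFinite ({1, z, b, z * b} : Set G))
      intro v hv
      simpa using (hV v).1 hv
    have hmap : V.map (MulAut.conj h).toMonoidHom ≤ V := by
      rintro _ ⟨v, hv, rfl⟩
      simpa [MulAut.conj_apply] using hle v hv
    have hcard : Nat.card (V.map (MulAut.conj h).toMonoidHom) = Nat.card V :=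
      Subgroup.card_map_of_injective (MulAut.conj h).injective
    have heq : V.map (MulAut.conj h).toMonoidHom = V :=
      Subgroup.eq_of_le_of_card_ge hmap (by rw [hcard])
    exact Subgroup.mem_normalizer_iff_map_conj_eq.mpr heq
  have hzV : z ∈ V := (hV z).2 (by simp)
  have hbV : b ∈ V := (hV b).2 (by simp)
  have hzbV : z * b ∈ V := (hV _).2 (by simp)
  have hyN : y ∈ Subgroup.normalizer (V : Set G) :=
    hmemN y (by rw [hyz]; exact hzV) (by rw [hyb]; exact hzbV)
  have hnN : n ∈ Subgroup.normalizer (V : Set G) :=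
    hmemN n (by rw [hnz]; exact hzbV) (by rw [hnb]; exact hbV)
  let tz : {v : G // v ∈ V ∧ v ≠ 1} := ⟨z, hzV, hz1⟩
  let tb : {v : G // v ∈ V ∧ v ≠ 1} := ⟨b, hbV, hb1⟩
  let tc : {v : G // v ∈ V ∧ v ≠ 1} := ⟨z * b, hzbV, hzb1⟩
  have hT : ∀ t : {v : G // v ∈ V ∧ v ≠ 1}, t = tz ∨ t = tb ∨ t = tc := by
    rintro ⟨v, hv, hv1⟩
    rcases (hV v).1 hv with rfl | rfl | rfl | rfl
    · exact absurd rfl hv1
    · left; rfl
    · right; left; rfl
    · right; right; rfl
  have hzb' : tz ≠ tb := fun h => hzb (congrArg Subtype.val h)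
  have hzc' : tz ≠ tc := fun h => hzbz (congrArg Subtype.val h)
  have hbc' : tb ≠ tc := fun h => hzbb (congrArg Subtype.val h)
  let ρ := MulAction.toPermHom (Subgroup.normalizer (V : Set G)) {v : G // v ∈ V ∧ v ≠ 1}
  have hρ : ∀ h t, ((ρ h t : {v : G // v ∈ V ∧ v ≠ 1}) : G) = (h : G) * t * (h : G)⁻¹ :=
    fun _ _ => rfl
  have hρy : ρ ⟨y, hyN⟩ = Equiv.swap tb tc :=
    perm_eq_swap hT hzb' hzc' _ (Subtype.ext (by rw [hρ]; exact hyz))
      (Subtype.ext (by rw [hρ]; exact hyb)) (Subtype.ext (by rw [hρ]; exact hyzb))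
  have hρn : ρ ⟨n, hnN⟩ = Equiv.swap tz tc :=
    perm_eq_swap (a := tb) (fun t => by rcases hT t with h | h | h <;> simp [h]) hzb'.symm hbc' _
      (Subtype.ext (by rw [hρ]; exact hnb))
      (Subtype.ext (by rw [hρ]; exact hnz)) (Subtype.ext (by rw [hρ]; exact hnzb))
  have hρs : ρ (⟨y, hyN⟩ * ⟨n, hnN⟩ * ⟨y, hyN⟩⁻¹) = Equiv.swap tz tb := by
    rw [map_mul, map_mul, map_inv, hρy, hρn, Equiv.swap_inv]
    have := Equiv.swap_apply_apply (Equiv.swap tb tc) tz tc
    rw [Equiv.swap_apply_of_ne_of_ne hzb' hzc', Equiv.swap_apply_right, Equiv.swap_inv] at this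
    exact this.symm
  have hcardT : Nat.card {v : G // v ∈ V ∧ v ≠ 1} = 3 := by
    have hfin : Fintype {v : G // v ∈ V ∧ v ≠ 1} :=
      ⟨{tz, tb, tc}, fun t => by rcases hT t with h | h | h <;> simp [h]⟩
    rw [Nat.card_eq_fintype_card]
    show (Finset.univ : Finset {v : G // v ∈ V ∧ v ≠ 1}).card = 3
    have : (Finset.univ : Finset {v : G // v ∈ V ∧ v ≠ 1}) = {tz, tb, tc} := by
      ext t
      rcases hT t with h | h | h <;> simp [h]
    rw [this]
    exact Finset.card_eq_three.mpr ⟨tz, tb, tc, hzb', hzc', hbc', rfl⟩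
  have hfinT : Finite {v : G // v ∈ V ∧ v ≠ 1} := Nat.finite_of_card_ne_zero (by omega)
  have hsurj : ρ.range = ⊤ := by
    rw [eq_top_iff, ← Equiv.Perm.closure_isSwap, Subgroup.closure_le]
    rintro σ ⟨s, t, hst, rfl⟩
    have h1 : Equiv.swap tb tc ∈ ρ.range := ⟨_, hρy⟩
    have h2 : Equiv.swap tz tc ∈ ρ.range := ⟨_, hρn⟩
    have h3 : Equiv.swap tz tb ∈ ρ.range := ⟨_, hρs⟩
    rcases hT s with rfl | rfl | rfl <;> rcases hT t with rfl | rfl | rfl
    · exact absurd rfl hst
    · exact h3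
    · exact h2
    · rw [Equiv.swap_comm]; exact h3
    · exact absurd rfl hst
    · exact h1
    · rw [Equiv.swap_comm]; exact h2
    · rw [Equiv.swap_comm]; exact h1
    · exact absurd rfl hst
  have hker : (Subgroup.centralizer (V : Set G)).subgroupOf (Subgroup.normalizer (V : Set G)) =
      ρ.ker := by
    ext h
    rw [Subgroup.mem_subgroupOf, MonoidHom.mem_ker, Subgroup.mem_centralizer_iff]
    constructor
    · intro hc
      ext t
      rw [hρ, Equiv.Perm.coe_one, id_eq, ← hc t t.2.1]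
      group
    · intro h1 v hv
      by_cases hv1 : v = 1
      · simp [hv1]
      · have h2 := congrArg Subtype.val (DFunLike.congr_fun h1 ⟨v, hv, hv1⟩)
        rw [hρ] at h2
        simp only [Equiv.Perm.coe_one, id_eq] at h2
        calc v * h = ((h : G) * v * (h : G)⁻¹) * h := by rw [h2]
          _ = h * v := by group
  show ((Subgroup.centralizer (V : Set G)).subgroupOf (Subgroup.normalizer (V : Set G))).index = 6
  rw [hker, Subgroup.index_ker, hsurj, Subgroup.card_top, Nat.card_perm, hcardT]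
  rfl

end Cfsg.Agent.Lib.Helper27
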