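import Cfsg.Agent.Lib.Helper27.FourGroupS3

set_option autoImplicit false

namespace Cfsg.Agent.Lib.Helper27

variable {G : Type*} [Group G]

/-- The permutation representation of `N_G(V)` on `V - 1`. -/
def normalizerPermHom (V : Subgroup G) :
    Subgroup.normalizer (V : Set G) →* Equiv.Perm {v : G // v ∈ V ∧ v ≠ 1} :=
  @MulAction.toPermHom _ _ _ (normalizerAct V)

theorem normalizerPermHom_apply (V : Subgroup G) (h : Subgroup.normalizer (V : Set G))
    (t : {v : G // v ∈ V ∧ v ≠ 1}) :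
    ((normalizerPermHom V h t : {v : G // v ∈ V ∧ v ≠ 1}) : G) = (h : G) * t * (h : G)⁻¹ := rfl

theorem normalizerPermHom_ker (V : Subgroup G) :
    (normalizerPermHom V).ker =
      (Subgroup.centralizer (V : Set G)).subgroupOf (Subgroup.normalizer (V : Set G)) := by
  ext h
  rw [Subgroup.mem_subgroupOf, MonoidHom.mem_ker, Subgroup.mem_centralizer_iff]
  constructor
  · intro h1 v hv
    by_cases hv1 : v = 1
    · simp [hv1]
    · have h2 := congrArg Subtype.val (DFunLike.congr_fun h1 ⟨v, hv, hv1⟩)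
      rw [normalizerPermHom_apply] at h2
      simp only [Equiv.Perm.coe_one, id_eq] at h2
      calc v * h = ((h : G) * v * (h : G)⁻¹) * h := by rw [h2]
        _ = h * v := by group
  · intro hc
    ext t
    rw [normalizerPermHom_apply, Equiv.Perm.coe_one, id_eq, ← hc t t.2.1]
    group

/-- membership in the normalizer of an explicit four-group -/
theorem mem_normalizer_four {V : Subgroup G} {z b : G}
    (hV : ∀ v, v ∈ V ↔ v = 1 ∨ v = z ∨ v = b ∨ v = z * b) {h : G} (h1 : h * z * h⁻¹ ∈ V)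
    (h2 : h * b * h⁻¹ ∈ V) : h ∈ Subgroup.normalizer (V : Set G) := by
  have hle : ∀ v ∈ V, h * v * h⁻¹ ∈ V := by
    intro v hv
    rcases (hV v).1 hv with rfl | rfl | rfl | rfl
    · simp
    · exact h1
    · exact h2
    · have : h * (z * b) * h⁻¹ = (h * z * h⁻¹) * (h * b * h⁻¹) := by group
      rw [this]; exact V.mul_mem h1 h2
  have hfin : Finite V := by
    apply Set.Finite.subset (Set.toFinite ({1, z, b, z * b} : Set G))
    intro v hv
    simpa using (hV v).1 hv
  have hmap : V.map (MulAut.conj h).toMonoidHom ≤ V := by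
    rintro _ ⟨v, hv, rfl⟩
    simpa [MulAut.conj_apply] using hle v hv
  have hcard : Nat.card (V.map (MulAut.conj h).toMonoidHom) = Nat.card V :=
    Subgroup.card_map_of_injective (MulAut.conj h).injective
  have heq : V.map (MulAut.conj h).toMonoidHom = V :=
    Subgroup.eq_of_le_of_card_ge hmap (by rw [hcard])
  exact Subgroup.mem_normalizer_iff_map_conj_eq.mpr heq

/-- The action of `N_G(V)` on the three involutions of `V`: three points, and any subgroup
containing `y` and `n` maps onto the full symmetric group. -/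
theorem fourGroup_action {V : Subgroup G} {z b : G}
    (hV : ∀ v, v ∈ V ↔ v = 1 ∨ v = z ∨ v = b ∨ v = z * b) (hz1 : z ≠ 1) (hb1 : b ≠ 1)
    (hzb : z ≠ b) (hzz : z * z = 1) (hbb : b * b = 1)
    {y n : G} (hyz : y * z * y⁻¹ = z) (hyb : y * b * y⁻¹ = z * b)
    (hnb : n * b * n⁻¹ = b) (hnz : n * z * n⁻¹ = z * b) :
    Nat.card {v : G // v ∈ V ∧ v ≠ 1} = 3 ∧
    ∀ X : Subgroup G, y ∈ X → n ∈ X → ∀ σ : Equiv.Perm {v : G // v ∈ V ∧ v ≠ 1},
      ∃ x : Subgroup.normalizer (V : Set G), (x : G) ∈ X ∧ normalizerPermHom V x = σ := by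
  classical
  have hzb1 : z * b ≠ 1 := by
    intro h
    apply hzb
    calc z = z * (b * b) := by rw [hbb, mul_one]
      _ = (z * b) * b := by group
      _ = b := by rw [h, one_mul]
  have hzbz : z ≠ z * b := by
    intro h
    apply hb1
    calc b = z⁻¹ * (z * b) := by group
      _ = 1 := by rw [← h]; group
  have hzbb : b ≠ z * b := by
    intro h
    apply hz1
    calc z = (z * b) * b⁻¹ := by group
      _ = 1 := by rw [← h]; group
  have hyzb : y * (z * b) * y⁻¹ = b := by
    calc y * (z * b) * y⁻¹ = (y * z * y⁻¹) * (y * b * y⁻¹) := by group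
      _ = b := by rw [hyz, hyb, ← mul_assoc, hzz, one_mul]
  have hnzb : n * (z * b) * n⁻¹ = z := by
    calc n * (z * b) * n⁻¹ = (n * z * n⁻¹) * (n * b * n⁻¹) := by group
      _ = z := by rw [hnz, hnb, mul_assoc, hbb, mul_one]
  have hzV : z ∈ V := (hV z).2 (by simp)
  have hbV : b ∈ V := (hV b).2 (by simp)
  have hzbV : z * b ∈ V := (hV _).2 (by simp)
  have hyN : y ∈ Subgroup.normalizer (V : Set G) :=
    mem_normalizer_four hV (by rw [hyz]; exact hzV) (by rw [hyb]; exact hzbV)
  have hnN : n ∈ Subgroup.normalizer (V : Set G) :=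
    mem_normalizer_four hV (by rw [hnz]; exact hzbV) (by rw [hnb]; exact hbV)
  let tz : {v : G // v ∈ V ∧ v ≠ 1} := ⟨z, hzV, hz1⟩
  let tb : {v : G // v ∈ V ∧ v ≠ 1} := ⟨b, hbV, hb1⟩
  let tc : {v : G // v ∈ V ∧ v ≠ 1} := ⟨z * b, hzbV, hzb1⟩
  have hT : ∀ t : {v : G // v ∈ V ∧ v ≠ 1}, t = tz ∨ t = tb ∨ t = tc := by
    rintro ⟨v, hv, hv1⟩
    rcases (hV v).1 hv with rfl | rfl | rfl | rfl
    · exact absurd rfl hv1
    · left; rfl
    · right; left; rfl
    · right; right; rfl
  have hzb' : tz ≠ tb := fun h => hzb (congrArg Subtype.val h)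
  have hzc' : tz ≠ tc := fun h => hzbz (congrArg Subtype.val h)
  have hbc' : tb ≠ tc := fun h => hzbb (congrArg Subtype.val h)
  have hρ := normalizerPermHom_apply V
  have hρy : normalizerPermHom V ⟨y, hyN⟩ = Equiv.swap tb tc :=
    perm_eq_swap hT hzb' hzc' _ (Subtype.ext (by rw [hρ]; exact hyz))
      (Subtype.ext (by rw [hρ]; exact hyb)) (Subtype.ext (by rw [hρ]; exact hyzb))
  have hρn : normalizerPermHom V ⟨n, hnN⟩ = Equiv.swap tz tc :=
    perm_eq_swap (a := tb) (fun t => by rcases hT t with h | h | h <;> simp [h]) hzb'.symm hbc' _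
      (Subtype.ext (by rw [hρ]; exact hnb))
      (Subtype.ext (by rw [hρ]; exact hnz)) (Subtype.ext (by rw [hρ]; exact hnzb))
  have hρs : normalizerPermHom V (⟨y, hyN⟩ * ⟨n, hnN⟩ * ⟨y, hyN⟩⁻¹) = Equiv.swap tz tb := by
    rw [map_mul, map_mul, map_inv, hρy, hρn, Equiv.swap_inv]
    have := Equiv.swap_apply_apply (Equiv.swap tb tc) tz tc
    rw [Equiv.swap_apply_of_ne_of_ne hzb' hzc', Equiv.swap_apply_right, Equiv.swap_inv] at this
    exact this.symm
  have hcardT : Nat.card {v : G // v ∈ V ∧ v ≠ 1} = 3 := by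
    have hfin : Fintype {v : G // v ∈ V ∧ v ≠ 1} :=
      ⟨{tz, tb, tc}, fun t => by rcases hT t with h | h | h <;> simp [h]⟩
    rw [Nat.card_eq_fintype_card]
    show (Finset.univ : Finset {v : G // v ∈ V ∧ v ≠ 1}).card = 3
    have : (Finset.univ : Finset {v : G // v ∈ V ∧ v ≠ 1}) = {tz, tb, tc} := by
      ext t
      rcases hT t with h | h | h <;> simp [h]
    rw [this]
    exact Finset.card_eq_three.mpr ⟨tz, tb, tc, hzb', hzc', hbc', rfl⟩
  have hfinT : Finite {v : G // v ∈ V ∧ v ≠ 1} := Nat.finite_of_card_ne_zero (by omega)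
  refine ⟨hcardT, fun X hyX hnX σ => ?_⟩
  have hsurj : (X.subgroupOf (Subgroup.normalizer (V : Set G))).map (normalizerPermHom V) = ⊤ := by
    rw [eq_top_iff, ← Equiv.Perm.closure_isSwap, Subgroup.closure_le]
    rintro σ ⟨s, t, hst, rfl⟩
    have h1 : Equiv.swap tb tc ∈
        (X.subgroupOf (Subgroup.normalizer (V : Set G))).map (normalizerPermHom V) :=
      ⟨_, Subgroup.mem_subgroupOf.2 hyX, hρy⟩
    have h2 : Equiv.swap tz tc ∈
        (X.subgroupOf (Subgroup.normalizer (V : Set G))).map (normalizerPermHom V) :=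
      ⟨_, Subgroup.mem_subgroupOf.2 hnX, hρn⟩
    have h3 : Equiv.swap tz tb ∈
        (X.subgroupOf (Subgroup.normalizer (V : Set G))).map (normalizerPermHom V) :=
      ⟨_, Subgroup.mem_subgroupOf.2 (X.mul_mem (X.mul_mem hyX hnX) (X.inv_mem hyX)), hρs⟩
    rcases hT s with rfl | rfl | rfl <;> rcases hT t with rfl | rfl | rfl
    · exact absurd rfl hst
    · exact h3
    · exact h2
    · rw [Equiv.swap_comm]; exact h3
    · exact absurd rfl hst
    · exact h1
    · rw [Equiv.swap_comm]; exact h2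
    · rw [Equiv.swap_comm]; exact h1
    · exact absurd rfl hst
  have hσ : σ ∈ (X.subgroupOf (Subgroup.normalizer (V : Set G))).map (normalizerPermHom V) := by
    rw [hsurj]; exact Subgroup.mem_top _
  obtain ⟨x, hx, hxσ⟩ := hσ
  exact ⟨x, Subgroup.mem_subgroupOf.1 hx, hxσ⟩

/-- A group generated by two involutions satisfying the braid relation has at most six
elements. -/
theorem braid_cover {H : Type*} [Group H] {a c : H} (ha : a * a = 1) (hc : c * c = 1)
    (hbr : c * a * c = a * c * a) (x : H) (hx : x ∈ Subgroup.closure ({a, c} : Set H)) :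
    x = 1 ∨ x = a ∨ x = c ∨ x = a * c ∨ x = c * a ∨ x = a * (c * a) := by
  have haa : ∀ t, a * (a * t) = t := fun t => by rw [← mul_assoc, ha, one_mul]
  have hcc : ∀ t, c * (c * t) = t := fun t => by rw [← mul_assoc, hc, one_mul]
  have hbr0 : c * (a * c) = a * (c * a) := by rw [← mul_assoc, hbr, mul_assoc]
  have hbr' : ∀ t, c * (a * (c * t)) = a * (c * (a * t)) := fun t => by
    rw [← mul_assoc a c t, ← mul_assoc c (a * c) t, hbr0]; simp only [mul_assoc]
  have hainv : a⁻¹ = a := inv_eq_of_mul_eq_one_left ha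
  have hcinv : c⁻¹ = c := inv_eq_of_mul_eq_one_left hc
  have hA : ∀ y : H, (y = 1 ∨ y = a ∨ y = c ∨ y = a * c ∨ y = c * a ∨ y = a * (c * a)) →
      (a * y = 1 ∨ a * y = a ∨ a * y = c ∨ a * y = a * c ∨ a * y = c * a ∨
        a * y = a * (c * a)) := by
    rintro y (rfl | rfl | rfl | rfl | rfl | rfl) <;> simp [ha, haa]
  have hC : ∀ y : H, (y = 1 ∨ y = a ∨ y = c ∨ y = a * c ∨ y = c * a ∨ y = a * (c * a)) →
      (c * y = 1 ∨ c * y = a ∨ c * y = c ∨ c * y = a * c ∨ c * y = c * a ∨
        c * y = a * (c * a)) := by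
    rintro y (rfl | rfl | rfl | rfl | rfl | rfl)
    · simp
    · simp
    · simp [hc]
    · right; right; right; right; right; exact hbr0
    · right; left; exact hcc a
    · right; right; right; left
      rw [hbr', ha, mul_one]
  induction hx using Subgroup.closure_induction_left with
  | one => left; rfl
  | mul_left s hs y _ ih =>
    rcases hs with rfl | rfl
    · exact hA y ih
    · exact hC y ih
  | inv_mul_cancel s hs y _ ih =>
    rcases hs with rfl | rfl
    · rw [hainv]; exact hA y ih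
    · rw [hcinv]; exact hC y ih

end Cfsg.Agent.Lib.Helper27
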