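import Cfsg.Agent.Lib.Helper27.FusionAbelian

/-!
The fusion system over `S` given by a group of automorphisms of `S` containing `Inn S`.
-/

set_option autoImplicit false

namespace Cfsg.Agent.Lib.Helper27

open Cfsg Cfsg.FusionSystem

variable {Ω : Type*} [Group Ω] {S : Subgroup Ω}

/-- The fusion system over `S` whose maps are the restrictions of the elements of a group `A` of automorphisms
of `S` containing `Inn S`. -/
def autSystem (A : Subgroup (MulAut S)) (hA : Inn S ≤ A) : FusionSystem S where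
  Hom P := {φ | ∃ hP : P ≤ S, ∃ α ∈ A, ∀ x : P, φ x = ((α ⟨x, hP x.2⟩ : S) : Ω)}
  le_of_mem := by
    rintro P φ ⟨hP, α, -, h⟩
    exact ⟨hP, fun x => (h x).symm ▸ (α _).2⟩
  injective_of_mem := by
    rintro P φ ⟨hP, α, -, h⟩ a b hab
    rw [h a, h b] at hab
    have := α.injective (Subtype.ext hab)
    exact Subtype.ext (congrArg (fun z : S => (z : Ω)) this)
  conj_mem := by
    intro P g hP hg
    exact ⟨hP, MulAut.conj (⟨g, hg⟩ : S), hA ⟨_, rfl⟩, fun x => rfl⟩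
  comp_mem := by
    rintro P Q φ ψ ⟨hP, α, hα, h⟩ ⟨hQ, β, hβ, h'⟩ hv
    refine ⟨hP, β * α, mul_mem hβ hα, fun x => ?_⟩
    show ψ ⟨φ x, hv x⟩ = _
    rw [h', MulAut.mul_apply]
    have : (⟨φ x, hQ (hv x)⟩ : S) = α ⟨x, hP x.2⟩ := Subtype.ext (h x)
    rw [← this]
  inv_mem := by
    rintro P φ ⟨hP, α, hα, h⟩
    have hr : φ.range ≤ S := by
      rintro _ ⟨x, rfl⟩
      rw [h]
      exact (α _).2
    refine ⟨(S.subtype.comp (α⁻¹ : MulAut S).toMonoidHom).comp (Subgroup.inclusion hr),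
      ⟨hr, α⁻¹, inv_mem hα, fun x => rfl⟩, fun x => ?_⟩
    show ((α⁻¹ ⟨φ x, _⟩ : S) : Ω) = x
    have : (⟨φ x, hr ⟨x, rfl⟩⟩ : S) = α ⟨x, hP x.2⟩ := Subtype.ext (h x)
    rw [this]
    simp

theorem mem_autSystem_hom {A : Subgroup (MulAut S)} {hA : Inn S ≤ A} {P : Subgroup Ω} {φ : P →* Ω} :
    φ ∈ (autSystem A hA).Hom P ↔
      ∃ hP : P ≤ S, ∃ α ∈ A, ∀ x : P, φ x = ((α ⟨x, hP x.2⟩ : S) : Ω) := Iff.rfl

theorem autSystem_autGroup_top (A : Subgroup (MulAut S)) (hA : Inn S ≤ A) :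
    (autSystem A hA).autGroup S = A := by
  ext α
  rw [mem_autGroup_iff _ le_rfl]
  constructor
  · rintro ⟨_, β, hβ, h⟩
    have : α = β := by
      ext x
      exact h x
    rw [this]
    exact hβ
  · intro hα
    exact ⟨le_rfl, α, hα, fun x => rfl⟩

theorem autSystem_isNormal_top (A : Subgroup (MulAut S)) (hA : Inn S ≤ A) :
    (autSystem A hA).IsNormal S := by
  refine ⟨le_rfl, ?_⟩
  rintro P φ ⟨hP, α, hα, h⟩
  have hle : P ⊔ S ≤ S := sup_le hP le_rfl
  refine ⟨(S.subtype.comp α.toMonoidHom).comp (Subgroup.inclusion hle), ⟨hle, α, hα, fun x => rfl⟩,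
    fun x => (h x).symm, ?_⟩
  rw [map_subgroupOf_eq_iff le_sup_right]
  refine ⟨fun x => (α _).2, fun y hy => ⟨α⁻¹ ⟨y, hy⟩, ?_⟩⟩
  show ((α (α⁻¹ ⟨y, hy⟩) : S) : Ω) = y
  simp

theorem eq_autSystem_of_isNormal_top [Finite S] {F : FusionSystem S} (h : F.IsNormal S) :
    F = autSystem (F.autGroup S) ((inn_le_autInducedBy le_rfl).trans (autInducedBy_le_autGroup F le_rfl)) := by
  apply fusionSystem_ext
  intro P
  ext φ
  constructor
  · intro hφ
    obtain ⟨α, hα, hα'⟩ := exists_aut_top_of_isNormal_top h hφ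
    exact ⟨source_le F hφ, α, hα, hα'⟩
  · rintro ⟨hP, α, hα, h'⟩
    exact restrict_mem' F hP ((mem_autGroup_iff F le_rfl α).1 hα) h'

theorem autSystem_isSubsystemOf {T : Subgroup Ω} (F : FusionSystem S) (hT : T ≤ S)
    (A : Subgroup (MulAut T)) (hA : Inn T ≤ A) (h : A ≤ F.autGroup T) :
    (autSystem A hA).IsSubsystemOf F := by
  rintro P φ ⟨hP, α, hα, h'⟩
  exact restrict_mem' F hP ((mem_autGroup_iff F hT α).1 (h hα)) h'

theorem restrict_pow {P : Subgroup Ω} (hP : P ≤ S) {γ : MulAut P} {α : MulAut S}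
    (h : ∀ x : P, ((γ x : P) : Ω) = ((α ⟨x, hP x.2⟩ : S) : Ω)) (j : ℕ) (x : P) :
    (((γ ^ j) x : P) : Ω) = (((α ^ j) ⟨x, hP x.2⟩ : S) : Ω) := by
  induction j generalizing x with
  | zero => rfl
  | succ j ih =>
    rw [pow_succ', pow_succ', MulAut.mul_apply, MulAut.mul_apply, h]
    have : (⟨(((γ ^ j) x : P) : Ω), hP ((γ ^ j) x).2⟩ : S) = (α ^ j) ⟨x, hP x.2⟩ := Subtype.ext (ih x)
    rw [this]

theorem autSystem_saturated [Finite S] {p : ℕ} [Fact p.Prime] (hS : IsPGroup p S)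
    (A : Subgroup (MulAut S)) (hA : Inn S ≤ A)
    (hp : ∀ α ∈ A, (∃ k : ℕ, α ^ (p ^ k) = 1) → α ∈ Inn S) : (autSystem A hA).IsSaturated p := by
  intro P hP
  refine ⟨P, isConj_refl _ hP, ⟨hP, ?_⟩, hP, ?_⟩
  · have hpel : ∀ γ ∈ (autSystem A hA).autGroup P, (∃ k : ℕ, γ ^ (p ^ k) = 1) →
        γ ∈ autInducedBy S P := by
      rintro γ hγ ⟨k, hk⟩
      obtain ⟨_, α, hα, h⟩ := (mem_autGroup_iff _ hP γ).1 hγ
      have h' : ∀ x : P, ((γ x : P) : Ω) = ((α ⟨x, hP x.2⟩ : S) : Ω) := h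
      obtain ⟨j, m, hm, hn⟩ := Nat.exists_eq_pow_mul_and_not_dvd (n := orderOf α)
        (orderOf_pos α).ne' p (Nat.Prime.ne_one Fact.out)
      have hcop : m.Coprime (orderOf γ) := by
        have h1 : orderOf γ ∣ p ^ k := orderOf_dvd_of_pow_eq_one hk
        have h2 : m.Coprime (p ^ k) :=
          Nat.Coprime.pow_right k (((Fact.out : p.Prime).coprime_iff_not_dvd.2 hm).symm)
        exact Nat.Coprime.coprime_dvd_right h1 h2
      obtain ⟨t, ht⟩ := exists_pow_eq_self_of_coprime hcop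
      have hα' : (α ^ m) ^ t ∈ Inn S := by
        refine hp _ (pow_mem (pow_mem hα _) _) ⟨j, ?_⟩
        have e : m * (t * p ^ j) = (p ^ j * m) * t := by ring
        rw [← pow_mul, ← pow_mul, e, ← hn, pow_mul, pow_orderOf_eq_one, one_pow]
      obtain ⟨g, hg⟩ := hα'
      refine (mem_autInducedBy_iff _ _ _).2 ⟨g, g.2, fun x => ?_⟩
      have e1 : (((γ ^ (m * t)) x : P) : Ω) = _ := restrict_pow hP h' (m * t) x
      rw [pow_mul, ht, pow_mul, ← hg] at e1
      exact e1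
    refine ⟨⟨(autInducedBy S P).subgroupOf ((autSystem A hA).autGroup P), ?_, ?_⟩, rfl⟩
    · exact (autInducedBy_isPGroup hS P).comap_subtype
    · intro Q hQ hle'
      apply le_antisymm ?_ hle'
      intro γ hγ
      obtain ⟨k, hk⟩ := hQ ⟨γ, hγ⟩
      refine Subgroup.mem_subgroupOf.2 (hpel γ γ.2 ⟨k, ?_⟩)
      have := congrArg (fun z : Q => ((z : (autSystem A hA).autGroup P) : MulAut P)) hk
      simpa using this
  · rintro R φ ⟨hR, α, hα, h⟩ hr
    have hle : extender S R φ ≤ S := (extender_le S R φ).trans inf_le_left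
    refine ⟨(S.subtype.comp α.toMonoidHom).comp (Subgroup.inclusion hle),
      ⟨hle, α, hα, fun x => rfl⟩, fun x hx hN => ?_⟩
    exact (h ⟨x, hx⟩).symm

theorem exists_prime_orderOf_of_not_isPGroup {G : Type*} [Group G] [Finite G] {p : ℕ}
    (h : ¬ IsPGroup p G) : ∃ q : ℕ, q.Prime ∧ q ≠ p ∧ ∃ g : G, orderOf g = q := by
  by_contra hcon
  apply h
  have : ∀ {d : ℕ}, d.Prime → d ∣ Nat.card G → d = p := by
    intro d hd hdvd
    by_contra hne
    have : Fact d.Prime := ⟨hd⟩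
    obtain ⟨g, hg⟩ := exists_prime_orderOf_dvd_card' d hdvd
    exact hcon ⟨d, hd, hne, g, hg⟩
  exact IsPGroup.of_card (Nat.eq_prime_pow_of_unique_prime_dvd Nat.card_pos.ne' this)

theorem pElement_mem_inn_of_mem_sup {T : Type*} [Group T] {p : ℕ} (H : Subgroup (MulAut T)) [Finite H]
    (hH : (Nat.card H).Coprime p) (α : MulAut T) (hα : α ∈ Inn T ⊔ H) (hp : ∃ k : ℕ, α ^ (p ^ k) = 1) :
    α ∈ Inn T := by
  obtain ⟨k, hk⟩ := hp
  have hle : Inn T ⊔ H ≤ (H.map (QuotientGroup.mk' (Inn T))).comap (QuotientGroup.mk' (Inn T)) := by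
    refine sup_le ?_ (Subgroup.le_comap_map _ _)
    intro x hx
    refine ⟨1, one_mem _, ?_⟩
    rw [map_one]
    exact ((QuotientGroup.eq_one_iff x).2 hx).symm
  obtain ⟨h, hh, hhα⟩ := hle hα
  have h1 : (QuotientGroup.mk' (Inn T) α) ^ Nat.card H = 1 := by
    rw [← hhα, ← map_pow]
    have : (⟨h, hh⟩ : H) ^ Nat.card H = 1 := pow_card_eq_one'
    have h2 : h ^ Nat.card H = 1 := congrArg Subtype.val this
    rw [h2, map_one]
  have h2 : (QuotientGroup.mk' (Inn T) α) ^ (p ^ k) = 1 := by rw [← map_pow, hk, map_one]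
  have h3 := pow_gcd_eq_one.2 ⟨h1, h2⟩
  rw [Nat.Coprime.gcd_eq_one (Nat.Coprime.pow_right k hH), pow_one] at h3
  exact (QuotientGroup.eq_one_iff α).1 h3

theorem autSystem_sup_saturated [Finite S] {p : ℕ} [Fact p.Prime] (hS : IsPGroup p S)
    (H : Subgroup (MulAut S)) (hH : (Nat.card H).Coprime p) :
    (autSystem (Inn S ⊔ H) le_sup_left).IsSaturated p :=
  autSystem_saturated hS _ _ (fun α hα hp => pElement_mem_inn_of_mem_sup H hH α hα hp)

end Cfsg.Agent.Lib.Helper27
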