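import Cfsg.Agent.Lib.Helper27.FusionBasic

/-!
The full subsystem of a fusion system on a subgroup.
-/

set_option autoImplicit false

namespace Cfsg.Agent.Lib.Helper27

open Cfsg Cfsg.FusionSystem

variable {Ω : Type*} [Group Ω] {S : Subgroup Ω}

/-- The full subsystem of `F` on the subgroup `T ≤ S`: all maps of `F` between subgroups of `T`. -/
def restrictSystem (F : FusionSystem S) (T : Subgroup Ω) (hTS : T ≤ S) : FusionSystem T where
  Hom P := {φ | φ ∈ F.Hom P ∧ P ≤ T ∧ ∀ x, φ x ∈ T}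
  le_of_mem h := ⟨h.2.1, h.2.2⟩
  injective_of_mem h := F.injective_of_mem h.1
  conj_mem {P g} hP hg := ⟨F.conj_mem (hP.trans hTS) (hTS hg), hP,
    fun x => T.mul_mem (T.mul_mem hg (hP x.2)) (T.inv_mem hg)⟩
  comp_mem h1 h2 h := ⟨F.comp_mem h1.1 h2.1 h, h1.2.1, fun _ => h2.2.2 _⟩
  inv_mem {P φ} h := by
    obtain ⟨ψ, hψ, h'⟩ := F.inv_mem h.1
    refine ⟨ψ, ⟨hψ, ?_, ?_⟩, h'⟩
    · rintro _ ⟨x, rfl⟩
      exact h.2.2 x
    · rintro ⟨_, x, rfl⟩
      rw [h' x]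
      exact h.2.1 x.2

theorem mem_restrictSystem_autGroup (F : FusionSystem S) {T : Subgroup Ω} (hTS : T ≤ S) {P : Subgroup Ω}
    (hPT : P ≤ T) (α : MulAut P) : α ∈ (restrictSystem F T hTS).autGroup P ↔ α ∈ F.autGroup P := by
  rw [mem_autGroup_iff _ hPT, mem_autGroup_iff F (hPT.trans hTS)]
  exact ⟨fun h => h.1, fun h => ⟨h, hPT, fun x => hPT (α x).2⟩⟩

end Cfsg.Agent.Lib.Helper27
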