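import Cfsg.Agent.Lib.Helper27.FusionChain
import Cfsg.Agent.Lib.Helper27.FusionAbelian
import Cfsg.Agent.Lib.Helper27.FusionTheta
import Cfsg.Agent.Lib.Helper26.FusionDefs

/-!
Invariant subsystems over a strongly closed subgroup: transport of normal subgroups.
-/

set_option autoImplicit false

namespace Cfsg.Agent.Lib.Helper27

open Cfsg Cfsg.FusionSystem
open Cfsg.Agent.Lib.Helper26 (IsMap img autFun toFun)

variable {Ω : Type*} [Group Ω] {S T : Subgroup Ω}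

theorem autFun_inv_autFun {P : Subgroup Ω} (α : MulAut P) {x : Ω} (hx : x ∈ P) :
    autFun α⁻¹ (autFun α x) = x := by
  rw [Helper26.autFun_of_mem α hx, Helper26.autFun_apply]
  simp

theorem autFun_autFun_inv {P : Subgroup Ω} (α : MulAut P) {x : Ω} (hx : x ∈ P) :
    autFun α (autFun α⁻¹ x) = x := by
  rw [Helper26.autFun_of_mem α⁻¹ hx, Helper26.autFun_apply]
  simp

/-- invariance in function-level form -/
theorem invariant_isMap {E : FusionSystem T} {F : FusionSystem S} (hE : E.IsInvariantIn F)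
    {P : Subgroup Ω} (hPT : P ≤ T) {f : Ω → Ω} (hf : IsMap E P f) {α : MulAut T}
    (hα : α ∈ F.autGroup T) :
    IsMap E (img P (autFun α)) (fun y => autFun α (f (autFun α⁻¹ y))) := by
  obtain ⟨φ, hφ, hφf⟩ := hf
  obtain ⟨χ, hχ, hχ'⟩ := hE.2.2.1 P hPT φ hφ α hα
  have hsub : (P.subgroupOf T).map (T.subtype.comp α.toMonoidHom) = img P (autFun α) :=
    Helper26.map_subgroupOf_eq_img hPT _
  refine ⟨χ.comp (Subgroup.inclusion hsub.ge), hom_congr E hsub hχ (fun x h1 h2 => rfl), ?_⟩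
  rintro ⟨y, hy⟩
  have hy' := hy
  rw [← hsub] at hy'
  obtain ⟨⟨x, hxT⟩, hxP, rfl⟩ := hy'
  have hxP' : x ∈ P := Subgroup.mem_subgroupOf.1 hxP
  have hφT : φ ⟨x, hxP'⟩ ∈ T := (E.le_of_mem hφ).2 _
  have h1 := hχ' ⟨x, hxP'⟩ hφT (by rw [hsub]; exact hy)
  show χ ⟨((α ⟨x, hxT⟩ : T) : Ω), _⟩ = autFun α (f (autFun α⁻¹ ((α ⟨x, hxT⟩ : T) : Ω)))
  rw [Helper26.autFun_apply]
  have e1 : ((α⁻¹ (α ⟨x, hxT⟩) : T) : Ω) = x := by simp
  rw [e1, ← hφf ⟨x, hxP'⟩, Helper26.autFun_of_mem α hφT]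
  exact h1

theorem img_id' (P : Subgroup Ω) {f : Ω → Ω} (hf : ∀ x ∈ P, f x = x) : img P f = P := by
  apply le_antisymm
  · apply (Subgroup.closure_le _).2
    rintro _ ⟨x, hx, rfl⟩
    rw [hf x hx]
    exact hx
  · intro x hx
    have := Helper26.mem_img_of_mem (f := f) hx
    rwa [hf x hx] at this

/-- The image of a normal subgroup of an invariant subsystem under an element of `Aut_F(T)` is again normal. -/
theorem isNormal_img_of_invariant {E : FusionSystem T} {F : FusionSystem S} (hE : E.IsInvariantIn F)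
    {R : Subgroup Ω} (hR : E.IsNormal R) {α : MulAut T} (hα : α ∈ F.autGroup T) :
    E.IsNormal (img R (autFun α)) := by
  have hTS : T ≤ S := hE.2.1.1
  have hRT : R ≤ T := hR.1
  have ha : IsMap F T (autFun α) := (Helper26.mem_autGroup_iff hTS).1 hα
  have ha' : IsMap F T (autFun α⁻¹) := (Helper26.mem_autGroup_iff hTS).1 (inv_mem hα)
  have himgT : ∀ {P : Subgroup Ω} (β : MulAut T), P ≤ T → img P (autFun β) ≤ T := by
    intro P β hP
    apply (Subgroup.closure_le _).2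
    rintro _ ⟨x, hx, rfl⟩
    exact Helper26.autFun_mem β (hP hx)
  rw [Helper26.isNormal_iff]
  refine ⟨himgT α hRT, fun P f hf => ?_⟩
  have hPT : P ≤ T := hf.le
  have h1 := invariant_isMap hE hPT hf (inv_mem hα)
  rw [inv_inv] at h1
  obtain ⟨g, hg, hgP, hgR⟩ := (Helper26.isNormal_iff.1 hR).2 _ _ h1
  have hP'T : img P (autFun α⁻¹) ≤ T := himgT α⁻¹ hPT
  have hsupT : img P (autFun α⁻¹) ⊔ R ≤ T := sup_le hP'T hRT
  have h2 := invariant_isMap hE hsupT hg hα
  have e1 : img (img P (autFun α⁻¹)) (autFun α) = P := by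
    rw [← Helper26.IsMap.img_comp (ha'.mono hPT) ha (fun x hx => Helper26.autFun_mem _ (hPT hx))]
    exact img_id' P (fun x hx => autFun_autFun_inv α (hPT hx))
  have e2 : img (img P (autFun α⁻¹) ⊔ R) (autFun α) = P ⊔ img R (autFun α) := by
    rw [ha.img_sup hP'T hRT, e1]
  rw [e2] at h2
  refine ⟨_, h2, fun x hx => ?_, ?_⟩
  · show autFun α (g (autFun α⁻¹ x)) = f x
    rw [hgP _ (Helper26.mem_img_of_mem hx), autFun_autFun_inv α (hPT hx),
      autFun_autFun_inv α (hf.mem_S hx)]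
  · have h3 := h2.mono (le_sup_right : img R (autFun α) ≤ P ⊔ img R (autFun α))
    have hgR' : IsMap E R g := hg.mono le_sup_right
    have haR : IsMap F R (autFun α) := ha.mono hRT
    apply le_antisymm
    · intro y hy
      obtain ⟨x, hx, rfl⟩ := h3.mem_img.1 hy
      obtain ⟨r, hr, rfl⟩ := haR.mem_img.1 hx
      show autFun α (g (autFun α⁻¹ (autFun α r))) ∈ _
      rw [autFun_inv_autFun α (hRT hr)]
      apply Helper26.mem_img_of_mem
      rw [← hgR]
      exact Helper26.mem_img_of_mem hr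
    · intro y hy
      obtain ⟨r, hr, rfl⟩ := haR.mem_img.1 hy
      rw [← hgR] at hr
      obtain ⟨r', hr', rfl⟩ := hgR'.mem_img.1 hr
      apply h3.mem_img.2
      refine ⟨autFun α r', Helper26.mem_img_of_mem hr', ?_⟩
      show autFun α (g (autFun α⁻¹ (autFun α r'))) = _
      rw [autFun_inv_autFun α (hRT hr')]

/-- The invariance clause holds for inner systems with respect to every automorphism. -/
theorem inner_invariant_clause (P : Subgroup Ω) (hPT : P ≤ T) (φ : P →* Ω)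
    (hφ : φ ∈ (innerFusionSystem T).Hom P) (α : MulAut T) :
    ∃ χ ∈ (innerFusionSystem T).Hom ((P.subgroupOf T).map (T.subtype.comp α.toMonoidHom)),
      ∀ (x : P) (hφx : φ x ∈ T)
        (hαx : ((α ⟨x, hPT x.2⟩ : T) : Ω) ∈ (P.subgroupOf T).map (T.subtype.comp α.toMonoidHom)),
        χ ⟨(α ⟨x, hPT x.2⟩ : T), hαx⟩ = ((α ⟨φ x, hφx⟩ : T) : Ω) := by
  obtain ⟨-, g, hg, h⟩ := hφ
  have hle : (P.subgroupOf T).map (T.subtype.comp α.toMonoidHom) ≤ T := by
    rintro _ ⟨y, -, rfl⟩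
    exact (α y).2
  refine ⟨conjHom _ ((α ⟨g, hg⟩ : T) : Ω), (innerFusionSystem T).conj_mem hle (α ⟨g, hg⟩).2, ?_⟩
  intro x hφx hαx
  show ((α ⟨g, hg⟩ : T) : Ω) * ((α ⟨x, hPT x.2⟩ : T) : Ω) * ((α ⟨g, hg⟩ : T) : Ω)⁻¹ = _
  have : (⟨φ x, hφx⟩ : T) = ⟨g, hg⟩ * ⟨x, hPT x.2⟩ * ⟨g, hg⟩⁻¹ := Subtype.ext (h x)
  rw [this, map_mul, map_mul, map_inv]
  rfl

end Cfsg.Agent.Lib.Helper27
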