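import Mathlib
import Cfsg.Prelude.Def_MonsterType
import Cfsg.Agent.Lib.Helper17.Core

set_option autoImplicit false

namespace Cfsg.Agent.Lib.Helper27

open Cfsg
open scoped commutatorElement

variable {G : Type*} [Group G] [Finite G]

omit [Finite G] in
/-- A 2-subgroup and an odd-order subgroup meet trivially. -/
theorem eq_one_of_mem_two_odd {P K : Subgroup G} (hP : IsPGroup 2 P) (hK : Odd (Nat.card K))
    {x : G} (hxP : x ∈ P) (hxK : x ∈ K) : x = 1 := by
  obtain ⟨k, hk⟩ := hP ⟨x, hxP⟩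
  have h1 : x ^ 2 ^ k = 1 := by simpa using congrArg Subtype.val hk
  have h2 : x ^ Nat.card K = 1 := by
    have h := congrArg Subtype.val (pow_card_eq_one' (G := K) (x := ⟨x, hxK⟩))
    rwa [Subgroup.coe_pow] at h
  have h3 : orderOf x ∣ Nat.gcd (2 ^ k) (Nat.card K) :=
    Nat.dvd_gcd (orderOf_dvd_of_pow_eq_one h1) (orderOf_dvd_of_pow_eq_one h2)
  have h4 : Nat.gcd (2 ^ k) (Nat.card K) = 1 := by
    apply Nat.Coprime.pow_left
    exact (Nat.coprime_two_left).mpr hK
  rw [h4] at h3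
  exact orderOf_eq_one_iff.mp (Nat.dvd_one.mp h3)

omit [Finite G] in
theorem conj_mem_of_normalizer {K : Subgroup G} {t k : G}
    (ht : t ∈ Subgroup.normalizer (K : Set G)) (hk : k ∈ K) : t * k * t⁻¹ ∈ K :=
  (Subgroup.mem_normalizer_iff.mp ht k).mp hk

/-- A fixed-point-free involution inverts. -/
theorem inverts_of_fpf {K : Subgroup G} {t : G} (ht2 : t * t = 1)
    (ht : t ∈ Subgroup.normalizer (K : Set G))
    (hfpf : ∀ k ∈ K, t * k = k * t → k = 1) : ∀ k ∈ K, t * k * t⁻¹ = k⁻¹ := by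
  have htinv : t⁻¹ = t := inv_eq_of_mul_eq_one_left ht2
  let f : K → K := fun k => ⟨(k : G)⁻¹ * (t * k * t⁻¹),
    K.mul_mem (K.inv_mem k.2) (conj_mem_of_normalizer ht k.2)⟩
  have hinj : Function.Injective f := by
    intro k l hkl
    have h1 : (k : G)⁻¹ * (t * k * t⁻¹) = (l : G)⁻¹ * (t * l * t⁻¹) := congrArg Subtype.val hkl
    have h2 : (l : G) * (k : G)⁻¹ = 1 := by
      apply hfpf _ (K.mul_mem l.2 (K.inv_mem k.2))
      have h3 : (l : G) * (k : G)⁻¹ = (t * l * t⁻¹) * (t * k * t⁻¹)⁻¹ := by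
        rw [eq_mul_inv_iff_mul_eq, mul_assoc, h1]; group
      have h4 : (t * l * t⁻¹) * (t * k * t⁻¹)⁻¹ = t * ((l : G) * (k : G)⁻¹) * t⁻¹ := by group
      rw [h4] at h3
      calc t * ((l : G) * (k : G)⁻¹) = (t * ((l : G) * (k : G)⁻¹) * t⁻¹) * t := by group
        _ = (l : G) * (k : G)⁻¹ * t := by rw [← h3]
    apply Subtype.ext
    exact (mul_inv_eq_one.mp h2).symm
  have hsurj : Function.Surjective f := Finite.injective_iff_surjective.mp hinj
  intro k hk
  obtain ⟨l, hl⟩ := hsurj ⟨k, hk⟩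
  have h1 : (l : G)⁻¹ * (t * l * t⁻¹) = k := congrArg Subtype.val hl
  rw [← h1, htinv]
  have : t * ((l : G)⁻¹ * (t * l * t)) * t = (t * (l : G)⁻¹ * t) * (l * (t * t)) := by
    group
  rw [this, ht2]
  simp only [mul_one, mul_inv_rev, inv_inv]
  rw [htinv]; group

section core
variable (Q : Subgroup G) (hL1 : Cfsg.IsExtraspecial 2 ↥Q)
  (hL2 : Subgroup.centralizer (Q : Set G) = ((Subgroup.center ↥Q).map Q.subtype))
  (hL3 : Subgroup.centralizer (((Subgroup.center ↥Q).map Q.subtype) : Set G)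
    ≤ Subgroup.normalizer (Q : Set G))

include hL1 hL2 hL3 in
/-- An odd-order `Q`-invariant subgroup centralizing `Z(Q)` is trivial. -/
theorem largeExtra_core {K : Subgroup G} (hK : Odd (Nat.card K))
    (hQK : Q ≤ Subgroup.normalizer (K : Set G))
    (hKZ : K ≤ Subgroup.centralizer (((Subgroup.center ↥Q).map Q.subtype) : Set G)) : K = ⊥ := by
  have hQ2 : IsPGroup 2 Q := hL1.1.1
  have h1 : K ≤ Subgroup.centralizer (Q : Set G) := by
    intro k hk
    rw [Subgroup.mem_centralizer_iff]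
    intro x hx
    have hx' : x ∈ Q := hx
    have hkN : k ∈ Subgroup.normalizer (Q : Set G) := hL3 (hKZ hk)
    have h2 : x * k * x⁻¹ * k⁻¹ = 1 := by
      apply eq_one_of_mem_two_odd hQ2 hK
      · have : x * k * x⁻¹ * k⁻¹ = x * (k * x⁻¹ * k⁻¹) := by group
        rw [this]
        exact Q.mul_mem hx' (conj_mem_of_normalizer hkN (Q.inv_mem hx'))
      · exact K.mul_mem (conj_mem_of_normalizer (hQK hx') hk) (K.inv_mem hk)
    calc x * k = (x * k * x⁻¹ * k⁻¹) * (k * x) := by group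
      _ = k * x := by rw [h2, one_mul]
  rw [eq_bot_iff]
  intro k hk
  have h2 : k ∈ (Subgroup.center ↥Q).map Q.subtype := hL2 ▸ h1 hk
  obtain ⟨y, -, rfl⟩ := h2
  exact Subgroup.mem_bot.mpr (eq_one_of_mem_two_odd hQ2 hK y.2 hk)

include hL1 hL2 hL3 in
theorem largeExtra_of_two_core
    (hZ : ((Subgroup.center ↥Q).map Q.subtype) ≤ Cfsg.pCore 2 G) : Cfsg.IsLargeExtraspecial Q := by
  refine ⟨hL1, hL2, hL3, ?_⟩
  intro K hK hQK
  apply largeExtra_core Q hL1 hL2 hL3 hK hQK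
  intro k hk
  rw [Subgroup.mem_centralizer_iff]
  intro z hz
  have hzQ : z ∈ Q := by obtain ⟨y, -, rfl⟩ := hz; exact y.2
  have hzO : z ∈ Cfsg.pCore 2 G := hZ hz
  have h2 : z * k * z⁻¹ * k⁻¹ = 1 := by
    apply eq_one_of_mem_two_odd (Cfsg.Agent.Lib.Helper17.pCore_isPGroup) hK
    · have : z * k * z⁻¹ * k⁻¹ = z * (k * z⁻¹ * k⁻¹) := by group
      rw [this]
      exact mul_mem hzO ((Cfsg.pCore_normal 2 G).conj_mem _ (inv_mem hzO) k)
    · exact K.mul_mem (conj_mem_of_normalizer (hQK hzQ) hk) (K.inv_mem hk)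
  calc z * k = (z * k * z⁻¹ * k⁻¹) * (k * z) := by group
      _ = k * z := by rw [h2, one_mul]

include hL1 hL2 hL3 in
theorem largeExtra_of_invol (b : G) (hbQ : b ∈ Q)
    (hbZ : b ∉ ((Subgroup.center ↥Q).map Q.subtype)) (hb : orderOf b = 2)
    (hZ : ((Subgroup.center ↥Q).map Q.subtype) ≤
      (Cfsg.pCore 2 ↥(Subgroup.centralizer ({b} : Set G))).map
        (Subgroup.centralizer ({b} : Set G)).subtype) : Cfsg.IsLargeExtraspecial Q := by
  refine ⟨hL1, hL2, hL3, ?_⟩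
  intro K hK hQK
  set Z : Subgroup G := (Subgroup.center ↥Q).map Q.subtype with hZdef
  have hQCZ : Q ≤ Subgroup.centralizer (Z : Set G) := by
    intro x hx
    rw [Subgroup.mem_centralizer_iff]
    rintro _ ⟨y, hy, rfl⟩
    have := Subgroup.mem_center_iff.mp hy ⟨x, hx⟩
    exact (congrArg Subtype.val this).symm
  -- step 2
  have hCZ : ∀ k ∈ K, (∀ z ∈ Z, z * k = k * z) → k = 1 := by
    intro k hk hkz
    have hbot : K ⊓ Subgroup.centralizer (Z : Set G) = ⊥ := by
      apply largeExtra_core Q hL1 hL2 hL3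
      · exact Odd.of_dvd_nat hK (Subgroup.card_dvd_of_le inf_le_left)
      · intro x hx
        rw [Subgroup.mem_normalizer_iff]
        intro h
        rw [Subgroup.mem_inf, Subgroup.mem_inf, ← Subgroup.mem_normalizer_iff.mp (hQK hx) h,
          (Subgroup.centralizer (Z : Set G)).mul_mem_cancel_right
            ((Subgroup.centralizer (Z : Set G)).inv_mem (hQCZ hx)),
          (Subgroup.centralizer (Z : Set G)).mul_mem_cancel_left (hQCZ hx)]
      · exact inf_le_right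
    have : k ∈ K ⊓ Subgroup.centralizer (Z : Set G) :=
      ⟨hk, Subgroup.mem_centralizer_iff.mpr fun z hz => hkz z hz⟩
    rw [hbot] at this
    exact Subgroup.mem_bot.mp this
  -- step 3
  have hb' : (⟨b, hbQ⟩ : Q) ∉ Subgroup.center Q := fun h => hbZ ⟨_, h, rfl⟩
  rw [Subgroup.mem_center_iff] at hb'
  push Not at hb'
  obtain ⟨x', hx'⟩ := hb'
  set b' : Q := ⟨b, hbQ⟩ with hb'def
  have hz'mem : ⁅x', b'⁆ ∈ Subgroup.center Q := by
    rw [← hL1.1.2.2]
    exact Subgroup.commutator_mem_commutator (Subgroup.mem_top _) (Subgroup.mem_top _)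
  have hz'ne : ⁅x', b'⁆ ≠ 1 := by
    intro h
    exact hx' (commutatorElement_eq_one_iff_mul_comm.mp h)
  have hZ2 : ∀ y ∈ Subgroup.center Q, y = 1 ∨ y = ⁅x', b'⁆ := by
    intro y hy
    by_cases hy1 : y = 1
    · exact Or.inl hy1
    · right
      obtain ⟨w, -, hw⟩ := (Nat.card_eq_two_iff' (1 : Subgroup.center Q)).mp hL1.2
      have h1 := hw ⟨y, hy⟩ (fun h => hy1 (congrArg Subtype.val h))
      have h2 := hw ⟨_, hz'mem⟩ (fun h => hz'ne (congrArg Subtype.val h))
      exact congrArg Subtype.val (h1.trans h2.symm)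
  set x : G := (x' : G) with hxdef
  have hxQ : x ∈ Q := x'.2
  set z : G := x * b * x⁻¹ * b⁻¹ with hzdef
  have hzz' : ((⁅x', b'⁆ : Q) : G) = z := by
    simp [commutatorElement_def, hzdef, hxdef, hb'def]
  have hzZ : z ∈ Z := ⟨_, hz'mem, hzz'⟩
  have hzQ : z ∈ Q := hzz' ▸ (⁅x', b'⁆ : Q).2
  have hzsq : z * z = 1 := by
    have h1 : (⟨_, hz'mem⟩ : Subgroup.center Q) ^ 2 = 1 := by
      have := pow_card_eq_one' (G := Subgroup.center Q) (x := ⟨_, hz'mem⟩)
      rwa [hL1.2] at this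
    have h2 := congrArg (fun w : Subgroup.center Q => ((w : Q) : G)) h1
    simp only [Subgroup.coe_pow, Subgroup.coe_one, hzz'] at h2
    rwa [pow_two] at h2
  have hbsq : b * b = 1 := by
    rw [← pow_two, ← hb]; exact pow_orderOf_eq_one b
  -- step 5
  have hfz : ∀ k ∈ K, z * k = k * z → k = 1 := by
    intro k hk hkz
    apply hCZ k hk
    rintro _ ⟨y, hy, rfl⟩
    rcases hZ2 y hy with rfl | rfl
    · simp
    · rw [Subgroup.subtype_apply, hzz']; exact hkz
  -- step 6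
  have hfb : ∀ k ∈ K, b * k = k * b → k = 1 := by
    intro k hk hkb
    apply hfz k hk
    have hkC : k ∈ Subgroup.centralizer ({b} : Set G) := by
      rw [Subgroup.mem_centralizer_singleton_iff]; exact hkb.symm
    have hP : IsPGroup 2 ((Cfsg.pCore 2 ↥(Subgroup.centralizer ({b} : Set G))).map
        (Subgroup.centralizer ({b} : Set G)).subtype) :=
      (Cfsg.Agent.Lib.Helper17.pCore_isPGroup).map _
    have h2 : z * k * z⁻¹ * k⁻¹ = 1 := by
      apply eq_one_of_mem_two_odd hP hK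
      · have : z * k * z⁻¹ * k⁻¹ = z * (k * z⁻¹ * k⁻¹) := by group
        rw [this]
        refine mul_mem (hZ hzZ) ?_
        obtain ⟨w, hw, hwz⟩ := hZ hzZ
        refine ⟨⟨k, hkC⟩ * w⁻¹ * ⟨k, hkC⟩⁻¹,
          (Cfsg.pCore_normal 2 _).conj_mem _ (inv_mem hw) _, ?_⟩
        simp only [Subgroup.subtype_apply] at hwz
        simp [hwz]
      · exact K.mul_mem (conj_mem_of_normalizer (hQK hzQ) hk) (K.inv_mem hk)
    calc z * k = (z * k * z⁻¹ * k⁻¹) * (k * z) := by group
      _ = k * z := by rw [h2, one_mul]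
  have hiz := inverts_of_fpf hzsq (hQK hzQ) hfz
  have hib := inverts_of_fpf hbsq (hQK hbQ) hfb
  rw [eq_bot_iff]
  intro k hk
  rw [Subgroup.mem_bot]
  have hk' : x⁻¹ * k * x ∈ K := by
    have := conj_mem_of_normalizer (hQK (Q.inv_mem hxQ)) hk
    simpa using this
  have h1 : x⁻¹ * k * x = 1 := by
    apply hfb _ hk'
    -- z b commutes with k
    have h3 : (z * b) * k * (z * b)⁻¹ = k := by
      have : (z * b) * k * (z * b)⁻¹ = z * (b * k * b⁻¹) * z⁻¹ := by group
      rw [this, hib k hk, hiz _ (K.inv_mem hk), inv_inv]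
    have h4 : z * b = x * b * x⁻¹ := by rw [hzdef]; group
    rw [h4] at h3
    have h5 : x * b * x⁻¹ * k = k * (x * b * x⁻¹) := by
      calc x * b * x⁻¹ * k = (x * b * x⁻¹ * k * (x * b * x⁻¹)⁻¹) * (x * b * x⁻¹) := by group
        _ = k * (x * b * x⁻¹) := by rw [h3]
    calc b * (x⁻¹ * k * x) = x⁻¹ * (x * b * x⁻¹ * k) * x := by group
      _ = x⁻¹ * (k * (x * b * x⁻¹)) * x := by rw [h5]
      _ = x⁻¹ * k * x * b := by group
  calc k = x * (x⁻¹ * k * x) * x⁻¹ := by group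
    _ = 1 := by rw [h1]; group

end core

end Cfsg.Agent.Lib.Helper27
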