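import Cfsg.Agent.Lib.Helper27.LargeExtra

set_option autoImplicit false

namespace Cfsg.Agent.Lib.Helper27

open Cfsg
open scoped commutatorElement

variable {G : Type*} [Group G]

/-- Elementwise data of a subgroup `Q` satisfying (L1)-(L3), with `z` the generator of `Z(Q)`. -/
structure ESData (Q : Subgroup G) (z : G) : Prop where
  z_ne : z ≠ 1
  z_sq : z * z = 1
  z_mem : z ∈ Q
  cen : ∀ x ∈ Q, x * z = z * x
  comm : ∀ x ∈ Q, ∀ y ∈ Q, x * y * x⁻¹ * y⁻¹ = 1 ∨ x * y * x⁻¹ * y⁻¹ = z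
  cq : ∀ c : G, (∀ x ∈ Q, c * x = x * c) → c = 1 ∨ c = z
  nrm : ∀ c : G, c * z = z * c → c ∈ Subgroup.normalizer (Q : Set G)
  two : IsPGroup 2 Q

theorem ESData.z_inv {Q : Subgroup G} {z : G} (h : ESData Q z) : z⁻¹ = z :=
  inv_eq_of_mul_eq_one_left h.z_sq

/-- Conjugation transport. -/
theorem ESData.conj {Q : Subgroup G} {z : G} (h : ESData Q z) (g : G) :
    ESData (Q.map (MulAut.conj g).toMonoidHom) (g * z * g⁻¹) where
  z_ne := by
    intro h1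
    apply h.z_ne
    calc z = g⁻¹ * (g * z * g⁻¹) * g := by group
      _ = 1 := by rw [h1]; group
  z_sq := by
    calc g * z * g⁻¹ * (g * z * g⁻¹) = g * (z * z) * g⁻¹ := by group
      _ = 1 := by rw [h.z_sq]; group
  z_mem := ⟨z, h.z_mem, by simp [MulAut.conj_apply]⟩
  cen := by
    rintro _ ⟨x, hx, rfl⟩
    simp only [MulEquiv.coe_toMonoidHom, MulAut.conj_apply]
    calc g * x * g⁻¹ * (g * z * g⁻¹) = g * (x * z) * g⁻¹ := by group
      _ = g * (z * x) * g⁻¹ := by rw [h.cen x hx]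
      _ = _ := by group
  comm := by
    rintro _ ⟨x, hx, rfl⟩ _ ⟨y, hy, rfl⟩
    simp only [MulEquiv.coe_toMonoidHom, MulAut.conj_apply]
    have e : g * x * g⁻¹ * (g * y * g⁻¹) * (g * x * g⁻¹)⁻¹ * (g * y * g⁻¹)⁻¹ =
        g * (x * y * x⁻¹ * y⁻¹) * g⁻¹ := by group
    rw [e]
    rcases h.comm x hx y hy with h1 | h1
    · left; rw [h1]; group
    · right; rw [h1]
  cq := by
    intro c hc
    have h1 := h.cq (g⁻¹ * c * g) (by
      intro x hx
      have := hc (g * x * g⁻¹) ⟨x, hx, by simp [MulAut.conj_apply]⟩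
      calc g⁻¹ * c * g * x = g⁻¹ * (c * (g * x * g⁻¹)) * g := by group
        _ = g⁻¹ * (g * x * g⁻¹ * c) * g := by rw [this]
        _ = _ := by group)
    rcases h1 with h1 | h1
    · left
      calc c = g * (g⁻¹ * c * g) * g⁻¹ := by group
        _ = 1 := by rw [h1]; group
    · right
      calc c = g * (g⁻¹ * c * g) * g⁻¹ := by group
        _ = _ := by rw [h1]
  nrm := by
    intro c hc
    have h1 := h.nrm (g⁻¹ * c * g) (by
      calc g⁻¹ * c * g * z = g⁻¹ * (c * (g * z * g⁻¹)) * g := by group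
        _ = g⁻¹ * (g * z * g⁻¹ * c) * g := by rw [hc]
        _ = _ := by group)
    rw [Subgroup.mem_normalizer_iff] at h1 ⊢
    intro y
    rw [Cfsg.Agent.Lib.Helper17.mem_map_conj, Cfsg.Agent.Lib.Helper17.mem_map_conj, h1]
    have : g⁻¹ * c * g * (g⁻¹ * y * g) * (g⁻¹ * c * g)⁻¹ = g⁻¹ * (c * y * c⁻¹) * g := by group
    rw [this]
  two := h.two.map _

/-- Extract the data from (L1)-(L3). -/
theorem exists_ESData (Q : Subgroup G) (hL1 : Cfsg.IsExtraspecial 2 ↥Q)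
    (hL2 : Subgroup.centralizer (Q : Set G) = ((Subgroup.center ↥Q).map Q.subtype))
    (hL3 : Subgroup.centralizer (((Subgroup.center ↥Q).map Q.subtype) : Set G)
      ≤ Subgroup.normalizer (Q : Set G)) :
    ∃ z : G, ESData Q z ∧ ∀ y : G, y ∈ (Subgroup.center ↥Q).map Q.subtype ↔ y = 1 ∨ y = z := by
  obtain ⟨w, hw1, hw⟩ := (Nat.card_eq_two_iff' (1 : Subgroup.center Q)).mp hL1.2
  have hZ : ∀ y : G, y ∈ (Subgroup.center ↥Q).map Q.subtype ↔ y = 1 ∨ y = ((w : Q) : G) := by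
    intro y
    constructor
    · rintro ⟨y', hy', rfl⟩
      by_cases h1 : y' = 1
      · left; simp [h1]
      · right
        have := hw ⟨y', hy'⟩ (fun h => h1 (congrArg Subtype.val h))
        exact congrArg (fun t : Subgroup.center Q => ((t : Q) : G)) this
    · rintro (rfl | rfl)
      · exact one_mem _
      · exact ⟨w, w.2, rfl⟩
  refine ⟨((w : Q) : G), ?_, hZ⟩
  have hcen : ∀ x ∈ Q, x * ((w : Q) : G) = ((w : Q) : G) * x := by
    intro x hx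
    have := Subgroup.mem_center_iff.mp w.2 ⟨x, hx⟩
    exact congrArg Subtype.val this
  refine ⟨?_, ?_, (w : Q).2, hcen, ?_, ?_, ?_, hL1.1.1⟩
  · intro h
    apply hw1
    apply Subtype.ext; apply Subtype.ext; simpa using h
  · have h1 : w ^ 2 = 1 := by
      have := pow_card_eq_one' (G := Subgroup.center Q) (x := w)
      rwa [hL1.2] at this
    have h2 := congrArg (fun t : Subgroup.center Q => ((t : Q) : G)) h1
    simp only [Subgroup.coe_pow, Subgroup.coe_one] at h2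
    rwa [pow_two] at h2
  · intro x hx y hy
    have h1 : ⁅(⟨x, hx⟩ : Q), ⟨y, hy⟩⁆ ∈ Subgroup.center Q := by
      rw [← hL1.1.2.2]
      exact Subgroup.commutator_mem_commutator (Subgroup.mem_top _) (Subgroup.mem_top _)
    have h2 := (hZ _).mp ⟨_, h1, rfl⟩
    simpa [commutatorElement_def] using h2
  · intro c hc
    apply (hZ c).mp
    rw [← hL2, Subgroup.mem_centralizer_iff]
    intro x hx
    exact (hc x hx).symm
  · intro c hc
    apply hL3
    rw [Subgroup.mem_centralizer_iff]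
    intro y hy
    rcases (hZ y).mp hy with rfl | rfl
    · simp
    · exact hc.symm

/-- In a finite `p`-group `Y`, a `Y`-invariant subgroup `U` not inside `C` has an element outside
`C` all of whose commutators with `Y` fall in `C`. -/
theorem exists_central_mod {p : ℕ} [Fact p.Prime] {Y U C : Subgroup G} [Finite Y]
    (hY : IsPGroup p Y) (hUY : U ≤ Y) (hUn : ∀ y ∈ Y, ∀ u ∈ U, y * u * y⁻¹ ∈ U)
    (hC : ¬ U ≤ C) : ∃ u ∈ U, u ∉ C ∧ ∀ y ∈ Y, u * y * u⁻¹ * y⁻¹ ∈ C := by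
  classical
  have : Group.IsNilpotent Y := hY.isNilpotent
  obtain ⟨n, hn⟩ := Group.IsNilpotent.nilpotent (G := Y)
  let S : ℕ → Prop := fun i => ∃ u : Y, (u : G) ∈ U ∧ (u : G) ∉ C ∧ u ∈ Subgroup.upperCentralSeries Y i
  have hSn : ∃ i, S i := by
    obtain ⟨u, hu, huC⟩ := SetLike.not_le_iff_exists.mp hC
    exact ⟨n, ⟨u, hUY hu⟩, hu, huC, by rw [hn]; exact Subgroup.mem_top _⟩
  obtain ⟨u, huU, huC, hui⟩ := Nat.find_spec hSn
  have hmin := fun j (hj : j < Nat.find hSn) => Nat.find_min hSn hj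
  rcases hi : Nat.find hSn with _ | j
  · rw [hi] at hui
    simp only [Subgroup.upperCentralSeries_zero, Subgroup.mem_bot] at hui
    exact absurd (by rw [hui]; exact C.one_mem) huC
  · rw [hi] at hui
    refine ⟨u, huU, huC, fun y hy => ?_⟩
    by_contra hcon
    apply hmin j (by omega)
    have h1 := (Subgroup.mem_upperCentralSeries_succ_iff).mp hui ⟨y, hy⟩
    refine ⟨_, ?_, ?_, h1⟩
    · show (u : G) * y * (u : G)⁻¹ * y⁻¹ ∈ U
      have : (u : G) * y * (u : G)⁻¹ * y⁻¹ = (u : G) * (y * (u : G)⁻¹ * y⁻¹) := by group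
      rw [this]
      exact U.mul_mem huU (hUn y hy _ (U.inv_mem huU))
    · exact hcon

section main
variable {Q : Subgroup G} {z : G}

/-- A noncentral element of `Q` is conjugate in `Q` to its product with `z`. -/
theorem ESData.exists_swap (h : ESData Q z) {b : G} (hb : b ∈ Q) (hb1 : b ≠ 1) (hbz : b ≠ z) :
    ∃ y ∈ Q, y * b * y⁻¹ = z * b := by
  by_contra hcon
  push Not at hcon
  have hc : ∀ x ∈ Q, b * x = x * b := by
    intro x hx
    rcases h.comm x hx b hb with h1 | h1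
    · calc b * x = (x * b * x⁻¹ * b⁻¹)⁻¹ * (x * b) := by group
        _ = x * b := by rw [h1]; simp
    · exfalso; apply hcon x hx
      calc x * b * x⁻¹ = (x * b * x⁻¹ * b⁻¹) * b := by group
        _ = z * b := by rw [h1]
  rcases h.cq b hc with h1 | h1
  · exact hb1 h1
  · exact hbz h1

/-- `Q = C_Q(b) ∪ y₀ C_Q(b)`. -/
theorem ESData.decomp (h : ESData Q z) {b y₀ : G} (hb : b ∈ Q)
    (hy₀ : y₀ * b * y₀⁻¹ = z * b) {y : G} (hy : y ∈ Q) :
    y * b = b * y ∨ (y₀⁻¹ * y) * b = b * (y₀⁻¹ * y) := by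
  rcases h.comm y hy b hb with h1 | h1
  · left
    calc y * b = (y * b * y⁻¹ * b⁻¹) * (b * y) := by group
      _ = b * y := by rw [h1, one_mul]
  · right
    have h2 : y * b * y⁻¹ = y₀ * b * y₀⁻¹ := by
      rw [hy₀]
      calc y * b * y⁻¹ = (y * b * y⁻¹ * b⁻¹) * b := by group
        _ = z * b := by rw [h1]
    calc y₀⁻¹ * y * b = y₀⁻¹ * (y * b * y⁻¹) * y := by group
      _ = y₀⁻¹ * (y₀ * b * y₀⁻¹) * y := by rw [h2]
      _ = b * (y₀⁻¹ * y) := by group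

/-- Double centralizer of an involution `b ∈ Q - Z`. -/
theorem ESData.double_cent (h : ESData Q z) {b : G} (hb : b ∈ Q) (hb1 : b ≠ 1) (hbz : b ≠ z)
    (hbb : b * b = 1) {e : G} (he : e ∈ Q)
    (hcomm : ∀ p ∈ Q, p * b = b * p → e * p = p * e) :
    e = 1 ∨ e = z ∨ e = b ∨ e = z * b := by
  obtain ⟨y₀, hy₀Q, hy₀⟩ := h.exists_swap hb hb1 hbz
  have hbinv : b⁻¹ = b := inv_eq_of_mul_eq_one_left hbb
  -- general principle
  have hall : ∀ e' : G, (∀ p ∈ Q, p * b = b * p → e' * p = p * e') → e' * y₀ = y₀ * e' →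
      e' = 1 ∨ e' = z := by
    intro e' h1 h2
    apply h.cq
    intro y hy
    rcases h.decomp hb hy₀ hy with h3 | h3
    · exact h1 y hy h3
    · have h4 := h1 _ (Q.mul_mem (Q.inv_mem hy₀Q) hy) h3
      calc e' * y = (e' * y₀) * (y₀⁻¹ * y) := by group
        _ = y₀ * (e' * (y₀⁻¹ * y)) := by rw [h2]; group
        _ = y₀ * (y₀⁻¹ * y * e') := by rw [h4]
        _ = y * e' := by group
  rcases h.comm e he y₀ hy₀Q with h1 | h1
  · have h2 : e * y₀ = y₀ * e := by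
      calc e * y₀ = (e * y₀ * e⁻¹ * y₀⁻¹) * (y₀ * e) := by group
        _ = y₀ * e := by rw [h1, one_mul]
    rcases hall e hcomm h2 with h3 | h3
    · exact Or.inl h3
    · exact Or.inr (Or.inl h3)
  · have h2 : e * y₀ = z * (y₀ * e) := by
      calc e * y₀ = (e * y₀ * e⁻¹ * y₀⁻¹) * (y₀ * e) := by group
        _ = z * (y₀ * e) := by rw [h1]
    have h3 : y₀ * b = z * (b * y₀) := by
      calc y₀ * b = (y₀ * b * y₀⁻¹) * y₀ := by group
        _ = z * (b * y₀) := by rw [hy₀]; group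
    have h4 : b * y₀ = z * (y₀ * b) := by
      rw [h3, ← mul_assoc, h.z_sq, one_mul]
    have h5 : (e * b) * y₀ = y₀ * (e * b) := by
      calc e * b * y₀ = e * (b * y₀) := by group
        _ = e * (z * (y₀ * b)) := by rw [h4]
        _ = (e * z) * y₀ * b := by group
        _ = (z * e) * y₀ * b := by rw [h.cen e he]
        _ = z * (e * y₀) * b := by group
        _ = z * (z * (y₀ * e)) * b := by rw [h2]
        _ = (z * z) * (y₀ * (e * b)) := by group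
        _ = y₀ * (e * b) := by rw [h.z_sq, one_mul]
    have h6 : ∀ p ∈ Q, p * b = b * p → (e * b) * p = p * (e * b) := by
      intro p hp hpb
      calc e * b * p = e * (b * p) := by group
        _ = e * (p * b) := by rw [hpb]
        _ = (e * p) * b := by group
        _ = (p * e) * b := by rw [hcomm p hp hpb]
        _ = p * (e * b) := by group
    rcases hall (e * b) h6 h5 with h7 | h7
    · right; right; left
      calc e = (e * b) * b⁻¹ := by group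
        _ = b := by rw [h7, hbinv, one_mul]
    · right; right; right
      calc e = (e * b) * b⁻¹ := by group
        _ = z * b := by rw [h7, hbinv]

/-- If `|Q| > 8`, the centralizer in `Q` of an involution `b ∈ Q - Z` is nonabelian. -/
theorem ESData.exists_comm_eq_z (h : ESData Q z) (hcard : 8 < Nat.card Q) {b : G} (hb : b ∈ Q)
    (hb1 : b ≠ 1) (hbz : b ≠ z) (hbb : b * b = 1) :
    ∃ x₁ ∈ Q, ∃ x₂ ∈ Q, x₁ * b = b * x₁ ∧ x₂ * b = b * x₂ ∧ x₁ * x₂ * x₁⁻¹ * x₂⁻¹ = z := by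
  classical
  by_contra hcon
  push Not at hcon
  obtain ⟨y₀, hy₀Q, hy₀⟩ := h.exists_swap hb hb1 hbz
  have hP : ∀ e ∈ Q, e * b = b * e → e = 1 ∨ e = z ∨ e = b ∨ e = z * b := by
    intro e he heb
    apply h.double_cent hb hb1 hbz hbb he
    intro p hp hpb
    rcases h.comm e he p hp with h1 | h1
    · calc e * p = (e * p * e⁻¹ * p⁻¹) * (p * e) := by group
        _ = p * e := by rw [h1, one_mul]
    · exact absurd h1 (hcon e he p hp heb hpb)
  have hsub : (Q : Set G) ⊆ ↑([1, z, b, z * b, y₀ * 1, y₀ * z, y₀ * b, y₀ * (z * b)].toFinset) := by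
    intro y hy
    have hy' : y ∈ Q := hy
    simp only [List.coe_toFinset, List.mem_cons, List.not_mem_nil, or_false, Set.mem_ofPred_eq]
    rcases h.decomp hb hy₀ hy' with h3 | h3
    · rcases hP y hy' h3 with h4 | h4 | h4 | h4 <;> simp [h4]
    · have h5 : y = y₀ * (y₀⁻¹ * y) := by group
      rcases hP _ (Q.mul_mem (Q.inv_mem hy₀Q) hy') h3 with h4 | h4 | h4 | h4 <;>
        (rw [h4] at h5; simp [h5])
  have h1 : Nat.card Q ≤ 8 := by
    rw [← SetLike.coe_sort_coe, Nat.card_coe_set_eq]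
    calc (Q : Set G).ncard ≤ _ := Set.ncard_le_ncard hsub (Finset.finite_toSet _)
      _ = _ := Set.ncard_coe_finset _
      _ ≤ _ := List.toFinset_card_le _
      _ = 8 := rfl
  omega

theorem comm_identity (x₁ x₂ u : G) :
    (x₁ * x₂ * x₁⁻¹ * x₂⁻¹) * ((x₂ * x₁) * u * (x₂ * x₁)⁻¹) * (x₁ * x₂ * x₁⁻¹ * x₂⁻¹)⁻¹ *
      ((x₂ * x₁) * u * (x₂ * x₁)⁻¹)⁻¹ =
    (x₁ * (x₂ * u * x₂⁻¹ * u⁻¹) * x₁⁻¹ * (x₂ * u * x₂⁻¹ * u⁻¹)⁻¹) *
      ((x₂ * u * x₂⁻¹ * u⁻¹) * (x₁ * u * x₁⁻¹ * u⁻¹) * (x₂ * u * x₂⁻¹ * u⁻¹)⁻¹ *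
        (x₁ * u * x₁⁻¹ * u⁻¹)⁻¹) *
      (x₂ * (x₁ * u * x₁⁻¹ * u⁻¹) * x₂⁻¹ * (x₁ * u * x₁⁻¹ * u⁻¹)⁻¹)⁻¹ := by
  group

/-- Key lemma: some element of `Q^g` conjugates `z` to `z z^g`. -/
theorem ESData.exists_swap_conj [Finite G] (h : ESData Q z) (hcard : 8 < Nat.card Q) (g : G)
    (hbQ : g * z * g⁻¹ ∈ Q) (hbz : g * z * g⁻¹ ≠ z) :
    ∃ n ∈ Q.map (MulAut.conj g).toMonoidHom, n * z * n⁻¹ = z * (g * z * g⁻¹) := by
  have hb := h.conj g
  set b : G := g * z * g⁻¹ with hbdef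
  set Qb : Subgroup G := Q.map (MulAut.conj g).toMonoidHom with hQb
  have hzb : b * z = z * b := h.cen b hbQ
  have hbinv : b⁻¹ = b := hb.z_inv
  by_contra hstar
  push Not at hstar
  have hzQb : z ∉ Qb := by
    intro hz
    obtain ⟨y, hy, hy2⟩ := hb.exists_swap hz h.z_ne (Ne.symm hbz)
    exact hstar y hy (by rw [hy2, hzb])
  have hstar' : ∀ u ∈ Qb, (u * z * u⁻¹ * z⁻¹ = 1 ∨ u * z * u⁻¹ * z⁻¹ = b) → u * z = z * u := by
    intro u hu h1
    rcases h1 with h1 | h1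
    · calc u * z = (u * z * u⁻¹ * z⁻¹) * (z * u) := by group
        _ = z * u := by rw [h1, one_mul]
    · exfalso
      apply hstar u hu
      calc u * z * u⁻¹ = (u * z * u⁻¹ * z⁻¹) * z := by group
        _ = z * b := by rw [h1, hzb]
  have hBmul : ∀ s t : G, (s = 1 ∨ s = b) → (t = 1 ∨ t = b) → (s * t = 1 ∨ s * t = b) := by
    rintro s t (rfl | rfl) (rfl | rfl)
    · left; simp
    · right; simp
    · right; simp
    · left; exact hb.z_sq
  have hBinv : ∀ s : G, (s = 1 ∨ s = b) → (s⁻¹ = 1 ∨ s⁻¹ = b) := by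
    rintro s (rfl | rfl)
    · left; simp
    · right; exact hbinv
  -- D1
  have hD1 : ∀ e ∈ Q, e ∈ Qb → e = 1 ∨ e = b := by
    intro e he heb
    have h1 : e = 1 ∨ e = z ∨ e = b ∨ e = z * b := by
      apply h.double_cent hbQ hb.z_ne hbz hb.z_sq he
      intro p hp hpb
      have hpN := hb.nrm p hpb
      have h2 : p * e * p⁻¹ * e⁻¹ ∈ Qb :=
        Qb.mul_mem (conj_mem_of_normalizer hpN heb) (Qb.inv_mem heb)
      rcases h.comm p hp e he with h3 | h3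
      · calc e * p = (p * e * p⁻¹ * e⁻¹)⁻¹ * (p * e) := by group
          _ = p * e := by rw [h3]; simp
      · rw [h3] at h2; exact absurd h2 hzQb
    rcases h1 with h1 | h1 | h1 | h1
    · exact Or.inl h1
    · rw [h1] at heb; exact absurd heb hzQb
    · exact Or.inr h1
    · exfalso
      apply hzQb
      have : z = e * b := by rw [h1, mul_assoc, hb.z_sq, mul_one]
      rw [this]
      exact Qb.mul_mem heb hb.z_mem
  -- D2
  have hD2 : ∀ u ∈ Qb, u * z = z * u → ∀ p ∈ Q, p * b = b * p →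
      (p * u * p⁻¹ * u⁻¹ = 1 ∨ p * u * p⁻¹ * u⁻¹ = b) := by
    intro u hu huz p hp hpb
    apply hD1
    · have : p * u * p⁻¹ * u⁻¹ = p * (u * p⁻¹ * u⁻¹) := by group
      rw [this]
      exact Q.mul_mem hp (conj_mem_of_normalizer (h.nrm u huz) (Q.inv_mem hp))
    · exact Qb.mul_mem (conj_mem_of_normalizer (hb.nrm p hpb) hu) (Qb.inv_mem hu)
  let P : Subgroup G := Q ⊓ Subgroup.centralizer {b}
  let C : Subgroup G := Qb ⊓ Subgroup.centralizer {z}
  have hPmem : ∀ p, p ∈ P ↔ p ∈ Q ∧ p * b = b * p := by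
    intro p
    simp only [P, Subgroup.mem_inf, Subgroup.mem_centralizer_singleton_iff]
  have hCmem : ∀ p, p ∈ C ↔ p ∈ Qb ∧ p * z = z * p := by
    intro p
    simp only [C, Subgroup.mem_inf, Subgroup.mem_centralizer_singleton_iff]
  have hPN : P ≤ Subgroup.normalizer (Qb : Set G) := fun p hp => hb.nrm p ((hPmem p).1 hp).2
  have hY : IsPGroup 2 (P ⊔ Qb : Subgroup G) :=
    IsPGroup.to_sup_of_normal_right' (h.two.to_le inf_le_left) hb.two hPN
  have hYN : (P ⊔ Qb : Subgroup G) ≤ Subgroup.normalizer (Qb : Set G) :=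
    sup_le hPN Subgroup.le_normalizer
  have hle : Qb ≤ C := by
    by_contra hnle
    obtain ⟨u, huQ, huC, hu⟩ := exists_central_mod hY le_sup_right
      (fun y hy u hu => conj_mem_of_normalizer (hYN hy) hu) hnle
    obtain ⟨x₁, hx₁, x₂, hx₂, hx₁b, hx₂b, hx⟩ :=
      h.exists_comm_eq_z hcard hbQ hb.z_ne hbz hb.z_sq
    have hc : ∀ x ∈ Q, x * b = b * x → x * u * x⁻¹ * u⁻¹ ∈ C := by
      intro x hx hxb
      have h1 := hu x (le_sup_left (a := P) ((hPmem x).2 ⟨hx, hxb⟩))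
      have h2 : x * u * x⁻¹ * u⁻¹ = (u * x * u⁻¹ * x⁻¹)⁻¹ := by group
      rw [h2]; exact C.inv_mem h1
    have hc₁ := (hCmem _).1 (hc x₁ hx₁ hx₁b)
    have hc₂ := (hCmem _).1 (hc x₂ hx₂ hx₂b)
    have hβ₁ := hD2 _ hc₂.1 hc₂.2 x₁ hx₁ hx₁b
    have hβ₂ := hD2 _ hc₁.1 hc₁.2 x₂ hx₂ hx₂b
    have hγ := hb.comm _ hc₂.1 _ hc₁.1
    have hkey := comm_identity x₁ x₂ u
    rw [hx] at hkey
    have hu'Q : (x₂ * x₁) * u * (x₂ * x₁)⁻¹ ∈ Qb := by
      apply conj_mem_of_normalizer _ huQ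
      exact (Subgroup.normalizer (Qb : Set G)).mul_mem (hb.nrm x₂ hx₂b) (hb.nrm x₁ hx₁b)
    have h3 : z * ((x₂ * x₁) * u * (x₂ * x₁)⁻¹) * z⁻¹ * ((x₂ * x₁) * u * (x₂ * x₁)⁻¹)⁻¹ = 1 ∨
        z * ((x₂ * x₁) * u * (x₂ * x₁)⁻¹) * z⁻¹ * ((x₂ * x₁) * u * (x₂ * x₁)⁻¹)⁻¹ = b := by
      rw [hkey]
      exact hBmul _ _ (hBmul _ _ hβ₁ hγ) (hBinv _ hβ₂)
    have h4 := hstar' _ hu'Q (by
      have := hBinv _ h3
      have e : (z * ((x₂ * x₁) * u * (x₂ * x₁)⁻¹) * z⁻¹ * ((x₂ * x₁) * u * (x₂ * x₁)⁻¹)⁻¹)⁻¹ =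
        ((x₂ * x₁) * u * (x₂ * x₁)⁻¹) * z * ((x₂ * x₁) * u * (x₂ * x₁)⁻¹)⁻¹ * z⁻¹ := by group
      rwa [e] at this)
    apply huC
    rw [hCmem]
    refine ⟨huQ, ?_⟩
    have hxz : (x₂ * x₁) * z = z * (x₂ * x₁) := h.cen _ (Q.mul_mem hx₂ hx₁)
    have hxz' : (x₂ * x₁)⁻¹ * z = z * (x₂ * x₁)⁻¹ := h.cen _ (Q.inv_mem (Q.mul_mem hx₂ hx₁))
    calc u * z = (x₂ * x₁)⁻¹ * ((x₂ * x₁) * u * (x₂ * x₁)⁻¹ * ((x₂ * x₁) * z)) := by group
      _ = (x₂ * x₁)⁻¹ * (((x₂ * x₁) * u * (x₂ * x₁)⁻¹ * z) * (x₂ * x₁)) := by rw [hxz]; group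
      _ = (x₂ * x₁)⁻¹ * ((z * ((x₂ * x₁) * u * (x₂ * x₁)⁻¹)) * (x₂ * x₁)) := by rw [h4]
      _ = ((x₂ * x₁)⁻¹ * z) * ((x₂ * x₁) * u) := by group
      _ = (z * (x₂ * x₁)⁻¹) * ((x₂ * x₁) * u) := by rw [hxz']
      _ = z * u := by group
  rcases hb.cq z (fun x hx => (((hCmem x).1 (hle hx)).2).symm) with h1 | h1
  · exact h.z_ne h1
  · exact hbz h1.symm

/-- In the situation of the key lemma there is an element swapping `z` and `z^g`, and
`z ∈ Q^g`. -/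
theorem ESData.exists_transpose [Finite G] (h : ESData Q z) (hcard : 8 < Nat.card Q) (g : G)
    (hbQ : g * z * g⁻¹ ∈ Q) (hbz : g * z * g⁻¹ ≠ z) :
    ∃ y ∈ Q, ∃ n ∈ Q.map (MulAut.conj g).toMonoidHom,
      y * (g * z * g⁻¹) * y⁻¹ = z * (g * z * g⁻¹) ∧ n * z * n⁻¹ = z * (g * z * g⁻¹) ∧
      (y * n * y⁻¹) * z * (y * n * y⁻¹)⁻¹ = g * z * g⁻¹ ∧
      (y * n * y⁻¹) * (g * z * g⁻¹) * (y * n * y⁻¹)⁻¹ = z ∧
      z ∈ Q.map (MulAut.conj g).toMonoidHom := by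
  have hb := h.conj g
  obtain ⟨n, hn, hnz⟩ := h.exists_swap_conj hcard g hbQ hbz
  obtain ⟨y, hy, hyb⟩ := h.exists_swap hbQ hb.z_ne hbz
  set b : G := g * z * g⁻¹ with hbdef
  have hzb : b * z = z * b := h.cen b hbQ
  have hyz : y * z = z * y := h.cen y hy
  have hyz' : y⁻¹ * z = z * y⁻¹ := h.cen _ (Q.inv_mem hy)
  have hnb : n * b = b * n := hb.cen n hn
  have hyzb : y * (z * b) * y⁻¹ = b := by
    calc y * (z * b) * y⁻¹ = (y * z) * b * y⁻¹ := by group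
      _ = z * (y * b * y⁻¹) := by rw [hyz]; group
      _ = b := by rw [hyb, ← mul_assoc, h.z_sq, one_mul]
  have hyinvb : y⁻¹ * b * y = z * b := by
    calc y⁻¹ * b * y = y⁻¹ * (y * (z * b) * y⁻¹) * y := by rw [hyzb]
      _ = z * b := by group
  have hnzb : n * (z * b) * n⁻¹ = z := by
    calc n * (z * b) * n⁻¹ = (n * z * n⁻¹) * (n * b) * n⁻¹ := by group
      _ = z * b * (b * n) * n⁻¹ := by rw [hnz, hnb]
      _ = z * (b * b) := by group
      _ = z := by rw [hb.z_sq, mul_one]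
  have hs1 : (y * n * y⁻¹) * z * (y * n * y⁻¹)⁻¹ = b := by
    calc (y * n * y⁻¹) * z * (y * n * y⁻¹)⁻¹ = y * n * (y⁻¹ * z) * y * n⁻¹ * y⁻¹ := by group
      _ = y * (n * z * n⁻¹) * y⁻¹ := by rw [hyz']; group
      _ = b := by rw [hnz, hyzb]
  have hs2 : (y * n * y⁻¹) * b * (y * n * y⁻¹)⁻¹ = z := by
    calc (y * n * y⁻¹) * b * (y * n * y⁻¹)⁻¹ = y * (n * (y⁻¹ * b * y) * n⁻¹) * y⁻¹ := by group
      _ = y * z * y⁻¹ := by rw [hyinvb, hnzb]
      _ = z := by rw [hyz]; group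
  refine ⟨y, hy, n, hn, hyb, hnz, hs1, hs2, ?_⟩
  -- z = s b s⁻¹ ∈ s Q s⁻¹ = g Q g⁻¹
  rw [Cfsg.Agent.Lib.Helper17.mem_map_conj]
  have hc : (g⁻¹ * (y * n * y⁻¹)) * z = z * (g⁻¹ * (y * n * y⁻¹)) := by
    calc (g⁻¹ * (y * n * y⁻¹)) * z
        = g⁻¹ * ((y * n * y⁻¹) * z * (y * n * y⁻¹)⁻¹) * (y * n * y⁻¹) := by group
      _ = g⁻¹ * (g * z * g⁻¹) * (y * n * y⁻¹) := by rw [hs1]
      _ = z * (g⁻¹ * (y * n * y⁻¹)) := by group
  have h1 := conj_mem_of_normalizer (h.nrm _ hc) hbQ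
  have h2 : g⁻¹ * (y * n * y⁻¹) * b * (g⁻¹ * (y * n * y⁻¹))⁻¹ =
      g⁻¹ * ((y * n * y⁻¹) * b * (y * n * y⁻¹)⁻¹) * g := by group
  rw [h2, hs2] at h1
  exact h1

end main

end Cfsg.Agent.Lib.Helper27
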