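import Cfsg.Agent.Lib.Helper27.LargeExtra2
import Cfsg.Agent.Lib.Helper27.FourGroupS3

set_option autoImplicit false

namespace Cfsg.Agent.Lib.Helper27

open Cfsg

variable {G : Type*} [Group G]

/-- The explicit four-group `{1, z, b, zb}`. -/
def fourSubgroup (z b : G) (hzz : z * z = 1) (hbb : b * b = 1) (hc : b * z = z * b) :
    Subgroup G where
  carrier := {v | v = 1 ∨ v = z ∨ v = b ∨ v = z * b}
  one_mem' := Or.inl rfl
  mul_mem' := by
    have e1 : z * (z * b) = b := by rw [← mul_assoc, hzz, one_mul]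
    have e2 : b * (z * b) = z := by rw [← mul_assoc, hc, mul_assoc, hbb, mul_one]
    have e3 : z * b * z = b := by rw [mul_assoc, hc, e1]
    have e4 : z * b * b = z := by rw [mul_assoc, hbb, mul_one]
    have e5 : z * b * (z * b) = 1 := by rw [mul_assoc, e2, hzz]
    rintro _ _ (rfl | rfl | rfl | rfl) (rfl | rfl | rfl | rfl) <;>
      simp [hzz, hbb, hc, e1, e2, e3, e4, e5]
  inv_mem' := by
    have i1 : z⁻¹ = z := inv_eq_of_mul_eq_one_left hzz
    have i2 : b⁻¹ = b := inv_eq_of_mul_eq_one_left hbb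
    rintro _ (rfl | rfl | rfl | rfl) <;> simp [i1, i2, hc]

theorem mem_fourSubgroup {z b : G} {hzz : z * z = 1} {hbb : b * b = 1} {hc : b * z = z * b}
    {v : G} : v ∈ fourSubgroup z b hzz hbb hc ↔ v = 1 ∨ v = z ∨ v = b ∨ v = z * b := Iff.rfl

theorem largeExtra_conj_centre [Finite G] (Q : Subgroup G) (hL1 : Cfsg.IsExtraspecial 2 ↥Q)
    (hL2 : Subgroup.centralizer (Q : Set G) = ((Subgroup.center ↥Q).map Q.subtype))
    (hL3 : Subgroup.centralizer (((Subgroup.center ↥Q).map Q.subtype) : Set G)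
      ≤ Subgroup.normalizer (Q : Set G)) (w : ℕ) (hw : 2 ≤ w)
    (hcard : Nat.card ↥Q = 2 ^ (2 * w + 1)) (g : G)
    (hg : g ∉ Subgroup.normalizer (((Subgroup.center ↥Q).map Q.subtype) : Set G))
    (hZg : (((Subgroup.center ↥Q).map Q.subtype)).map (MulAut.conj g).toMonoidHom ≤ Q) :
    ((Subgroup.center ↥Q).map Q.subtype) ≤ (Q).map (MulAut.conj g).toMonoidHom ∧
    (Subgroup.centralizer ((((Subgroup.center ↥Q).map Q.subtype) ⊔
      (((Subgroup.center ↥Q).map Q.subtype)).map (MulAut.conj g).toMonoidHom : Subgroup G)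
        : Set G)).relIndex (Subgroup.normalizer ((((Subgroup.center ↥Q).map Q.subtype) ⊔
      (((Subgroup.center ↥Q).map Q.subtype)).map (MulAut.conj g).toMonoidHom : Subgroup G)
        : Set G)) = 6 ∧ Cfsg.IsLargeExtraspecial Q := by
  obtain ⟨z, h, hZ⟩ := exists_ESData Q hL1 hL2 hL3
  set Z : Subgroup G := (Subgroup.center ↥Q).map Q.subtype with hZdef
  have hb := h.conj g
  have hZb : ∀ y, y ∈ Z.map (MulAut.conj g).toMonoidHom ↔ y = 1 ∨ y = g * z * g⁻¹ := by
    intro y
    constructor
    · rintro ⟨v, hv, rfl⟩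
      rcases (hZ v).1 hv with rfl | rfl
      · left; simp
      · right; simp [MulAut.conj_apply]
    · rintro (rfl | rfl)
      · exact one_mem _
      · exact ⟨z, (hZ z).2 (Or.inr rfl), by simp [MulAut.conj_apply]⟩
  have hbQ : g * z * g⁻¹ ∈ Q := hZg ((hZb _).2 (Or.inr rfl))
  have hbz : g * z * g⁻¹ ≠ z := by
    intro hbz
    apply hg
    rw [Cfsg.Agent.Lib.Helper17.mem_normalizer_iff_map_conj]
    ext y
    rw [hZb, hZ, hbz]
  have hcard8 : 8 < Nat.card Q := by
    rw [hcard]
    calc 8 < 2 ^ 5 := by norm_num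
      _ ≤ 2 ^ (2 * w + 1) := Nat.pow_le_pow_right (by norm_num) (by omega)
  obtain ⟨y, hy, n, hn, hyb, hnz, -, -, hzQb⟩ := h.exists_transpose hcard8 g hbQ hbz
  set b : G := g * z * g⁻¹ with hbdef
  have hc : b * z = z * b := h.cen b hbQ
  refine ⟨?_, ?_, ?_⟩
  · intro v hv
    rcases (hZ v).1 hv with rfl | rfl
    · exact one_mem _
    · exact hzQb
  · have hV : ∀ v, v ∈ Z ⊔ Z.map (MulAut.conj g).toMonoidHom ↔
        v = 1 ∨ v = z ∨ v = b ∨ v = z * b := by
      intro v
      constructor
      · intro hv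
        have hle : Z ⊔ Z.map (MulAut.conj g).toMonoidHom ≤ fourSubgroup z b h.z_sq hb.z_sq hc := by
          apply sup_le
          · intro v hv
            rcases (hZ v).1 hv with rfl | rfl
            · exact Or.inl rfl
            · exact Or.inr (Or.inl rfl)
          · intro v hv
            rcases (hZb v).1 hv with rfl | rfl
            · exact Or.inl rfl
            · exact Or.inr (Or.inr (Or.inl rfl))
        exact hle hv
      · have hz' : z ∈ Z ⊔ Z.map (MulAut.conj g).toMonoidHom :=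
          Subgroup.mem_sup_left ((hZ z).2 (Or.inr rfl))
        have hb' : b ∈ Z ⊔ Z.map (MulAut.conj g).toMonoidHom :=
          Subgroup.mem_sup_right ((hZb b).2 (Or.inr rfl))
        rintro (rfl | rfl | rfl | rfl)
        · exact one_mem _
        · exact hz'
        · exact hb'
        · exact mul_mem hz' hb'
    refine relIndex_eq_six hV h.z_ne hb.z_ne (Ne.symm hbz) h.z_sq hb.z_sq (y := y) (n := n)
      ?_ hyb ?_ hnz
    · rw [h.cen y hy]; group
    · rw [hb.cen n hn]; group
  · have hbZ : b ∉ Z := by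
      intro h1
      rcases (hZ b).1 h1 with h2 | h2
      · exact hb.z_ne h2
      · exact hbz h2
    have hb2 : orderOf b = 2 := orderOf_eq_prime (by rw [pow_two]; exact hb.z_sq) hb.z_ne
    refine largeExtra_of_invol Q hL1 hL2 hL3 b hbQ hbZ hb2 ?_
    have hQC : Q.map (MulAut.conj g).toMonoidHom ≤ Subgroup.centralizer ({b} : Set G) := by
      intro x hx
      rw [Subgroup.mem_centralizer_singleton_iff]
      exact hb.cen x hx
    have hCN : Subgroup.centralizer ({b} : Set G) ≤
        Subgroup.normalizer ((Q.map (MulAut.conj g).toMonoidHom : Subgroup G) : Set G) := by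
      intro c hc
      rw [Subgroup.mem_centralizer_singleton_iff] at hc
      exact hb.nrm c hc
    have hnorm : ((Q.map (MulAut.conj g).toMonoidHom).subgroupOf
        (Subgroup.centralizer ({b} : Set G))).Normal :=
      (Subgroup.normal_subgroupOf_iff_le_normalizer hQC).2 hCN
    have hle := Cfsg.Agent.Lib.Helper17.le_pCore hnorm (hb.two.comap_subtype)
    intro v hv
    rcases (hZ v).1 hv with rfl | rfl
    · exact one_mem _
    · exact ⟨⟨v, hQC hzQb⟩, hle (Subgroup.mem_subgroupOf.2 hzQb), rfl⟩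

end Cfsg.Agent.Lib.Helper27
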