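import Cfsg.Agent.Lib.Helper27.LargeExtra3
import Cfsg.Agent.Lib.Helper27.FourGroupS3b
import Cfsg.Agent.Lib.Helper17.Syl

set_option autoImplicit false

namespace Cfsg.Agent.Lib.Helper27

open Cfsg

variable {G : Type*} [Group G]

/-- A pair of conjugate "large extraspecial type" subgroups, each containing the centre of the
other. -/
structure SymPair (Q Qb : Subgroup G) (z b : G) : Prop where
  h : ESData Q z
  hb : ESData Qb b
  bQ : b ∈ Q
  zQb : z ∈ Qb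
  ne : b ≠ z
  tr : ∀ s, s * z * s⁻¹ = b → ∀ x ∈ Q, s * x * s⁻¹ ∈ Qb

theorem ESData.symPair [Finite G] {Q : Subgroup G} {z : G} (h : ESData Q z)
    (hcard : 8 < Nat.card Q) (g : G) (hbQ : g * z * g⁻¹ ∈ Q) (hbz : g * z * g⁻¹ ≠ z) :
    SymPair Q (Q.map (MulAut.conj g).toMonoidHom) z (g * z * g⁻¹) := by
  obtain ⟨y, hy, n, hn, hyb, hnz, -, -, hzQb⟩ := h.exists_transpose hcard g hbQ hbz
  refine ⟨h, h.conj g, hbQ, hzQb, hbz, ?_⟩
  intro s hs x hx
  rw [Cfsg.Agent.Lib.Helper17.mem_map_conj]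
  have hc : (g⁻¹ * s) * z = z * (g⁻¹ * s) := by
    calc (g⁻¹ * s) * z = g⁻¹ * (s * z * s⁻¹) * s := by group
      _ = g⁻¹ * (g * z * g⁻¹) * s := by rw [hs]
      _ = z * (g⁻¹ * s) := by group
  have h1 := conj_mem_of_normalizer (h.nrm _ hc) hx
  have h2 : g⁻¹ * s * x * (g⁻¹ * s)⁻¹ = g⁻¹ * (s * x * s⁻¹) * g := by group
  rwa [h2] at h1

/-- `[x, c] ∈ C_Q(b)` for `x ∈ Q`, `c ∈ C(z) ∩ C(b)`. -/
theorem ESData.comm_mem {Q : Subgroup G} {z : G} (h : ESData Q z) {b x c : G} (hb : b ∈ Q)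
    (hx : x ∈ Q) (hcz : c * z = z * c) (hcb : c * b = b * c) :
    x * c * x⁻¹ * c⁻¹ ∈ Q ⊓ Subgroup.centralizer {b} := by
  refine ⟨?_, ?_⟩
  · have : x * c * x⁻¹ * c⁻¹ = x * (c * x⁻¹ * c⁻¹) := by group
    rw [this]
    exact Q.mul_mem hx (conj_mem_of_normalizer (h.nrm c hcz) (Q.inv_mem hx))
  · have hcC : c ∈ Subgroup.centralizer ({b} : Set G) :=
      Subgroup.mem_centralizer_singleton_iff.2 hcb
    rcases h.comm x hx b hb with h1 | h1
    · have hxC : x ∈ Subgroup.centralizer ({b} : Set G) := by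
        rw [Subgroup.mem_centralizer_singleton_iff]
        calc x * b = (x * b * x⁻¹ * b⁻¹) * (b * x) := by group
          _ = b * x := by rw [h1, one_mul]
      exact Subgroup.mul_mem _ (Subgroup.mul_mem _ (Subgroup.mul_mem _ hxC hcC)
        (Subgroup.inv_mem _ hxC)) (Subgroup.inv_mem _ hcC)
    · show x * c * x⁻¹ * c⁻¹ ∈ Subgroup.centralizer ({b} : Set G)
      rw [Subgroup.mem_centralizer_singleton_iff]
      have e1 : x * b * x⁻¹ = z * b := by
        calc x * b * x⁻¹ = (x * b * x⁻¹ * b⁻¹) * b := by group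
          _ = z * b := by rw [h1]
      have hxz : x * z = z * x := h.cen x hx
      have e2 : x⁻¹ * b * x = z * b := by
        have : x * (z * b) * x⁻¹ = b := by
          calc x * (z * b) * x⁻¹ = (x * z) * b * x⁻¹ := by group
            _ = z * (x * b * x⁻¹) := by rw [hxz]; group
            _ = b := by rw [e1, ← mul_assoc, h.z_sq, one_mul]
        calc x⁻¹ * b * x = x⁻¹ * (x * (z * b) * x⁻¹) * x := by rw [this]
          _ = z * b := by group
      have e3 : c * (z * b) * c⁻¹ = z * b := by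
        calc c * (z * b) * c⁻¹ = (c * z) * b * c⁻¹ := by group
          _ = z * (c * b) * c⁻¹ := by rw [hcz]; group
          _ = z * b := by rw [hcb]; group
      have e4 : c⁻¹ * b * c = b := by
        calc c⁻¹ * b * c = c⁻¹ * (b * c) := by group
          _ = c⁻¹ * (c * b) := by rw [hcb]
          _ = b := by group
      have e5 : x * (z * b) * x⁻¹ = b := by
        calc x * (z * b) * x⁻¹ = (x * z) * b * x⁻¹ := by group
          _ = z * (x * b * x⁻¹) := by rw [hxz]; group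
          _ = b := by rw [e1, ← mul_assoc, h.z_sq, one_mul]
      have e6 : (x * c * x⁻¹ * c⁻¹) * b * (x * c * x⁻¹ * c⁻¹)⁻¹ = b := by
        calc (x * c * x⁻¹ * c⁻¹) * b * (x * c * x⁻¹ * c⁻¹)⁻¹
            = x * (c * (x⁻¹ * (c⁻¹ * b * c) * x) * c⁻¹) * x⁻¹ := by group
          _ = b := by rw [e4, e2, e3, e5]
      calc x * c * x⁻¹ * c⁻¹ * b
          = ((x * c * x⁻¹ * c⁻¹) * b * (x * c * x⁻¹ * c⁻¹)⁻¹) * (x * c * x⁻¹ * c⁻¹) := by group
        _ = b * (x * c * x⁻¹ * c⁻¹) := by rw [e6]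

namespace SymPair

variable {Q Qb : Subgroup G} {z b : G}

theorem zb (S : SymPair Q Qb z b) : b * z = z * b := S.h.cen b S.bQ

/-- `R = C_{Q^g}(z) C_Q(z^g)` -/
abbrev R (Q Qb : Subgroup G) (z b : G) : Subgroup G :=
  (Qb ⊓ Subgroup.centralizer {z}) ⊔ (Q ⊓ Subgroup.centralizer {b})

theorem R_le (S : SymPair Q Qb z b) :
    R Q Qb z b ≤ Subgroup.centralizer {z} ⊓ Subgroup.centralizer {b} := by
  apply sup_le
  · refine le_inf inf_le_right ?_
    intro x hx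
    exact Subgroup.mem_centralizer_singleton_iff.2 (S.hb.cen x hx.1)
  · refine le_inf ?_ inf_le_right
    intro x hx
    exact Subgroup.mem_centralizer_singleton_iff.2 (S.h.cen x hx.1)

theorem R_comm (S : SymPair Q Qb z b) {r : G} (hr : r ∈ R Q Qb z b) :
    r * z = z * r ∧ r * b = b * r := by
  have := S.R_le hr
  exact ⟨Subgroup.mem_centralizer_singleton_iff.1 this.1,
    Subgroup.mem_centralizer_singleton_iff.1 this.2⟩

theorem R_le_X : R Q Qb z b ≤ Q ⊔ Qb :=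
  sup_le (inf_le_left.trans le_sup_right) (inf_le_left.trans le_sup_left)

theorem comm_mem_R_left (S : SymPair Q Qb z b) {x c : G} (hx : x ∈ Q) (hcz : c * z = z * c)
    (hcb : c * b = b * c) : x * c * x⁻¹ * c⁻¹ ∈ R Q Qb z b :=
  Subgroup.mem_sup_right (S.h.comm_mem S.bQ hx hcz hcb)

theorem comm_mem_R_right (S : SymPair Q Qb z b) {x c : G} (hx : x ∈ Qb) (hcz : c * z = z * c)
    (hcb : c * b = b * c) : x * c * x⁻¹ * c⁻¹ ∈ R Q Qb z b :=
  Subgroup.mem_sup_left (S.hb.comm_mem S.zQb hx hcb hcz)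

theorem X_le_normalizer_R (S : SymPair Q Qb z b) :
    Q ⊔ Qb ≤ Subgroup.normalizer ((R Q Qb z b : Subgroup G) : Set G) := by
  apply sup_le
  · apply Cfsg.Agent.Lib.Helper17.le_normalizer_of_conj_mem
    intro x hx r hr
    have h1 := S.comm_mem_R_left hx (S.R_comm hr).1 (S.R_comm hr).2
    have : x * r * x⁻¹ = (x * r * x⁻¹ * r⁻¹) * r := by group
    rw [this]; exact mul_mem h1 hr
  · apply Cfsg.Agent.Lib.Helper17.le_normalizer_of_conj_mem
    intro x hx r hr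
    have h1 := S.comm_mem_R_right hx (S.R_comm hr).1 (S.R_comm hr).2
    have : x * r * x⁻¹ = (x * r * x⁻¹ * r⁻¹) * r := by group
    rw [this]; exact mul_mem h1 hr

/-- `[X, C(V)] ≤ R`. -/
theorem comm_X_mem_R (S : SymPair Q Qb z b) {x c : G} (hx : x ∈ Q ⊔ Qb) (hcz : c * z = z * c)
    (hcb : c * b = b * c) : x * c * x⁻¹ * c⁻¹ ∈ R Q Qb z b := by
  let K : Subgroup G :=
    { carrier := {x | x ∈ Subgroup.normalizer ((R Q Qb z b : Subgroup G) : Set G) ∧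
        x * c * x⁻¹ * c⁻¹ ∈ R Q Qb z b}
      one_mem' := ⟨one_mem _, by simp⟩
      mul_mem' := by
        rintro x₁ x₂ ⟨h1, h1'⟩ ⟨h2, h2'⟩
        refine ⟨mul_mem h1 h2, ?_⟩
        have : x₁ * x₂ * c * (x₁ * x₂)⁻¹ * c⁻¹ =
            (x₁ * (x₂ * c * x₂⁻¹ * c⁻¹) * x₁⁻¹) * (x₁ * c * x₁⁻¹ * c⁻¹) := by group
        rw [this]
        exact mul_mem (conj_mem_of_normalizer h1 h2') h1'
      inv_mem' := by
        rintro x ⟨h1, h1'⟩
        refine ⟨inv_mem h1, ?_⟩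
        have : x⁻¹ * c * x⁻¹⁻¹ * c⁻¹ = x⁻¹ * (x * c * x⁻¹ * c⁻¹)⁻¹ * x⁻¹⁻¹ := by group
        rw [this]
        exact conj_mem_of_normalizer (inv_mem h1) (inv_mem h1') }
  have hle : Q ⊔ Qb ≤ K := by
    apply sup_le
    · intro x hx
      exact ⟨S.X_le_normalizer_R (Subgroup.mem_sup_left hx), S.comm_mem_R_left hx hcz hcb⟩
    · intro x hx
      exact ⟨S.X_le_normalizer_R (Subgroup.mem_sup_right hx), S.comm_mem_R_right hx hcz hcb⟩
  exact (hle hx).2

/-- `X ∩ C(V) ≤ R`. -/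
theorem X_inf_le_R (S : SymPair Q Qb z b) {x : G} (hx : x ∈ Q ⊔ Qb) (hxz : x * z = z * x)
    (hxb : x * b = b * x) : x ∈ R Q Qb z b := by
  obtain ⟨y, hy, hyb⟩ := S.h.exists_swap S.bQ S.hb.z_ne S.ne
  obtain ⟨n, hn, hnz'⟩ := S.hb.exists_swap S.zQb S.h.z_ne (Ne.symm S.ne)
  have hzb := S.zb
  have hnz : n * z * n⁻¹ = z * b := by rw [hnz', hzb]
  have hyz : y * z = z * y := S.h.cen y hy
  have hnb : n * b = b * n := S.hb.cen n hn
  have hyb' : y * b = z * b * y := by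
    calc y * b = (y * b * y⁻¹) * y := by group
      _ = z * b * y := by rw [hyb]
  have hnz'' : n * z = z * b * n := by
    calc n * z = (n * z * n⁻¹) * n := by group
      _ = z * b * n := by rw [hnz]
  have hyzb : y * (z * b) * y⁻¹ = b := by
    calc y * (z * b) * y⁻¹ = (y * z) * b * y⁻¹ := by group
      _ = z * (y * b * y⁻¹) := by rw [hyz]; group
      _ = b := by rw [hyb, ← mul_assoc, S.h.z_sq, one_mul]
  have hnzb : n * (z * b) * n⁻¹ = z := by
    calc n * (z * b) * n⁻¹ = (n * z * n⁻¹) * (n * b) * n⁻¹ := by group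
      _ = z * b * (b * n) * n⁻¹ := by rw [hnz, hnb]
      _ = z * (b * b) := by group
      _ = z := by rw [S.hb.z_sq, mul_one]
  have hN : ((R Q Qb z b).subgroupOf (Q ⊔ Qb)).Normal :=
    (Subgroup.normal_subgroupOf_iff_le_normalizer R_le_X).2 S.X_le_normalizer_R
  let π := QuotientGroup.mk' ((R Q Qb z b).subgroupOf (Q ⊔ Qb))
  have hπ1 : ∀ t : (Q ⊔ Qb : Subgroup G), (t : G) ∈ R Q Qb z b → π t = 1 := fun t ht =>
    (QuotientGroup.eq_one_iff _).2 (Subgroup.mem_subgroupOf.2 ht)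
  have hyX : y ∈ Q ⊔ Qb := Subgroup.mem_sup_left hy
  have hnX : n ∈ Q ⊔ Qb := Subgroup.mem_sup_right hn
  have ha : π ⟨y, hyX⟩ * π ⟨y, hyX⟩ = 1 := by
    rw [← map_mul]
    apply hπ1
    apply Subgroup.mem_sup_right
    refine ⟨Q.mul_mem hy hy, ?_⟩
    show y * y ∈ Subgroup.centralizer ({b} : Set G)
    rw [Subgroup.mem_centralizer_singleton_iff]
    calc y * y * b = y * (y * b) := by group
      _ = (y * z) * b * y := by rw [hyb']; group
      _ = z * (y * b) * y := by rw [hyz]; group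
      _ = (z * z) * b * y * y := by rw [hyb']; group
      _ = b * (y * y) := by rw [S.h.z_sq]; group
  have hc : π ⟨n, hnX⟩ * π ⟨n, hnX⟩ = 1 := by
    rw [← map_mul]
    apply hπ1
    apply Subgroup.mem_sup_left
    refine ⟨Qb.mul_mem hn hn, ?_⟩
    show n * n ∈ Subgroup.centralizer ({z} : Set G)
    rw [Subgroup.mem_centralizer_singleton_iff]
    calc n * n * z = n * (n * z) := by group
      _ = n * (z * b * n) := by rw [hnz'']
      _ = (n * z) * (b * n) := by group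
      _ = (z * b * n) * (b * n) := by rw [hnz'']
      _ = z * b * (n * b) * n := by group
      _ = z * b * (b * n) * n := by rw [hnb]
      _ = z * (b * b) * (n * n) := by group
      _ = z * (n * n) := by rw [S.hb.z_sq, mul_one]
  have hs1 : (y * n * y⁻¹) * z * (y * n * y⁻¹)⁻¹ = b := by
    have hyz' : y⁻¹ * z = z * y⁻¹ := S.h.cen _ (Q.inv_mem hy)
    calc (y * n * y⁻¹) * z * (y * n * y⁻¹)⁻¹ = y * n * (y⁻¹ * z) * y * n⁻¹ * y⁻¹ := by group
      _ = y * (n * z * n⁻¹) * y⁻¹ := by rw [hyz']; group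
      _ = b := by rw [hnz, hyzb]
  have hyinvb : y⁻¹ * b * y = z * b := by
    calc y⁻¹ * b * y = y⁻¹ * (y * (z * b) * y⁻¹) * y := by rw [hyzb]
      _ = z * b := by group
  have hs2 : (y * n * y⁻¹) * b * (y * n * y⁻¹)⁻¹ = z := by
    calc (y * n * y⁻¹) * b * (y * n * y⁻¹)⁻¹ = y * (n * (y⁻¹ * b * y) * n⁻¹) * y⁻¹ := by group
      _ = y * z * y⁻¹ := by rw [hyinvb, hnzb]
      _ = z := by rw [hyz]; group
  have hs2' : (y * n * y⁻¹)⁻¹ * z * (y * n * y⁻¹) = b := by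
    calc (y * n * y⁻¹)⁻¹ * z * (y * n * y⁻¹)
        = (y * n * y⁻¹)⁻¹ * ((y * n * y⁻¹) * b * (y * n * y⁻¹)⁻¹) * (y * n * y⁻¹) := by rw [hs2]
      _ = b := by group
  have hwQ : (y * n * y⁻¹) * y * (y * n * y⁻¹)⁻¹ ∈ Qb := S.tr _ hs1 y hy
  have hwz : ((y * n * y⁻¹) * y * (y * n * y⁻¹)⁻¹) * z * ((y * n * y⁻¹) * y * (y * n * y⁻¹)⁻¹)⁻¹
      = z * b := by
    calc ((y * n * y⁻¹) * y * (y * n * y⁻¹)⁻¹) * z * ((y * n * y⁻¹) * y * (y * n * y⁻¹)⁻¹)⁻¹
        = (y * n * y⁻¹) * (y * ((y * n * y⁻¹)⁻¹ * z * (y * n * y⁻¹)) * y⁻¹) * (y * n * y⁻¹)⁻¹ := by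
          group
      _ = (y * n * y⁻¹) * (z * b) * (y * n * y⁻¹)⁻¹ := by rw [hs2', hyb]
      _ = ((y * n * y⁻¹) * z * (y * n * y⁻¹)⁻¹) * ((y * n * y⁻¹) * b * (y * n * y⁻¹)⁻¹) := by
          group
      _ = z * b := by rw [hs1, hs2, hzb]
  have hw : n⁻¹ * ((y * n * y⁻¹) * y * (y * n * y⁻¹)⁻¹) ∈ R Q Qb z b := by
    apply Subgroup.mem_sup_left
    refine ⟨Qb.mul_mem (Qb.inv_mem hn) hwQ, ?_⟩
    show _ ∈ Subgroup.centralizer ({z} : Set G)
    rw [Subgroup.mem_centralizer_singleton_iff]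
    have e1 : n⁻¹ * (z * b) * n = z := by
      calc n⁻¹ * (z * b) * n = n⁻¹ * (n * z * n⁻¹) * n := by rw [hnz]
        _ = z := by group
    calc n⁻¹ * ((y * n * y⁻¹) * y * (y * n * y⁻¹)⁻¹) * z
        = n⁻¹ * (((y * n * y⁻¹) * y * (y * n * y⁻¹)⁻¹) * z *
            ((y * n * y⁻¹) * y * (y * n * y⁻¹)⁻¹)⁻¹) * n *
            (n⁻¹ * ((y * n * y⁻¹) * y * (y * n * y⁻¹)⁻¹)) := by group
      _ = z * (n⁻¹ * ((y * n * y⁻¹) * y * (y * n * y⁻¹)⁻¹)) := by rw [hwz, e1]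
  have hbr : π ⟨n, hnX⟩ * π ⟨y, hyX⟩ * π ⟨n, hnX⟩ = π ⟨y, hyX⟩ * π ⟨n, hnX⟩ * π ⟨y, hyX⟩ := by
    have h1 : π ((⟨n, hnX⟩ : (Q ⊔ Qb : Subgroup G))⁻¹ * ((⟨y, hyX⟩ * ⟨n, hnX⟩ * ⟨y, hyX⟩⁻¹) *
        ⟨y, hyX⟩ * (⟨y, hyX⟩ * ⟨n, hnX⟩ * ⟨y, hyX⟩⁻¹)⁻¹)) = 1 := hπ1 _ hw
    simp only [map_mul, map_inv] at h1
    have h2 := inv_mul_eq_one.1 h1
    generalize π ⟨n, hnX⟩ = c at h2 ⊢
    generalize π ⟨y, hyX⟩ = a at h2 ⊢
    calc c * a * c = (a * c * a⁻¹ * a * (a * c * a⁻¹)⁻¹) * a * c := by rw [← h2]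
      _ = a * c * a := by group
  have hgen : ∀ t : (Q ⊔ Qb : Subgroup G),
      π t ∈ Subgroup.closure ({π ⟨y, hyX⟩, π ⟨n, hnX⟩} : Set _) := by
    have hle : Q ⊔ Qb ≤ ((Subgroup.closure ({π ⟨y, hyX⟩, π ⟨n, hnX⟩} : Set _)).comap π).map
        (Q ⊔ Qb : Subgroup G).subtype := by
      apply sup_le
      · intro q hq
        refine ⟨⟨q, Subgroup.mem_sup_left hq⟩, Subgroup.mem_comap.2 ?_, rfl⟩
        rcases S.h.decomp S.bQ hyb hq with h3 | h3
        · rw [hπ1 ⟨q, Subgroup.mem_sup_left hq⟩ (Subgroup.mem_sup_right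
            ⟨hq, Subgroup.mem_centralizer_singleton_iff.2 h3⟩)]
          exact one_mem _
        · have e : (⟨q, Subgroup.mem_sup_left hq⟩ : (Q ⊔ Qb : Subgroup G)) =
              ⟨y, hyX⟩ * ⟨y⁻¹ * q, Subgroup.mem_sup_left (Q.mul_mem (Q.inv_mem hy) hq)⟩ :=
            Subtype.ext (by simp)
          rw [e, map_mul, hπ1 ⟨y⁻¹ * q, _⟩ (Subgroup.mem_sup_right
            ⟨Q.mul_mem (Q.inv_mem hy) hq, Subgroup.mem_centralizer_singleton_iff.2 h3⟩), mul_one]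
          exact Subgroup.subset_closure (by simp)
      · intro q hq
        refine ⟨⟨q, Subgroup.mem_sup_right hq⟩, Subgroup.mem_comap.2 ?_, rfl⟩
        rcases S.hb.decomp S.zQb hnz' hq with h3 | h3
        · rw [hπ1 ⟨q, Subgroup.mem_sup_right hq⟩ (Subgroup.mem_sup_left
            ⟨hq, Subgroup.mem_centralizer_singleton_iff.2 h3⟩)]
          exact one_mem _
        · have e : (⟨q, Subgroup.mem_sup_right hq⟩ : (Q ⊔ Qb : Subgroup G)) =
              ⟨n, hnX⟩ * ⟨n⁻¹ * q, Subgroup.mem_sup_right (Qb.mul_mem (Qb.inv_mem hn) hq)⟩ :=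
            Subtype.ext (by simp)
          rw [e, map_mul, hπ1 ⟨n⁻¹ * q, _⟩ (Subgroup.mem_sup_left
            ⟨Qb.mul_mem (Qb.inv_mem hn) hq, Subgroup.mem_centralizer_singleton_iff.2 h3⟩), mul_one]
          exact Subgroup.subset_closure (by simp)
    intro t
    obtain ⟨t', ht', htt⟩ := hle t.2
    have : t' = t := Subtype.ext htt
    rw [← this]; exact ht'
  -- a representative congruent to `x` centralizes `V`
  have hrep : ∀ r : (Q ⊔ Qb : Subgroup G), π ⟨x, hx⟩ = π r →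
      (r : G) * z = z * r ∧ (r : G) * b = b * r := by
    intro r hr
    have h1 : (r⁻¹ * ⟨x, hx⟩ : (Q ⊔ Qb : Subgroup G)) ∈ (R Q Qb z b).subgroupOf (Q ⊔ Qb) :=
      QuotientGroup.eq.1 hr.symm
    have h2 : (r : G)⁻¹ * x ∈ R Q Qb z b := Subgroup.mem_subgroupOf.1 h1
    have h3 := S.R_le h2
    have hxC : x ∈ Subgroup.centralizer {z} ⊓ Subgroup.centralizer {b} :=
      ⟨Subgroup.mem_centralizer_singleton_iff.2 hxz, Subgroup.mem_centralizer_singleton_iff.2 hxb⟩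
    have h4 : (r : G) ∈ Subgroup.centralizer {z} ⊓ Subgroup.centralizer {b} := by
      have : (r : G) = x * ((r : G)⁻¹ * x)⁻¹ := by group
      rw [this]
      exact Subgroup.mul_mem _ hxC (Subgroup.inv_mem _ h3)
    exact ⟨Subgroup.mem_centralizer_singleton_iff.1 h4.1,
      Subgroup.mem_centralizer_singleton_iff.1 h4.2⟩
  have hb1 := S.hb.z_ne
  have hz1 := S.h.z_ne
  have hzbz : z * b ≠ z := fun h => hb1 (by
    calc b = z⁻¹ * (z * b) := by group
      _ = 1 := by rw [h]; group)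
  have hzbb : z * b ≠ b := fun h => hz1 (by
    calc z = (z * b) * b⁻¹ := by group
      _ = 1 := by rw [h]; group)
  rcases braid_cover ha hc hbr _ (hgen ⟨x, hx⟩) with h1 | h1 | h1 | h1 | h1 | h1
  · exact Subgroup.mem_subgroupOf.1 ((QuotientGroup.eq_one_iff _).1 h1)
  · exfalso
    have := (hrep _ h1).2
    apply hzbb
    rw [← hyb]
    show y * b * y⁻¹ = b
    have h2 : y * b = b * y := this
    rw [h2]; group
  · exfalso
    have h2 : n * z = z * n := (hrep _ h1).1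
    apply hzbz
    rw [← hnz, h2]; group
  · exfalso
    rw [← map_mul] at h1
    have h2 : (y * n) * z = z * (y * n) := (hrep _ h1).1
    apply S.ne
    calc b = y * (n * z * n⁻¹) * y⁻¹ := by rw [hnz, hyzb]
      _ = ((y * n) * z) * (y * n)⁻¹ := by group
      _ = z := by rw [h2]; group
  · exfalso
    rw [← map_mul] at h1
    have h2 : (n * y) * z = z * (n * y) := (hrep _ h1).1
    apply hzbz
    calc z * b = n * z * n⁻¹ := hnz.symm
      _ = n * (y * z) * y⁻¹ * n⁻¹ := by rw [hyz]; group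
      _ = ((n * y) * z) * (n * y)⁻¹ := by group
      _ = z := by rw [h2]; group
  · exfalso
    rw [← map_mul, ← map_mul] at h1
    have h2 : (y * (n * y)) * z = z * (y * (n * y)) := (hrep _ h1).1
    apply S.ne
    calc b = y * (n * z * n⁻¹) * y⁻¹ := by rw [hnz, hyzb]
      _ = y * (n * (y * z) * y⁻¹ * n⁻¹) * y⁻¹ := by rw [hyz]; group
      _ = ((y * (n * y)) * z) * (y * (n * y))⁻¹ := by group
      _ = z := by rw [h2]; group

end SymPair

end Cfsg.Agent.Lib.Helper27
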