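import Cfsg.Agent.Lib.Helper27.LargeExtra4

set_option autoImplicit false

namespace Cfsg.Agent.Lib.Helper27

open Cfsg

variable {G : Type*} [Group G]

set_option maxRecDepth 100000 in
theorem perm3_two_core (A : Subgroup (Equiv.Perm (Fin 3))) (hA : A.Normal) (h2 : IsPGroup 2 A) :
    A = ⊥ := by
  rw [eq_bot_iff]
  intro σ hσ
  rw [Subgroup.mem_bot]
  by_contra hne
  have key : ∀ σ : Equiv.Perm (Fin 3), σ ≠ 1 → (σ ^ 3 = 1) ∨
      ∃ τ : Equiv.Perm (Fin 3), σ * (τ * σ * τ⁻¹) ≠ 1 ∧ (σ * (τ * σ * τ⁻¹)) ^ 3 = 1 := by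
    decide
  have hm : ∃ m ∈ A, m ≠ 1 ∧ m ^ 3 = 1 := by
    rcases key σ hne with h | ⟨τ, h1, h2⟩
    · exact ⟨σ, hσ, hne, h⟩
    · exact ⟨_, A.mul_mem hσ (hA.conj_mem σ hσ τ), h1, h2⟩
  obtain ⟨m, hmA, hm1, hm3⟩ := hm
  obtain ⟨k, hk⟩ := h2 ⟨m, hmA⟩
  have hk' : m ^ 2 ^ k = 1 := by
    have := congrArg Subtype.val hk
    rwa [Subgroup.coe_pow] at this
  have hd : orderOf m ∣ Nat.gcd 3 (2 ^ k) :=
    Nat.dvd_gcd (orderOf_dvd_of_pow_eq_one hm3) (orderOf_dvd_of_pow_eq_one hk')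
  have hg : Nat.gcd 3 (2 ^ k) = 1 := Nat.Coprime.pow_right k (by norm_num)
  rw [hg] at hd
  exact hm1 (orderOf_eq_one_iff.1 (Nat.dvd_one.1 hd))

/-- Set-up shared by the two pair statements. -/
theorem exists_symPair [Finite G] (Q : Subgroup G) (hQ : Cfsg.IsLargeExtraspecial Q) (z : G)
    (hz : ((Subgroup.center ↥Q).map Q.subtype) = Subgroup.zpowers z) (hz2 : orderOf z = 2) (w : ℕ)
    (hw : 2 ≤ w) (hcard : Nat.card ↥Q = 2 ^ (2 * w + 1)) (g : G)
    (hgH : g ∉ Subgroup.centralizer ({z} : Set G)) (hgQ : g * z * g⁻¹ ∈ Q) :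
    SymPair Q (Q.map (MulAut.conj g).toMonoidHom) z (g * z * g⁻¹) := by
  obtain ⟨z', h', hZ⟩ := exists_ESData Q hQ.1 hQ.2.1 hQ.2.2.1
  have hzz' : z = z' := by
    have h1 : z ∈ (Subgroup.center ↥Q).map Q.subtype := hz ▸ Subgroup.mem_zpowers z
    rcases (hZ z).1 h1 with h2 | h2
    · rw [h2, orderOf_one] at hz2; omega
    · exact h2
  subst hzz'
  have hbz : g * z * g⁻¹ ≠ z := by
    intro h
    apply hgH
    rw [Subgroup.mem_centralizer_singleton_iff]
    calc g * z = (g * z * g⁻¹) * g := by group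
      _ = z * g := by rw [h]
  have hcard8 : 8 < Nat.card Q := by
    rw [hcard]
    calc 8 < 2 ^ 5 := by norm_num
      _ ≤ 2 ^ (2 * w + 1) := Nat.pow_le_pow_right (by norm_num) (by omega)
  exact h'.symPair hcard8 g hgQ hbz

namespace SymPair

variable {Q Qb : Subgroup G} {z b : G}

theorem mem_V (S : SymPair Q Qb z b) (v : G) :
    v ∈ Subgroup.closure ({z, b} : Set G) ↔ v = 1 ∨ v = z ∨ v = b ∨ v = z * b := by
  constructor
  · intro hv
    have hle : Subgroup.closure ({z, b} : Set G) ≤ fourSubgroup z b S.h.z_sq S.hb.z_sq S.zb := by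
      rw [Subgroup.closure_le]
      rintro v (rfl | rfl)
      · exact Or.inr (Or.inl rfl)
      · exact Or.inr (Or.inr (Or.inl rfl))
    exact hle hv
  · have hz' : z ∈ Subgroup.closure ({z, b} : Set G) := Subgroup.subset_closure (by simp)
    have hb' : b ∈ Subgroup.closure ({z, b} : Set G) := Subgroup.subset_closure (by simp)
    rintro (rfl | rfl | rfl | rfl)
    · exact one_mem _
    · exact hz'
    · exact hb'
    · exact mul_mem hz' hb'

theorem mem_CV (S : SymPair Q Qb z b) (c : G) :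
    c ∈ Subgroup.centralizer ((Subgroup.closure ({z, b} : Set G) : Subgroup G) : Set G) ↔
      c * z = z * c ∧ c * b = b * c := by
  rw [Subgroup.mem_centralizer_iff]
  constructor
  · intro hc
    exact ⟨(hc z ((S.mem_V z).2 (by simp))).symm, (hc b ((S.mem_V b).2 (by simp))).symm⟩
  · rintro ⟨h1, h2⟩ v hv
    rcases (S.mem_V v).1 hv with rfl | rfl | rfl | rfl
    · simp
    · exact h1.symm
    · exact h2.symm
    · rw [mul_assoc, ← h2, ← mul_assoc, ← h1, mul_assoc]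

theorem X_le_normalizer_V (S : SymPair Q Qb z b) :
    Q ⊔ Qb ≤ Subgroup.normalizer ((Subgroup.closure ({z, b} : Set G) : Subgroup G) : Set G) := by
  apply sup_le
  · intro q hq
    apply mem_normalizer_four S.mem_V
    · rw [S.h.cen q hq]
      apply (S.mem_V _).2
      right; left; group
    · apply (S.mem_V _).2
      rcases S.h.comm q hq b S.bQ with h1 | h1
      · right; right; left
        calc q * b * q⁻¹ = (q * b * q⁻¹ * b⁻¹) * b := by group
          _ = b := by rw [h1, one_mul]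
      · right; right; right
        calc q * b * q⁻¹ = (q * b * q⁻¹ * b⁻¹) * b := by group
          _ = z * b := by rw [h1]
  · intro q hq
    apply mem_normalizer_four S.mem_V
    · apply (S.mem_V _).2
      rcases S.hb.comm q hq z S.zQb with h1 | h1
      · right; left
        calc q * z * q⁻¹ = (q * z * q⁻¹ * z⁻¹) * z := by group
          _ = z := by rw [h1, one_mul]
      · right; right; right
        calc q * z * q⁻¹ = (q * z * q⁻¹ * z⁻¹) * z := by group
          _ = z * b := by rw [h1, S.zb]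
    · rw [S.hb.cen q hq]
      apply (S.mem_V _).2
      right; right; left; group

theorem R_isPGroup (S : SymPair Q Qb z b) : IsPGroup 2 (R Q Qb z b) := by
  apply IsPGroup.to_sup_of_normal_right' (S.hb.two.to_le inf_le_left) (S.h.two.to_le inf_le_left)
  apply Cfsg.Agent.Lib.Helper17.le_normalizer_inf
  · intro u hu
    exact S.h.nrm u (Subgroup.mem_centralizer_singleton_iff.1 hu.2)
  · intro u hu
    apply Subgroup.le_normalizer
    exact Subgroup.mem_centralizer_singleton_iff.2 (S.hb.cen u hu.1)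

theorem main [Finite G] (S : SymPair Q Qb z b) :
    R Q Qb z b = (Q ⊔ Qb) ⊓ Subgroup.centralizer
      ((Subgroup.closure ({z, b} : Set G) : Subgroup G) : Set G) ∧
    R Q Qb z b = (Cfsg.pCore 2 ↥(Q ⊔ Qb : Subgroup G)).map (Q ⊔ Qb : Subgroup G).subtype ∧
    (∃ _ : ((R Q Qb z b).subgroupOf (Q ⊔ Qb)).Normal,
      Nonempty (↥(Q ⊔ Qb : Subgroup G) ⧸ (R Q Qb z b).subgroupOf (Q ⊔ Qb) ≃*
        Equiv.Perm (Fin 3))) ∧
    Subgroup.normalizer ((Subgroup.closure ({z, b} : Set G) : Subgroup G) : Set G) =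
      (Q ⊔ Qb) ⊔ (Subgroup.centralizer ({z} : Set G) ⊓ Subgroup.centralizer
        ((Subgroup.closure ({z, b} : Set G) : Subgroup G) : Set G)) := by
  obtain ⟨y, hy, hyb⟩ := S.h.exists_swap S.bQ S.hb.z_ne S.ne
  obtain ⟨n, hn, hnz'⟩ := S.hb.exists_swap S.zQb S.h.z_ne (Ne.symm S.ne)
  have hnz : n * z * n⁻¹ = z * b := by rw [hnz', S.zb]
  have hyz : y * z * y⁻¹ = z := by rw [S.h.cen y hy]; group
  have hnb : n * b * n⁻¹ = b := by rw [S.hb.cen n hn]; group
  obtain ⟨hcardT, hsurjT⟩ := fourGroup_action S.mem_V S.h.z_ne S.hb.z_ne (Ne.symm S.ne) S.h.z_sq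
    S.hb.z_sq hyz hyb hnb hnz
  have hyX : y ∈ Q ⊔ Qb := Subgroup.mem_sup_left hy
  have hnX : n ∈ Q ⊔ Qb := Subgroup.mem_sup_right hn
  have hXN := S.X_le_normalizer_V
  set V : Subgroup G := Subgroup.closure ({z, b} : Set G) with hVdef
  have ha : R Q Qb z b = (Q ⊔ Qb) ⊓ Subgroup.centralizer (V : Set G) := by
    apply le_antisymm
    · exact le_inf R_le_X (fun r hr => (S.mem_CV r).2 (S.R_comm hr))
    · intro x hx
      exact S.X_inf_le_R hx.1 ((S.mem_CV x).1 hx.2).1 ((S.mem_CV x).1 hx.2).2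
  have hfinT : Finite {v : G // v ∈ V ∧ v ≠ 1} := Nat.finite_of_card_ne_zero (by omega)
  let e : {v : G // v ∈ V ∧ v ≠ 1} ≃ Fin 3 := Finite.equivFinOfCardEq hcardT
  let ρ3 : (Q ⊔ Qb : Subgroup G) →* Equiv.Perm (Fin 3) :=
    (Equiv.permCongrHom e).toMonoidHom.comp ((normalizerPermHom V).comp (Subgroup.inclusion hXN))
  have hρ3 : ∀ x, ρ3 x = Equiv.permCongrHom e (normalizerPermHom V (Subgroup.inclusion hXN x)) :=
    fun _ => rfl
  have hker : ρ3.ker = (R Q Qb z b).subgroupOf (Q ⊔ Qb) := by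
    ext x
    rw [MonoidHom.mem_ker, hρ3, MulEquiv.map_eq_one_iff, ← MonoidHom.mem_ker,
      normalizerPermHom_ker, Subgroup.mem_subgroupOf, Subgroup.mem_subgroupOf, ha]
    constructor
    · intro h1; exact ⟨x.2, h1⟩
    · intro h1; exact h1.2
  have hsurj : Function.Surjective ρ3 := by
    intro σ
    obtain ⟨x, hxX, hx⟩ := hsurjT (Q ⊔ Qb) hyX hnX ((Equiv.permCongrHom e).symm σ)
    refine ⟨⟨x, hxX⟩, ?_⟩
    have : Subgroup.inclusion hXN ⟨(x : G), hxX⟩ = x := Subtype.ext rfl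
    rw [hρ3, this, hx, MulEquiv.apply_symm_apply]
  have hN : ((R Q Qb z b).subgroupOf (Q ⊔ Qb)).Normal :=
    (Subgroup.normal_subgroupOf_iff_le_normalizer R_le_X).2 S.X_le_normalizer_R
  refine ⟨ha, ?_, ⟨hN, ⟨(QuotientGroup.quotientMulEquivOfEq hker.symm).trans
    (QuotientGroup.quotientKerEquivOfSurjective ρ3 hsurj)⟩⟩, ?_⟩
  · apply le_antisymm
    · intro r hr
      exact ⟨⟨r, R_le_X hr⟩, Cfsg.Agent.Lib.Helper17.le_pCore hN (S.R_isPGroup.comap_subtype)
        (Subgroup.mem_subgroupOf.2 hr), rfl⟩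
    · rintro _ ⟨o, ho, rfl⟩
      have hA : (Cfsg.pCore 2 ↥(Q ⊔ Qb : Subgroup G)).map ρ3 = ⊥ :=
        perm3_two_core _ ((Cfsg.pCore_normal 2 _).map ρ3 hsurj)
          ((Cfsg.Agent.Lib.Helper17.pCore_isPGroup).map ρ3)
      have h1 : ρ3 o ∈ (Cfsg.pCore 2 ↥(Q ⊔ Qb : Subgroup G)).map ρ3 := ⟨o, ho, rfl⟩
      rw [hA, Subgroup.mem_bot, ← MonoidHom.mem_ker, hker] at h1
      exact Subgroup.mem_subgroupOf.1 h1
  · apply le_antisymm
    · intro h hh
      obtain ⟨x, hxX, hx⟩ := hsurjT (Q ⊔ Qb) hyX hnX (normalizerPermHom V ⟨h, hh⟩)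
      have h1 : x⁻¹ * ⟨h, hh⟩ ∈ (normalizerPermHom V).ker := by
        rw [MonoidHom.mem_ker, map_mul, map_inv, hx, inv_mul_cancel]
      rw [normalizerPermHom_ker, Subgroup.mem_subgroupOf] at h1
      have h2 : (x : G)⁻¹ * h ∈ Subgroup.centralizer (V : Set G) := h1
      have h3 : h = (x : G) * ((x : G)⁻¹ * h) := by group
      rw [h3]
      refine mul_mem (Subgroup.mem_sup_left hxX) (Subgroup.mem_sup_right ⟨?_, h2⟩)
      exact Subgroup.mem_centralizer_singleton_iff.2 ((S.mem_CV _).1 h2).1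
    · refine sup_le hXN (inf_le_right.trans ?_)
      intro c hc
      rw [Subgroup.mem_normalizer_iff]
      intro v
      have hc' := Subgroup.mem_centralizer_iff.1 hc
      constructor
      · intro hv
        rw [← hc' v hv]; simpa using hv
      · intro hv
        have := hc' _ hv
        have e1 : v = c * v * c⁻¹ := by
          calc v = c⁻¹ * (c * v * c⁻¹ * c) := by group
            _ = c⁻¹ * (c * (c * v * c⁻¹)) := by rw [this]
            _ = c * v * c⁻¹ := by group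
        rw [e1]; exact hv

theorem main2 [Finite G] (S : SymPair Q Qb z b) :
    (∀ y ∈ Subgroup.normalizer ((Subgroup.closure ({z, b} : Set G) : Subgroup G) : Set G),
      ∀ x ∈ Q ⊔ Qb, y * x * y⁻¹ ∈ Q ⊔ Qb) ∧
    R Q Qb z b ≤ Subgroup.centralizer ({z} : Set G) ⊓ Subgroup.centralizer
        ((Subgroup.closure ({z, b} : Set G) : Subgroup G) : Set G) ∧
    (∀ x ∈ Q ⊔ Qb, ∀ c ∈ Subgroup.centralizer ({z} : Set G) ⊓ Subgroup.centralizer
        ((Subgroup.closure ({z, b} : Set G) : Subgroup G) : Set G),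
      x * c * x⁻¹ * c⁻¹ ∈ R Q Qb z b) ∧
    (Q ⊔ Qb) ⊓ (Subgroup.centralizer ({z} : Set G) ⊓ Subgroup.centralizer
        ((Subgroup.closure ({z, b} : Set G) : Subgroup G) : Set G)) = R Q Qb z b := by
  obtain ⟨h1, -, -, h4⟩ := S.main
  have hf : R Q Qb z b ≤ Subgroup.centralizer ({z} : Set G) ⊓ Subgroup.centralizer
        ((Subgroup.closure ({z, b} : Set G) : Subgroup G) : Set G) :=
    fun r hr => ⟨(S.R_le hr).1, (S.mem_CV r).2 (S.R_comm hr)⟩
  refine ⟨?_, hf, ?_, ?_⟩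
  · intro y hy x hx
    rw [h4] at hy
    have hle : (Q ⊔ Qb) ⊔ (Subgroup.centralizer ({z} : Set G) ⊓ Subgroup.centralizer
        ((Subgroup.closure ({z, b} : Set G) : Subgroup G) : Set G)) ≤
        Subgroup.normalizer ((Q ⊔ Qb : Subgroup G) : Set G) := by
      apply sup_le Subgroup.le_normalizer
      apply Cfsg.Agent.Lib.Helper17.le_normalizer_sup
      · intro c hc
        exact S.h.nrm c ((S.mem_CV c).1 hc.2).1
      · intro c hc
        exact S.hb.nrm c ((S.mem_CV c).1 hc.2).2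
    exact conj_mem_of_normalizer (hle hy) hx
  · intro x hx c hc
    exact S.comm_X_mem_R hx ((S.mem_CV c).1 hc.2).1 ((S.mem_CV c).1 hc.2).2
  · apply le_antisymm
    · intro x hx
      rw [h1]
      exact ⟨hx.1, hx.2.2⟩
    · exact le_inf R_le_X hf

end SymPair

end Cfsg.Agent.Lib.Helper27
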