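import Cfsg.Agent.Lib.Helper27.LargeExtra5
import Cfsg.Agent.Lib.Helper23.FrattiniP

set_option autoImplicit false

namespace Cfsg.Agent.Lib.Helper27

open Cfsg
open scoped commutatorElement

variable {G : Type*} [Group G]

/-- Squares in an extraspecial 2-group lie in the centre. -/
theorem extraspecial_sq [Finite G] (Q : Subgroup G) (hL1 : Cfsg.IsExtraspecial 2 ↥Q) {z : G}
    (hZ : ∀ y : G, y ∈ (Subgroup.center ↥Q).map Q.subtype ↔ y = 1 ∨ y = z) {x : G} (hx : x ∈ Q) :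
    x * x = 1 ∨ x * x = z := by
  have h1 := Cfsg.Agent.Lib.Helper23.pow_mem_frattini hL1.1.1 (⟨x, hx⟩ : Q)
  rw [hL1.1.2.1] at h1
  have h2 := (hZ _).1 ⟨_, h1, rfl⟩
  simpa [pow_two] using h2

namespace SymPair

variable {Q Qb : Subgroup G} {z b : G}

theorem E_eq (S : SymPair Q Qb z b) :
    (Qb ⊓ Subgroup.centralizer {z}) ⊓ (Q ⊓ Subgroup.centralizer {b}) = Q ⊓ Qb := by
  apply le_antisymm
  · intro x hx
    exact ⟨hx.2.1, hx.1.1⟩
  · intro e he
    exact ⟨⟨he.2, Subgroup.mem_centralizer_singleton_iff.2 (S.h.cen e he.1)⟩,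
      ⟨he.1, Subgroup.mem_centralizer_singleton_iff.2 (S.hb.cen e he.2)⟩⟩

theorem E_le_R (S : SymPair Q Qb z b) : Q ⊓ Qb ≤ R Q Qb z b := by
  rw [← S.E_eq]
  exact inf_le_left.trans le_sup_left

theorem z_mem_E (S : SymPair Q Qb z b) : z ∈ Q ⊓ Qb := ⟨S.h.z_mem, S.zQb⟩
theorem b_mem_E (S : SymPair Q Qb z b) : b ∈ Q ⊓ Qb := ⟨S.bQ, S.hb.z_mem⟩

theorem R_le_normalizer_E (S : SymPair Q Qb z b) :
    R Q Qb z b ≤ Subgroup.normalizer ((Q ⊓ Qb : Subgroup G) : Set G) := by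
  apply Cfsg.Agent.Lib.Helper17.le_normalizer_inf
  · intro r hr; exact S.h.nrm r (S.R_comm hr).1
  · intro r hr; exact S.hb.nrm r (S.R_comm hr).2

theorem comm_P_Pb (S : SymPair Q Qb z b) {p u : G} (hp : p ∈ Q) (hpb : p * b = b * p)
    (hu : u ∈ Qb) (huz : u * z = z * u) : p * u * p⁻¹ * u⁻¹ ∈ Q ⊓ Qb := by
  constructor
  · have : p * u * p⁻¹ * u⁻¹ = p * (u * p⁻¹ * u⁻¹) := by group
    rw [this]
    exact Q.mul_mem hp (conj_mem_of_normalizer (S.h.nrm u huz) (Q.inv_mem hp))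
  · exact Qb.mul_mem (conj_mem_of_normalizer (S.hb.nrm p hpb) hu) (Qb.inv_mem hu)

theorem Pb_le_normalizer_P (S : SymPair Q Qb z b) :
    Qb ⊓ Subgroup.centralizer {z} ≤
      Subgroup.normalizer ((Q ⊓ Subgroup.centralizer {b} : Subgroup G) : Set G) := by
  apply Cfsg.Agent.Lib.Helper17.le_normalizer_inf
  · intro u hu
    exact S.h.nrm u (Subgroup.mem_centralizer_singleton_iff.1 hu.2)
  · intro u hu
    apply Subgroup.le_normalizer
    exact Subgroup.mem_centralizer_singleton_iff.2 (S.hb.cen u hu.1)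

theorem sq_mem_E (S : SymPair Q Qb z b) (hsq : ∀ x ∈ Q, x * x = 1 ∨ x * x = z)
    (hsqb : ∀ x ∈ Qb, x * x = 1 ∨ x * x = b) {r : G} (hr : r ∈ R Q Qb z b) :
    r * r ∈ Q ⊓ Qb := by
  obtain ⟨u, hu, p, hp, rfl⟩ :=
    (Cfsg.Agent.Lib.Helper17.mem_sup_of_le_normalizer S.Pb_le_normalizer_P).1 hr
  have hκ := S.comm_P_Pb hp.1 (Subgroup.mem_centralizer_singleton_iff.1 hp.2) hu.1
    (Subgroup.mem_centralizer_singleton_iff.1 hu.2)
  have huR : u ∈ R Q Qb z b := Subgroup.mem_sup_left hu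
  have h1 := conj_mem_of_normalizer (S.R_le_normalizer_E huR) hκ
  have h2 : u * u ∈ Q ⊓ Qb := by
    rcases hsqb u hu.1 with h | h
    · rw [h]; exact one_mem _
    · rw [h]; exact S.b_mem_E
  have h3 : p * p ∈ Q ⊓ Qb := by
    rcases hsq p hp.1 with h | h
    · rw [h]; exact one_mem _
    · rw [h]; exact S.z_mem_E
  have e : u * p * (u * p) = (u * (p * u * p⁻¹ * u⁻¹) * u⁻¹) * (u * u) * (p * p) := by group
  rw [e]
  exact mul_mem (mul_mem h1 h2) h3

theorem comm_mem_E (S : SymPair Q Qb z b) (hsq : ∀ x ∈ Q, x * x = 1 ∨ x * x = z)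
    (hsqb : ∀ x ∈ Qb, x * x = 1 ∨ x * x = b) {x y : G} (hx : x ∈ R Q Qb z b)
    (hy : y ∈ R Q Qb z b) : x * y * x⁻¹ * y⁻¹ ∈ Q ⊓ Qb := by
  have e : x * y * x⁻¹ * y⁻¹ = (x * y * (x * y)) * (y⁻¹ * (x⁻¹ * x⁻¹) * y⁻¹⁻¹) * (y⁻¹ * y⁻¹) := by
    group
  rw [e]
  exact mul_mem (mul_mem (S.sq_mem_E hsq hsqb (mul_mem hx hy))
    (conj_mem_of_normalizer (S.R_le_normalizer_E (inv_mem hy)) (S.sq_mem_E hsq hsqb (inv_mem hx))))
    (S.sq_mem_E hsq hsqb (inv_mem hy))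

theorem E_elemAb (S : SymPair Q Qb z b) (hsq : ∀ x ∈ Q, x * x = 1 ∨ x * x = z)
    (hsqb : ∀ x ∈ Qb, x * x = 1 ∨ x * x = b) : Cfsg.IsElementaryAbelian 2 (Q ⊓ Qb) := by
  constructor
  · refine ⟨⟨fun e₁ e₂ => ?_⟩⟩
    apply Subtype.ext
    show (e₁ : G) * e₂ = e₂ * e₁
    have h1 : (e₁ : G) * e₂ * (e₁ : G)⁻¹ * (e₂ : G)⁻¹ = 1 := by
      rcases S.h.comm e₁ e₁.2.1 e₂ e₂.2.1 with h | h
      · exact h
      · rcases S.hb.comm e₁ e₁.2.2 e₂ e₂.2.2 with h' | h'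
        · exact h'
        · exact absurd (h'.symm.trans h) S.ne
    calc (e₁ : G) * e₂ = ((e₁ : G) * e₂ * (e₁ : G)⁻¹ * (e₂ : G)⁻¹) * (e₂ * e₁) := by group
      _ = e₂ * e₁ := by rw [h1, one_mul]
  · intro e he
    rw [pow_two]
    rcases hsq e he.1 with h | h
    · exact h
    · rcases hsqb e he.2 with h' | h'
      · exact h'
      · exact absurd (h'.symm.trans h) S.ne

/-- `[X, E] ≤ V` elementwise. -/
theorem comm_X_E (S : SymPair Q Qb z b) {x e : G} (hx : x ∈ Q ⊔ Qb) (he : e ∈ Q ⊓ Qb) :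
    x * e * x⁻¹ * e⁻¹ ∈ Subgroup.closure ({z, b} : Set G) := by
  let K : Subgroup G :=
    { carrier := {x | x ∈ Subgroup.normalizer
          ((Subgroup.closure ({z, b} : Set G) : Subgroup G) : Set G) ∧
        x * e * x⁻¹ * e⁻¹ ∈ Subgroup.closure ({z, b} : Set G)}
      one_mem' := ⟨one_mem _, by simp⟩
      mul_mem' := by
        rintro x₁ x₂ ⟨h1, h1'⟩ ⟨h2, h2'⟩
        refine ⟨mul_mem h1 h2, ?_⟩
        have : x₁ * x₂ * e * (x₁ * x₂)⁻¹ * e⁻¹ =
            (x₁ * (x₂ * e * x₂⁻¹ * e⁻¹) * x₁⁻¹) * (x₁ * e * x₁⁻¹ * e⁻¹) := by group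
        rw [this]
        exact mul_mem (conj_mem_of_normalizer h1 h2') h1'
      inv_mem' := by
        rintro x ⟨h1, h1'⟩
        refine ⟨inv_mem h1, ?_⟩
        have : x⁻¹ * e * x⁻¹⁻¹ * e⁻¹ = x⁻¹ * (x * e * x⁻¹ * e⁻¹)⁻¹ * x⁻¹⁻¹ := by group
        rw [this]
        exact conj_mem_of_normalizer (inv_mem h1) (inv_mem h1') }
  have hle : Q ⊔ Qb ≤ K := by
    apply sup_le
    · intro x hx
      refine ⟨S.X_le_normalizer_V (Subgroup.mem_sup_left hx), (S.mem_V _).2 ?_⟩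
      rcases S.h.comm x hx e he.1 with h | h
      · exact Or.inl h
      · exact Or.inr (Or.inl h)
    · intro x hx
      refine ⟨S.X_le_normalizer_V (Subgroup.mem_sup_right hx), (S.mem_V _).2 ?_⟩
      rcases S.hb.comm x hx e he.2 with h | h
      · exact Or.inl h
      · exact Or.inr (Or.inr (Or.inl h))
  exact (hle hx).2

theorem V_le_R (S : SymPair Q Qb z b) : Subgroup.closure ({z, b} : Set G) ≤ R Q Qb z b := by
  rw [Subgroup.closure_le]
  rintro v (rfl | rfl)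
  · exact S.E_le_R S.z_mem_E
  · exact S.E_le_R S.b_mem_E

/-- An element of `R` centralizing `C_Q(b)` lies in `V`. -/
theorem mem_V_of_central (S : SymPair Q Qb z b) {r : G} (hr : r ∈ R Q Qb z b)
    (hc : ∀ p ∈ Q, p * b = b * p → r * p = p * r) :
    r ∈ Subgroup.closure ({z, b} : Set G) := by
  obtain ⟨y, hy, hyb⟩ := S.h.exists_swap S.bQ S.hb.z_ne S.ne
  have hzb := S.zb
  have hrz := (S.R_comm hr).1
  have hrb := (S.R_comm hr).2
  have hyz : y * z = z * y := S.h.cen y hy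
  have hbinv : b⁻¹ = b := S.hb.z_inv
  have hzinv : z⁻¹ = z := S.h.z_inv
  have hyb' : y * b = z * b * y := by
    calc y * b = (y * b * y⁻¹) * y := by group
      _ = z * b * y := by rw [hyb]
  have hyzb : y * (z * b) * y⁻¹ = b := by
    calc y * (z * b) * y⁻¹ = (y * z) * b * y⁻¹ := by group
      _ = z * (y * b * y⁻¹) := by rw [hyz]; group
      _ = b := by rw [hyb, ← mul_assoc, S.h.z_sq, one_mul]
  -- general principle: commuting with `y` and `C_Q(b)` forces `1` or `z`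
  have hall : ∀ e' : G, (∀ p ∈ Q, p * b = b * p → e' * p = p * e') → e' * y = y * e' →
      e' = 1 ∨ e' = z := by
    intro e' h1 h2
    apply S.h.cq
    intro q hq
    rcases S.h.decomp S.bQ hyb hq with h3 | h3
    · exact h1 q hq h3
    · have h4 := h1 _ (Q.mul_mem (Q.inv_mem hy) hq) h3
      calc e' * q = (e' * y) * (y⁻¹ * q) := by group
        _ = y * (e' * (y⁻¹ * q)) := by rw [h2]; group
        _ = y * (y⁻¹ * q * e') := by rw [h4]
        _ = q * e' := by group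
  have hd := S.h.comm_mem S.bQ hy hrz hrb
  have hdQ := hd.1
  have hdb : (y * r * y⁻¹ * r⁻¹) * b = b * (y * r * y⁻¹ * r⁻¹) :=
    Subgroup.mem_centralizer_singleton_iff.1 hd.2
  have hrinv : ∀ p ∈ Q, p * b = b * p → r⁻¹ * p = p * r⁻¹ := by
    intro p hp hpb
    calc r⁻¹ * p = r⁻¹ * (p * r) * r⁻¹ := by group
      _ = r⁻¹ * (r * p) * r⁻¹ := by rw [hc p hp hpb]
      _ = p * r⁻¹ := by group
  have hdP : ∀ p ∈ Q, p * b = b * p → (y * r * y⁻¹ * r⁻¹) * p = p * (y * r * y⁻¹ * r⁻¹) := by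
    intro p hp hpb
    have hpz : p * z = z * p := S.h.cen p hp
    have h1 := S.h.comm_mem S.bQ (Q.inv_mem hy) hpz hpb
    have h2 : y⁻¹ * p * y ∈ Q ⊓ Subgroup.centralizer {b} := by
      have e : y⁻¹ * p * y = (y⁻¹ * p * y⁻¹⁻¹ * p⁻¹) * p := by group
      rw [e]
      exact mul_mem h1 ⟨hp, Subgroup.mem_centralizer_singleton_iff.2 hpb⟩
    have h3 := hc _ h2.1 (Subgroup.mem_centralizer_singleton_iff.1 h2.2)
    calc (y * r * y⁻¹ * r⁻¹) * p = y * r * y⁻¹ * (r⁻¹ * p) := by group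
      _ = y * r * y⁻¹ * (p * r⁻¹) := by rw [hrinv p hp hpb]
      _ = y * (r * (y⁻¹ * p * y)) * y⁻¹ * r⁻¹ := by group
      _ = y * ((y⁻¹ * p * y) * r) * y⁻¹ * r⁻¹ := by rw [h3]
      _ = p * (y * r * y⁻¹ * r⁻¹) := by group
  have hcases := S.h.double_cent S.bQ S.hb.z_ne S.ne S.hb.z_sq hdQ hdP
  -- `y d y⁻¹ = d⁻¹`
  have hyy : (y⁻¹ * y⁻¹) * b = b * (y⁻¹ * y⁻¹) := by
    have h1 : y * y * b = b * (y * y) := by
      calc y * y * b = y * (y * b) := by group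
        _ = (y * z) * b * y := by rw [hyb']; group
        _ = z * (y * b) * y := by rw [hyz]; group
        _ = (z * z) * b * y * y := by rw [hyb']; group
        _ = b * (y * y) := by rw [S.h.z_sq]; group
    calc (y⁻¹ * y⁻¹) * b = (y * y)⁻¹ * (b * (y * y)) * (y * y)⁻¹ := by group
      _ = (y * y)⁻¹ * (y * y * b) * (y * y)⁻¹ := by rw [h1]
      _ = b * (y⁻¹ * y⁻¹) := by group
  have hr2 := hc _ (Q.mul_mem (Q.inv_mem hy) (Q.inv_mem hy)) hyy
  have hinvd : y * (y * r * y⁻¹ * r⁻¹) * y⁻¹ * (y * r * y⁻¹ * r⁻¹) = 1 := by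
    calc y * (y * r * y⁻¹ * r⁻¹) * y⁻¹ * (y * r * y⁻¹ * r⁻¹)
        = y * y * (r * (y⁻¹ * y⁻¹)) * r⁻¹ := by group
      _ = y * y * (y⁻¹ * y⁻¹ * r) * r⁻¹ := by rw [hr2]
      _ = 1 := by group
  apply (S.mem_V r).2
  rcases hcases with h1 | h1 | h1 | h1
  · have h2 : r * y = y * r := by
      calc r * y = (y * r * y⁻¹ * r⁻¹)⁻¹ * (y * r) := by group
        _ = y * r := by rw [h1]; simp
    rcases hall r hc h2 with h3 | h3
    · exact Or.inl h3
    · exact Or.inr (Or.inl h3)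
  · have h2 : y * r = z * r * y := by
      calc y * r = (y * r * y⁻¹ * r⁻¹) * (r * y) := by group
        _ = z * r * y := by rw [h1]; group
    have h3 : (b * r) * y = y * (b * r) := by
      symm
      calc y * (b * r) = (y * b) * r := by group
        _ = z * b * (y * r) := by rw [hyb']; group
        _ = z * (b * z) * r * y := by rw [h2]; group
        _ = (z * z) * b * r * y := by rw [hzb]; group
        _ = b * r * y := by rw [S.h.z_sq, one_mul]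
    have h4 : ∀ p ∈ Q, p * b = b * p → (b * r) * p = p * (b * r) := by
      intro p hp hpb
      calc b * r * p = b * (r * p) := by group
        _ = (b * p) * r := by rw [hc p hp hpb]; group
        _ = p * (b * r) := by rw [← hpb]; group
    rcases hall (b * r) h4 h3 with h5 | h5
    · right; right; left
      calc r = b⁻¹ * (b * r) := by group
        _ = b := by rw [h5, hbinv, mul_one]
    · right; right; right
      calc r = b⁻¹ * (b * r) := by group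
        _ = z * b := by rw [h5, hbinv, hzb]
  · exfalso
    rw [h1, hyb, mul_assoc, S.hb.z_sq, mul_one] at hinvd
    exact S.h.z_ne hinvd
  · exfalso
    rw [h1, hyzb, ← mul_assoc, hzb, mul_assoc, S.hb.z_sq, mul_one] at hinvd
    exact S.h.z_ne hinvd

theorem main3 (S : SymPair Q Qb z b) (hsq : ∀ x ∈ Q, x * x = 1 ∨ x * x = z)
    (hsqb : ∀ x ∈ Qb, x * x = 1 ∨ x * x = b) :
    (Subgroup.center ↥(R Q Qb z b)).map (R Q Qb z b).subtype =
      Subgroup.closure ({z, b} : Set G) ∧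
    Q ⊓ Qb ≤ (Subgroup.upperCentralSeries ↥(R Q Qb z b) 2).map (R Q Qb z b).subtype ∧
    Subgroup.upperCentralSeries ↥(R Q Qb z b) 3 = ⊤ ∧
    Cfsg.IsElementaryAbelian 2 (Q ⊓ Qb) ∧
    (∀ x ∈ R Q Qb z b, ∀ y ∈ R Q Qb z b, x * y * x⁻¹ * y⁻¹ ∈ Q ⊓ Qb ∧ x ^ 2 ∈ Q ⊓ Qb) ∧
    (Qb ⊓ Subgroup.centralizer {z}) ⊓ (Q ⊓ Subgroup.centralizer {b}) = Q ⊓ Qb ∧
    ⁅Q ⊔ Qb, Q ⊓ Qb⁆ ≤ Subgroup.closure ({z, b} : Set G) := by
  have hcenter : ∀ r : R Q Qb z b, r ∈ Subgroup.center ↥(R Q Qb z b) ↔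
      (r : G) ∈ Subgroup.closure ({z, b} : Set G) := by
    intro r
    constructor
    · intro hr
      apply S.mem_V_of_central r.2
      intro p hp hpb
      have h1 := Subgroup.mem_center_iff.1 hr
        ⟨p, Subgroup.mem_sup_right ⟨hp, Subgroup.mem_centralizer_singleton_iff.2 hpb⟩⟩
      exact (congrArg Subtype.val h1).symm
    · intro hv
      rw [Subgroup.mem_center_iff]
      intro g
      have h1 := (S.mem_CV g).2 (S.R_comm g.2)
      exact Subtype.ext (Subgroup.mem_centralizer_iff.1 h1 _ hv).symm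
  have hZ2 : ∀ r : R Q Qb z b, (r : G) ∈ Q ⊓ Qb →
      r ∈ Subgroup.upperCentralSeries ↥(R Q Qb z b) 2 := by
    intro r hr
    rw [show (2 : ℕ) = 1 + 1 from rfl, Subgroup.mem_upperCentralSeries_succ_iff]
    intro y
    rw [Subgroup.upperCentralSeries_one, hcenter]
    have h1 := S.comm_X_E (R_le_X y.2) hr
    have e : ((r * y * r⁻¹ * y⁻¹ : R Q Qb z b) : G) = ((y : G) * r * (y : G)⁻¹ * (r : G)⁻¹)⁻¹ := by
      simp only [Subgroup.coe_mul, Subgroup.coe_inv]; group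
    rw [commutatorElement_def, e]
    exact inv_mem h1
  refine ⟨?_, ?_, ?_, S.E_elemAb hsq hsqb, ?_, S.E_eq, ?_⟩
  · ext v
    constructor
    · rintro ⟨r, hr, rfl⟩
      exact (hcenter r).1 hr
    · intro hv
      exact ⟨⟨v, S.V_le_R hv⟩, (hcenter _).2 hv, rfl⟩
  · intro e he
    exact ⟨⟨e, S.E_le_R he⟩, hZ2 _ he, rfl⟩
  · rw [eq_top_iff]
    intro x _
    rw [show (3 : ℕ) = 2 + 1 from rfl, Subgroup.mem_upperCentralSeries_succ_iff]
    intro y
    apply hZ2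
    rw [commutatorElement_def]
    exact S.comm_mem_E hsq hsqb x.2 y.2
  · intro x hx y hy
    refine ⟨S.comm_mem_E hsq hsqb hx hy, ?_⟩
    rw [pow_two]
    exact S.sq_mem_E hsq hsqb hx
  · rw [Subgroup.commutator_le]
    intro x hx e he
    rw [commutatorElement_def]
    exact S.comm_X_E hx he

end SymPair

theorem exists_symPair_sq [Finite G] (Q : Subgroup G) (hQ : Cfsg.IsLargeExtraspecial Q) (z : G)
    (hz : ((Subgroup.center ↥Q).map Q.subtype) = Subgroup.zpowers z) (hz2 : orderOf z = 2)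
    (g : G) : (∀ x ∈ Q, x * x = 1 ∨ x * x = z) ∧
      ∀ x ∈ Q.map (MulAut.conj g).toMonoidHom, x * x = 1 ∨ x * x = g * z * g⁻¹ := by
  obtain ⟨z', h', hZ⟩ := exists_ESData Q hQ.1 hQ.2.1 hQ.2.2.1
  have hzz' : z = z' := by
    have h1 : z ∈ (Subgroup.center ↥Q).map Q.subtype := hz ▸ Subgroup.mem_zpowers z
    rcases (hZ z).1 h1 with h2 | h2
    · rw [h2, orderOf_one] at hz2; omega
    · exact h2
  subst hzz'
  have hsq : ∀ x ∈ Q, x * x = 1 ∨ x * x = z := fun x hx => extraspecial_sq Q hQ.1 hZ hx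
  refine ⟨hsq, ?_⟩
  rintro _ ⟨x, hx, rfl⟩
  simp only [MulEquiv.coe_toMonoidHom, MulAut.conj_apply]
  have e : g * x * g⁻¹ * (g * x * g⁻¹) = g * (x * x) * g⁻¹ := by group
  rw [e]
  rcases hsq x hx with h | h
  · left; rw [h]; group
  · right; rw [h]

end Cfsg.Agent.Lib.Helper27
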