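import Cfsg.Agent.Lib.Helper27.LargeExtra6

set_option autoImplicit false

namespace Cfsg.Agent.Lib.Helper27

open Cfsg
open scoped commutatorElement

variable {G : Type*} [Group G]

/-- An element centralizing `z`, `b` and `C_Q(b)` lies in `{1, z, b, zb}`. -/
theorem ESData.mem_four_of_central {Q : Subgroup G} {z : G} (h : ESData Q z) {b : G} (hbQ : b ∈ Q)
    (hb1 : b ≠ 1) (hbz : b ≠ z) (hbb : b * b = 1) {r : G} (hrz : r * z = z * r)
    (hrb : r * b = b * r) (hc : ∀ p ∈ Q, p * b = b * p → r * p = p * r) :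
    r = 1 ∨ r = z ∨ r = b ∨ r = z * b := by
  obtain ⟨y, hy, hyb⟩ := h.exists_swap hbQ hb1 hbz
  have hzb : b * z = z * b := h.cen b hbQ
  have hyz : y * z = z * y := h.cen y hy
  have hbinv : b⁻¹ = b := inv_eq_of_mul_eq_one_left hbb
  have hzinv : z⁻¹ = z := h.z_inv
  have hyb' : y * b = z * b * y := by
    calc y * b = (y * b * y⁻¹) * y := by group
      _ = z * b * y := by rw [hyb]
  have hyzb : y * (z * b) * y⁻¹ = b := by
    calc y * (z * b) * y⁻¹ = (y * z) * b * y⁻¹ := by group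
      _ = z * (y * b * y⁻¹) := by rw [hyz]; group
      _ = b := by rw [hyb, ← mul_assoc, h.z_sq, one_mul]
  -- general principle: commuting with `y` and `C_Q(b)` forces `1` or `z`
  have hall : ∀ e' : G, (∀ p ∈ Q, p * b = b * p → e' * p = p * e') → e' * y = y * e' →
      e' = 1 ∨ e' = z := by
    intro e' h1 h2
    apply h.cq
    intro q hq
    rcases h.decomp hbQ hyb hq with h3 | h3
    · exact h1 q hq h3
    · have h4 := h1 _ (Q.mul_mem (Q.inv_mem hy) hq) h3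
      calc e' * q = (e' * y) * (y⁻¹ * q) := by group
        _ = y * (e' * (y⁻¹ * q)) := by rw [h2]; group
        _ = y * (y⁻¹ * q * e') := by rw [h4]
        _ = q * e' := by group
  have hd := h.comm_mem hbQ hy hrz hrb
  have hdQ := hd.1
  have hdb : (y * r * y⁻¹ * r⁻¹) * b = b * (y * r * y⁻¹ * r⁻¹) :=
    Subgroup.mem_centralizer_singleton_iff.1 hd.2
  have hrinv : ∀ p ∈ Q, p * b = b * p → r⁻¹ * p = p * r⁻¹ := by
    intro p hp hpb
    calc r⁻¹ * p = r⁻¹ * (p * r) * r⁻¹ := by group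
      _ = r⁻¹ * (r * p) * r⁻¹ := by rw [hc p hp hpb]
      _ = p * r⁻¹ := by group
  have hdP : ∀ p ∈ Q, p * b = b * p → (y * r * y⁻¹ * r⁻¹) * p = p * (y * r * y⁻¹ * r⁻¹) := by
    intro p hp hpb
    have hpz : p * z = z * p := h.cen p hp
    have h1 := h.comm_mem hbQ (Q.inv_mem hy) hpz hpb
    have h2 : y⁻¹ * p * y ∈ Q ⊓ Subgroup.centralizer {b} := by
      have e : y⁻¹ * p * y = (y⁻¹ * p * y⁻¹⁻¹ * p⁻¹) * p := by group
      rw [e]
      exact mul_mem h1 ⟨hp, Subgroup.mem_centralizer_singleton_iff.2 hpb⟩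
    have h3 := hc _ h2.1 (Subgroup.mem_centralizer_singleton_iff.1 h2.2)
    calc (y * r * y⁻¹ * r⁻¹) * p = y * r * y⁻¹ * (r⁻¹ * p) := by group
      _ = y * r * y⁻¹ * (p * r⁻¹) := by rw [hrinv p hp hpb]
      _ = y * (r * (y⁻¹ * p * y)) * y⁻¹ * r⁻¹ := by group
      _ = y * ((y⁻¹ * p * y) * r) * y⁻¹ * r⁻¹ := by rw [h3]
      _ = p * (y * r * y⁻¹ * r⁻¹) := by group
  have hcases := h.double_cent hbQ hb1 hbz hbb hdQ hdP
  -- `y d y⁻¹ = d⁻¹`
  have hyy : (y⁻¹ * y⁻¹) * b = b * (y⁻¹ * y⁻¹) := by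
    have h1 : y * y * b = b * (y * y) := by
      calc y * y * b = y * (y * b) := by group
        _ = (y * z) * b * y := by rw [hyb']; group
        _ = z * (y * b) * y := by rw [hyz]; group
        _ = (z * z) * b * y * y := by rw [hyb']; group
        _ = b * (y * y) := by rw [h.z_sq]; group
    calc (y⁻¹ * y⁻¹) * b = (y * y)⁻¹ * (b * (y * y)) * (y * y)⁻¹ := by group
      _ = (y * y)⁻¹ * (y * y * b) * (y * y)⁻¹ := by rw [h1]
      _ = b * (y⁻¹ * y⁻¹) := by group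
  have hr2 := hc _ (Q.mul_mem (Q.inv_mem hy) (Q.inv_mem hy)) hyy
  have hinvd : y * (y * r * y⁻¹ * r⁻¹) * y⁻¹ * (y * r * y⁻¹ * r⁻¹) = 1 := by
    calc y * (y * r * y⁻¹ * r⁻¹) * y⁻¹ * (y * r * y⁻¹ * r⁻¹)
        = y * y * (r * (y⁻¹ * y⁻¹)) * r⁻¹ := by group
      _ = y * y * (y⁻¹ * y⁻¹ * r) * r⁻¹ := by rw [hr2]
      _ = 1 := by group
  rcases hcases with h1 | h1 | h1 | h1
  · have h2 : r * y = y * r := by
      calc r * y = (y * r * y⁻¹ * r⁻¹)⁻¹ * (y * r) := by group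
        _ = y * r := by rw [h1]; simp
    rcases hall r hc h2 with h3 | h3
    · exact Or.inl h3
    · exact Or.inr (Or.inl h3)
  · have h2 : y * r = z * r * y := by
      calc y * r = (y * r * y⁻¹ * r⁻¹) * (r * y) := by group
        _ = z * r * y := by rw [h1]; group
    have h3 : (b * r) * y = y * (b * r) := by
      symm
      calc y * (b * r) = (y * b) * r := by group
        _ = z * b * (y * r) := by rw [hyb']; group
        _ = z * (b * z) * r * y := by rw [h2]; group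
        _ = (z * z) * b * r * y := by rw [hzb]; group
        _ = b * r * y := by rw [h.z_sq, one_mul]
    have h4 : ∀ p ∈ Q, p * b = b * p → (b * r) * p = p * (b * r) := by
      intro p hp hpb
      calc b * r * p = b * (r * p) := by group
        _ = (b * p) * r := by rw [hc p hp hpb]; group
        _ = p * (b * r) := by rw [← hpb]; group
    rcases hall (b * r) h4 h3 with h5 | h5
    · right; right; left
      calc r = b⁻¹ * (b * r) := by group
        _ = b := by rw [h5, hbinv, mul_one]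
    · right; right; right
      calc r = b⁻¹ * (b * r) := by group
        _ = z * b := by rw [h5, hbinv, hzb]
  · exfalso
    rw [h1, hyb, mul_assoc, hbb, mul_one] at hinvd
    exact h.z_ne hinvd
  · exfalso
    rw [h1, hyzb, ← mul_assoc, hzb, mul_assoc, hbb, mul_one] at hinvd
    exact h.z_ne hinvd


section main
variable {Q : Subgroup G} {z : G}

/-- Key lemma: some element of `Q^g` conjugates `z` to `z z^g`. -/
theorem ESData.exists_swap_conj' [Finite G] (h : ESData Q z) (g : G)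
    (hbQ : g * z * g⁻¹ ∈ Q) (hbz : g * z * g⁻¹ ≠ z) :
    ∃ n ∈ Q.map (MulAut.conj g).toMonoidHom, n * z * n⁻¹ = z * (g * z * g⁻¹) := by
  have hb := h.conj g
  set b : G := g * z * g⁻¹ with hbdef
  set Qb : Subgroup G := Q.map (MulAut.conj g).toMonoidHom with hQb
  have hzb : b * z = z * b := h.cen b hbQ
  have hbinv : b⁻¹ = b := hb.z_inv
  by_contra hstar
  push Not at hstar
  have hzQb : z ∉ Qb := by
    intro hz
    obtain ⟨y, hy, hy2⟩ := hb.exists_swap hz h.z_ne (Ne.symm hbz)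
    exact hstar y hy (by rw [hy2, hzb])
  have hstar' : ∀ u ∈ Qb, (u * z * u⁻¹ * z⁻¹ = 1 ∨ u * z * u⁻¹ * z⁻¹ = b) → u * z = z * u := by
    intro u hu h1
    rcases h1 with h1 | h1
    · calc u * z = (u * z * u⁻¹ * z⁻¹) * (z * u) := by group
        _ = z * u := by rw [h1, one_mul]
    · exfalso
      apply hstar u hu
      calc u * z * u⁻¹ = (u * z * u⁻¹ * z⁻¹) * z := by group
        _ = z * b := by rw [h1, hzb]
  have hBmul : ∀ s t : G, (s = 1 ∨ s = b) → (t = 1 ∨ t = b) → (s * t = 1 ∨ s * t = b) := by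
    rintro s t (rfl | rfl) (rfl | rfl)
    · left; simp
    · right; simp
    · right; simp
    · left; exact hb.z_sq
  have hBinv : ∀ s : G, (s = 1 ∨ s = b) → (s⁻¹ = 1 ∨ s⁻¹ = b) := by
    rintro s (rfl | rfl)
    · left; simp
    · right; exact hbinv
  -- D1
  have hD1 : ∀ e ∈ Q, e ∈ Qb → e = 1 ∨ e = b := by
    intro e he heb
    have h1 : e = 1 ∨ e = z ∨ e = b ∨ e = z * b := by
      apply h.double_cent hbQ hb.z_ne hbz hb.z_sq he
      intro p hp hpb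
      have hpN := hb.nrm p hpb
      have h2 : p * e * p⁻¹ * e⁻¹ ∈ Qb :=
        Qb.mul_mem (conj_mem_of_normalizer hpN heb) (Qb.inv_mem heb)
      rcases h.comm p hp e he with h3 | h3
      · calc e * p = (p * e * p⁻¹ * e⁻¹)⁻¹ * (p * e) := by group
          _ = p * e := by rw [h3]; simp
      · rw [h3] at h2; exact absurd h2 hzQb
    rcases h1 with h1 | h1 | h1 | h1
    · exact Or.inl h1
    · rw [h1] at heb; exact absurd heb hzQb
    · exact Or.inr h1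
    · exfalso
      apply hzQb
      have : z = e * b := by rw [h1, mul_assoc, hb.z_sq, mul_one]
      rw [this]
      exact Qb.mul_mem heb hb.z_mem
  -- D2
  have hD2 : ∀ u ∈ Qb, u * z = z * u → ∀ p ∈ Q, p * b = b * p →
      (p * u * p⁻¹ * u⁻¹ = 1 ∨ p * u * p⁻¹ * u⁻¹ = b) := by
    intro u hu huz p hp hpb
    apply hD1
    · have : p * u * p⁻¹ * u⁻¹ = p * (u * p⁻¹ * u⁻¹) := by group
      rw [this]
      exact Q.mul_mem hp (conj_mem_of_normalizer (h.nrm u huz) (Q.inv_mem hp))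
    · exact Qb.mul_mem (conj_mem_of_normalizer (hb.nrm p hpb) hu) (Qb.inv_mem hu)
  let P : Subgroup G := Q ⊓ Subgroup.centralizer {b}
  let C : Subgroup G := Qb ⊓ Subgroup.centralizer {z}
  have hPmem : ∀ p, p ∈ P ↔ p ∈ Q ∧ p * b = b * p := by
    intro p
    simp only [P, Subgroup.mem_inf, Subgroup.mem_centralizer_singleton_iff]
  have hCmem : ∀ p, p ∈ C ↔ p ∈ Qb ∧ p * z = z * p := by
    intro p
    simp only [C, Subgroup.mem_inf, Subgroup.mem_centralizer_singleton_iff]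
  have hPN : P ≤ Subgroup.normalizer (Qb : Set G) := fun p hp => hb.nrm p ((hPmem p).1 hp).2
  have hY : IsPGroup 2 (P ⊔ Qb : Subgroup G) :=
    IsPGroup.to_sup_of_normal_right' (h.two.to_le inf_le_left) hb.two hPN
  have hYN : (P ⊔ Qb : Subgroup G) ≤ Subgroup.normalizer (Qb : Set G) :=
    sup_le hPN Subgroup.le_normalizer
  have hnotB : ∃ x₁ ∈ Q, ∃ x₂ ∈ Q, x₁ * b = b * x₁ ∧ x₂ * b = b * x₂ ∧
      x₁ * x₂ * x₁⁻¹ * x₂⁻¹ = z := by
    by_contra hcon
    push Not at hcon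
    have hP4 : ∀ e ∈ Q, e * b = b * e → e = 1 ∨ e = z ∨ e = b ∨ e = z * b := by
      intro e he heb
      apply h.double_cent hbQ hb.z_ne hbz hb.z_sq he
      intro p hp hpb
      rcases h.comm e he p hp with h1 | h1
      · calc e * p = (e * p * e⁻¹ * p⁻¹) * (p * e) := by group
          _ = p * e := by rw [h1, one_mul]
      · exact absurd h1 (hcon e he p hp heb hpb)
    let B : Subgroup G := fourSubgroup 1 b (by simp) hb.z_sq (by simp)
    have hBmem : ∀ v, v ∈ B ↔ v = 1 ∨ v = b := by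
      intro v
      show (v = 1 ∨ v = 1 ∨ v = b ∨ v = 1 * b) ↔ _
      simp
    have hnB : ¬ Qb ≤ B := by
      intro hle
      rcases hb.cq z (fun x hx => by
        rcases (hBmem x).1 (hle hx) with rfl | rfl
        · simp
        · exact hzb.symm) with h1 | h1
      · exact h.z_ne h1
      · exact hbz h1.symm
    obtain ⟨u, huQ, huB, hu⟩ := exists_central_mod hY le_sup_right
      (fun y hy u hu => conj_mem_of_normalizer (hYN hy) hu) hnB
    have hzP : z ∈ P := (hPmem z).2 ⟨h.z_mem, hzb.symm⟩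
    have huz : u * z = z * u := hstar' u huQ ((hBmem _).1 (hu z (le_sup_left (a := P) hzP)))
    have hub : u * b = b * u := hb.cen u huQ
    have h4 := h.mem_four_of_central hbQ hb.z_ne hbz hb.z_sq huz hub (by
      intro p hp hpb
      rcases hP4 p hp hpb with rfl | rfl | rfl | rfl
      · simp
      · exact huz
      · exact hub
      · calc u * (z * b) = (u * z) * b := by group
          _ = z * (u * b) := by rw [huz]; group
          _ = z * b * u := by rw [hub]; group)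
    rcases h4 with h4 | h4 | h4 | h4
    · exact huB ((hBmem u).2 (Or.inl h4))
    · rw [h4] at huQ; exact hzQb huQ
    · exact huB ((hBmem u).2 (Or.inr h4))
    · apply hzQb
      have : z = u * b := by rw [h4, mul_assoc, hb.z_sq, mul_one]
      rw [this]
      exact Qb.mul_mem huQ hb.z_mem
  have hle : Qb ≤ C := by
    by_contra hnle
    obtain ⟨u, huQ, huC, hu⟩ := exists_central_mod hY le_sup_right
      (fun y hy u hu => conj_mem_of_normalizer (hYN hy) hu) hnle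
    obtain ⟨x₁, hx₁, x₂, hx₂, hx₁b, hx₂b, hx⟩ := hnotB
    have hc : ∀ x ∈ Q, x * b = b * x → x * u * x⁻¹ * u⁻¹ ∈ C := by
      intro x hx hxb
      have h1 := hu x (le_sup_left (a := P) ((hPmem x).2 ⟨hx, hxb⟩))
      have h2 : x * u * x⁻¹ * u⁻¹ = (u * x * u⁻¹ * x⁻¹)⁻¹ := by group
      rw [h2]; exact C.inv_mem h1
    have hc₁ := (hCmem _).1 (hc x₁ hx₁ hx₁b)
    have hc₂ := (hCmem _).1 (hc x₂ hx₂ hx₂b)
    have hβ₁ := hD2 _ hc₂.1 hc₂.2 x₁ hx₁ hx₁b
    have hβ₂ := hD2 _ hc₁.1 hc₁.2 x₂ hx₂ hx₂b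
    have hγ := hb.comm _ hc₂.1 _ hc₁.1
    have hkey := comm_identity x₁ x₂ u
    rw [hx] at hkey
    have hu'Q : (x₂ * x₁) * u * (x₂ * x₁)⁻¹ ∈ Qb := by
      apply conj_mem_of_normalizer _ huQ
      exact (Subgroup.normalizer (Qb : Set G)).mul_mem (hb.nrm x₂ hx₂b) (hb.nrm x₁ hx₁b)
    have h3 : z * ((x₂ * x₁) * u * (x₂ * x₁)⁻¹) * z⁻¹ * ((x₂ * x₁) * u * (x₂ * x₁)⁻¹)⁻¹ = 1 ∨
        z * ((x₂ * x₁) * u * (x₂ * x₁)⁻¹) * z⁻¹ * ((x₂ * x₁) * u * (x₂ * x₁)⁻¹)⁻¹ = b := by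
      rw [hkey]
      exact hBmul _ _ (hBmul _ _ hβ₁ hγ) (hBinv _ hβ₂)
    have h4 := hstar' _ hu'Q (by
      have := hBinv _ h3
      have e : (z * ((x₂ * x₁) * u * (x₂ * x₁)⁻¹) * z⁻¹ * ((x₂ * x₁) * u * (x₂ * x₁)⁻¹)⁻¹)⁻¹ =
        ((x₂ * x₁) * u * (x₂ * x₁)⁻¹) * z * ((x₂ * x₁) * u * (x₂ * x₁)⁻¹)⁻¹ * z⁻¹ := by group
      rwa [e] at this)
    apply huC
    rw [hCmem]
    refine ⟨huQ, ?_⟩
    have hxz : (x₂ * x₁) * z = z * (x₂ * x₁) := h.cen _ (Q.mul_mem hx₂ hx₁)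
    have hxz' : (x₂ * x₁)⁻¹ * z = z * (x₂ * x₁)⁻¹ := h.cen _ (Q.inv_mem (Q.mul_mem hx₂ hx₁))
    calc u * z = (x₂ * x₁)⁻¹ * ((x₂ * x₁) * u * (x₂ * x₁)⁻¹ * ((x₂ * x₁) * z)) := by group
      _ = (x₂ * x₁)⁻¹ * (((x₂ * x₁) * u * (x₂ * x₁)⁻¹ * z) * (x₂ * x₁)) := by rw [hxz]; group
      _ = (x₂ * x₁)⁻¹ * ((z * ((x₂ * x₁) * u * (x₂ * x₁)⁻¹)) * (x₂ * x₁)) := by rw [h4]
      _ = ((x₂ * x₁)⁻¹ * z) * ((x₂ * x₁) * u) := by group
      _ = (z * (x₂ * x₁)⁻¹) * ((x₂ * x₁) * u) := by rw [hxz']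
      _ = z * u := by group
  rcases hb.cq z (fun x hx => (((hCmem x).1 (hle hx)).2).symm) with h1 | h1
  · exact h.z_ne h1
  · exact hbz h1.symm

/-- In the situation of the key lemma there is an element swapping `z` and `z^g`, and
`z ∈ Q^g`. -/
theorem ESData.exists_transpose' [Finite G] (h : ESData Q z) (g : G)
    (hbQ : g * z * g⁻¹ ∈ Q) (hbz : g * z * g⁻¹ ≠ z) :
    ∃ y ∈ Q, ∃ n ∈ Q.map (MulAut.conj g).toMonoidHom,
      y * (g * z * g⁻¹) * y⁻¹ = z * (g * z * g⁻¹) ∧ n * z * n⁻¹ = z * (g * z * g⁻¹) ∧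
      (y * n * y⁻¹) * z * (y * n * y⁻¹)⁻¹ = g * z * g⁻¹ ∧
      (y * n * y⁻¹) * (g * z * g⁻¹) * (y * n * y⁻¹)⁻¹ = z ∧
      z ∈ Q.map (MulAut.conj g).toMonoidHom := by
  have hb := h.conj g
  obtain ⟨n, hn, hnz⟩ := h.exists_swap_conj' g hbQ hbz
  obtain ⟨y, hy, hyb⟩ := h.exists_swap hbQ hb.z_ne hbz
  set b : G := g * z * g⁻¹ with hbdef
  have hzb : b * z = z * b := h.cen b hbQ
  have hyz : y * z = z * y := h.cen y hy
  have hyz' : y⁻¹ * z = z * y⁻¹ := h.cen _ (Q.inv_mem hy)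
  have hnb : n * b = b * n := hb.cen n hn
  have hyzb : y * (z * b) * y⁻¹ = b := by
    calc y * (z * b) * y⁻¹ = (y * z) * b * y⁻¹ := by group
      _ = z * (y * b * y⁻¹) := by rw [hyz]; group
      _ = b := by rw [hyb, ← mul_assoc, h.z_sq, one_mul]
  have hyinvb : y⁻¹ * b * y = z * b := by
    calc y⁻¹ * b * y = y⁻¹ * (y * (z * b) * y⁻¹) * y := by rw [hyzb]
      _ = z * b := by group
  have hnzb : n * (z * b) * n⁻¹ = z := by
    calc n * (z * b) * n⁻¹ = (n * z * n⁻¹) * (n * b) * n⁻¹ := by group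
      _ = z * b * (b * n) * n⁻¹ := by rw [hnz, hnb]
      _ = z * (b * b) := by group
      _ = z := by rw [hb.z_sq, mul_one]
  have hs1 : (y * n * y⁻¹) * z * (y * n * y⁻¹)⁻¹ = b := by
    calc (y * n * y⁻¹) * z * (y * n * y⁻¹)⁻¹ = y * n * (y⁻¹ * z) * y * n⁻¹ * y⁻¹ := by group
      _ = y * (n * z * n⁻¹) * y⁻¹ := by rw [hyz']; group
      _ = b := by rw [hnz, hyzb]
  have hs2 : (y * n * y⁻¹) * b * (y * n * y⁻¹)⁻¹ = z := by
    calc (y * n * y⁻¹) * b * (y * n * y⁻¹)⁻¹ = y * (n * (y⁻¹ * b * y) * n⁻¹) * y⁻¹ := by group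
      _ = y * z * y⁻¹ := by rw [hyinvb, hnzb]
      _ = z := by rw [hyz]; group
  refine ⟨y, hy, n, hn, hyb, hnz, hs1, hs2, ?_⟩
  -- z = s b s⁻¹ ∈ s Q s⁻¹ = g Q g⁻¹
  rw [Cfsg.Agent.Lib.Helper17.mem_map_conj]
  have hc : (g⁻¹ * (y * n * y⁻¹)) * z = z * (g⁻¹ * (y * n * y⁻¹)) := by
    calc (g⁻¹ * (y * n * y⁻¹)) * z
        = g⁻¹ * ((y * n * y⁻¹) * z * (y * n * y⁻¹)⁻¹) * (y * n * y⁻¹) := by group
      _ = g⁻¹ * (g * z * g⁻¹) * (y * n * y⁻¹) := by rw [hs1]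
      _ = z * (g⁻¹ * (y * n * y⁻¹)) := by group
  have h1 := conj_mem_of_normalizer (h.nrm _ hc) hbQ
  have h2 : g⁻¹ * (y * n * y⁻¹) * b * (g⁻¹ * (y * n * y⁻¹))⁻¹ =
      g⁻¹ * ((y * n * y⁻¹) * b * (y * n * y⁻¹)⁻¹) * g := by group
  rw [h2, hs2] at h1
  exact h1


theorem ESData.symPair' [Finite G] (h : ESData Q z) (g : G) (hbQ : g * z * g⁻¹ ∈ Q)
    (hbz : g * z * g⁻¹ ≠ z) : SymPair Q (Q.map (MulAut.conj g).toMonoidHom) z (g * z * g⁻¹) := by
  obtain ⟨y, hy, n, hn, hyb, hnz, -, -, hzQb⟩ := h.exists_transpose' g hbQ hbz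
  refine ⟨h, h.conj g, hbQ, hzQb, hbz, ?_⟩
  intro s hs x hx
  rw [Cfsg.Agent.Lib.Helper17.mem_map_conj]
  have hc : (g⁻¹ * s) * z = z * (g⁻¹ * s) := by
    calc (g⁻¹ * s) * z = g⁻¹ * (s * z * s⁻¹) * s := by group
      _ = g⁻¹ * (g * z * g⁻¹) * s := by rw [hs]
      _ = z * (g⁻¹ * s) := by group
  have h1 := conj_mem_of_normalizer (h.nrm _ hc) hx
  have h2 : g⁻¹ * s * x * (g⁻¹ * s)⁻¹ = g⁻¹ * (s * x * s⁻¹) * g := by group
  rwa [h2] at h1

end main

end Cfsg.Agent.Lib.Helper27
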