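import Cfsg.Prelude.Def_LocalEven
import Cfsg.Agent.Lib.Helper26.GroupFusion
import Cfsg.Agent.Lib.Helper27.FusionSat
import Cfsg.Agent.Lib.Helper17.Core

set_option autoImplicit false

namespace Cfsg.Agent.Lib.Helper27.PSt

open Cfsg Cfsg.FusionSystem
open scoped commutatorElement

variable {G : Type*} [Group G]

theorem quot_iff_range {p : ℕ} {N A : Type*} [Group N] [Group A] (f : N →* A) (C : Subgroup N)
    [C.Normal] (hC : C = f.ker) (n : N) :
    (QuotientGroup.mk (s := C) n) ∈ pCore p (N ⧸ C) ↔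
      f n ∈ (pCore p f.range).map f.range.subtype := by
  subst hC
  have h := Helper17.pCore_map_equiv p (QuotientGroup.quotientKerEquivRange f)
  constructor
  · intro hn
    refine ⟨QuotientGroup.quotientKerEquivRange f (QuotientGroup.mk n), ?_, rfl⟩
    rw [← h]
    exact ⟨_, hn, rfl⟩
  · rintro ⟨y, hy, hyn⟩
    rw [← h] at hy
    obtain ⟨z, hz, rfl⟩ := hy
    have : z = QuotientGroup.mk n := by
      apply (QuotientGroup.quotientKerEquivRange f).injective
      apply Subtype.ext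
      exact hyn
    rw [← this]; exact hz

/-- conjugation as an isomorphism of normalizers -/
def normEquiv (R : Subgroup G) (x : G) : ↥(Subgroup.normalizer (R : Set G)) ≃*
    ↥(Subgroup.normalizer ((Helper26.cj x R : Subgroup G) : Set G)) where
  toFun n := ⟨x * n * x⁻¹, by rw [Helper26.normalizer_cj]; exact Helper26.conj_mem_cj n.2⟩
  invFun n := ⟨x⁻¹ * n * x, by
    have h1 : (n : G) ∈ Helper26.cj x (Subgroup.normalizer (R : Set G)) :=
      (Helper26.normalizer_cj x R) ▸ n.2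
    exact Helper26.mem_cj.1 h1⟩
  left_inv n := by ext; simp [mul_assoc]
  right_inv n := by ext; simp [mul_assoc]
  map_mul' a b := by
    apply Subtype.ext
    show x * ((a : G) * (b : G)) * x⁻¹ = (x * (a : G) * x⁻¹) * (x * (b : G) * x⁻¹)
    group

theorem quot_conj {p : ℕ} (R : Subgroup G) (x g : G) (hg : g ∈ Subgroup.normalizer (R : Set G))
    (hg' : x * g * x⁻¹ ∈ Subgroup.normalizer ((Helper26.cj x R : Subgroup G) : Set G))
    (h : (QuotientGroup.mk (s := (Subgroup.centralizer ((Helper26.cj x R : Subgroup G) : Set G)).subgroupOf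
          (Subgroup.normalizer ((Helper26.cj x R : Subgroup G) : Set G)))
          (⟨x * g * x⁻¹, hg'⟩ : ↥(Subgroup.normalizer ((Helper26.cj x R : Subgroup G) : Set G)))) ∈
        pCore p (↥(Subgroup.normalizer ((Helper26.cj x R : Subgroup G) : Set G)) ⧸
          (Subgroup.centralizer ((Helper26.cj x R : Subgroup G) : Set G)).subgroupOf
            (Subgroup.normalizer ((Helper26.cj x R : Subgroup G) : Set G)))) :
    (QuotientGroup.mk (s := (Subgroup.centralizer (R : Set G)).subgroupOf (Subgroup.normalizer (R : Set G)))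
          (⟨g, hg⟩ : ↥(Subgroup.normalizer (R : Set G)))) ∈
        pCore p (↥(Subgroup.normalizer (R : Set G)) ⧸
          (Subgroup.centralizer (R : Set G)).subgroupOf (Subgroup.normalizer (R : Set G))) := by
  have he : ((Subgroup.centralizer (R : Set G)).subgroupOf (Subgroup.normalizer (R : Set G))).map
      (normEquiv R x : _ →* _) =
      (Subgroup.centralizer ((Helper26.cj x R : Subgroup G) : Set G)).subgroupOf
            (Subgroup.normalizer ((Helper26.cj x R : Subgroup G) : Set G)) := by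
    ext n
    constructor
    · rintro ⟨c, hc, rfl⟩
      rw [Subgroup.mem_subgroupOf, Helper26.centralizer_cj]
      exact Helper26.conj_mem_cj (Subgroup.mem_subgroupOf.1 hc)
    · intro hn
      rw [Subgroup.mem_subgroupOf, Helper26.centralizer_cj, Helper26.mem_cj] at hn
      exact ⟨(normEquiv R x).symm n, Subgroup.mem_subgroupOf.2 hn, (normEquiv R x).apply_symm_apply n⟩
  have h1 := Helper17.pCore_map_equiv p (QuotientGroup.congr _ _ (normEquiv R x) he)
  rw [← h1] at h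
  obtain ⟨z, hz, hzn⟩ := h
  have : z = QuotientGroup.mk ⟨g, hg⟩ := by
    apply (QuotientGroup.congr _ _ (normEquiv R x) he).injective
    exact hzn
  rw [← this]; exact hz

theorem comm_of_quad (Q : Subgroup G) (g : G)
    (h : ∀ a ∈ Q, g * a⁻¹ * g⁻¹ * a * (g * a⁻¹ * g⁻¹) * (g * (g * a * g⁻¹) * g⁻¹) = 1) :
    ⁅⁅Q, Subgroup.zpowers g⁆, Subgroup.zpowers g⁆ = ⊥ := by
  have h1 : ∀ a ∈ Q, a * g * a⁻¹ * g⁻¹ ∈ Subgroup.centralizer ({g} : Set G) := by
    intro a ha
    rw [Subgroup.mem_centralizer_singleton_iff]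
    have h2 := h a⁻¹ (Q.inv_mem ha)
    rw [inv_inv] at h2
    have h3 : (a * g * a⁻¹ * g⁻¹)⁻¹ * (g * (a * g * a⁻¹ * g⁻¹) * g⁻¹) = 1 := by
      rw [← h2]; group
    have h4 : g * (a * g * a⁻¹ * g⁻¹) * g⁻¹ = a * g * a⁻¹ * g⁻¹ := by
      have := inv_mul_eq_one.1 h3
      exact this.symm
    calc a * g * a⁻¹ * g⁻¹ * g = (g * (a * g * a⁻¹ * g⁻¹) * g⁻¹) * g := by rw [h4]
      _ = g * (a * g * a⁻¹ * g⁻¹) := by group
  let T : Subgroup G :=
    { carrier := {k | k ∈ Subgroup.centralizer ({g} : Set G) ∧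
        ∀ a ∈ Q, a * k * a⁻¹ * k⁻¹ ∈ Subgroup.centralizer ({g} : Set G)}
      one_mem' := ⟨Subgroup.one_mem _, fun a _ => by simp⟩
      mul_mem' := by
        rintro k l ⟨hk, hk'⟩ ⟨hl, hl'⟩
        refine ⟨Subgroup.mul_mem _ hk hl, fun a ha => ?_⟩
        have e : a * (k * l) * a⁻¹ * (k * l)⁻¹ = (a * k * a⁻¹ * k⁻¹) * (k * (a * l * a⁻¹ * l⁻¹) * k⁻¹) := by
          group
        rw [e]
        exact Subgroup.mul_mem _ (hk' a ha)
          (Subgroup.mul_mem _ (Subgroup.mul_mem _ hk (hl' a ha)) (Subgroup.inv_mem _ hk))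
      inv_mem' := by
        rintro k ⟨hk, hk'⟩
        refine ⟨Subgroup.inv_mem _ hk, fun a ha => ?_⟩
        have e : a * k⁻¹ * a⁻¹ * k⁻¹⁻¹ = k⁻¹ * (a * k * a⁻¹ * k⁻¹)⁻¹ * k := by
          group
        rw [e]
        exact Subgroup.mul_mem _ (Subgroup.mul_mem _ (Subgroup.inv_mem _ hk)
          (Subgroup.inv_mem _ (hk' a ha))) hk }
  have hgT : g ∈ T := ⟨Subgroup.mem_centralizer_singleton_iff.2 rfl, h1⟩
  have hT : Subgroup.zpowers g ≤ T := (Subgroup.zpowers_le).2 hgT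
  have hcz : Subgroup.centralizer ({g} : Set G) ≤
      Subgroup.centralizer ((Subgroup.zpowers g : Subgroup G) : Set G) := by
    intro c hc
    rw [Subgroup.mem_centralizer_singleton_iff] at hc
    rw [Subgroup.mem_centralizer_iff]
    rintro _ ⟨i, rfl⟩
    have : Commute c g := hc
    exact (this.zpow_right i).symm.eq
  rw [Subgroup.commutator_eq_bot_iff_le_centralizer]
  rw [Subgroup.commutator_le]
  intro a ha k hk
  exact hcz ((hT hk).2 a ha)

theorem quad_of_comm (R : Subgroup G) (g : G)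
    (h : ⁅⁅R, Subgroup.zpowers g⁆, Subgroup.zpowers g⁆ = ⊥) :
    ∀ a ∈ R, g * a⁻¹ * g⁻¹ * a * (g * a⁻¹ * g⁻¹) * (g * (g * a * g⁻¹) * g⁻¹) = 1 := by
  intro a ha
  have hgz : g ∈ Subgroup.zpowers g := Subgroup.mem_zpowers g
  have h1 : ⁅a⁻¹, g⁆ ∈ ⁅R, Subgroup.zpowers g⁆ := Subgroup.commutator_mem_commutator (R.inv_mem ha) hgz
  have h2 : ⁅⁅a⁻¹, g⁆, g⁆ ∈ ⁅⁅R, Subgroup.zpowers g⁆, Subgroup.zpowers g⁆ :=
    Subgroup.commutator_mem_commutator h1 hgz
  rw [h, Subgroup.mem_bot] at h2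
  rw [commutatorElement_def, commutatorElement_def] at h2
  rw [← h2]
  have h3 : (a⁻¹ * g * a⁻¹⁻¹ * g⁻¹) * g = g * (a⁻¹ * g * a⁻¹⁻¹ * g⁻¹) := by
    have := mul_inv_eq_one.1 h2
    have h4 := mul_inv_eq_iff_eq_mul.1 this
    exact h4
  rw [h2]
  calc g * a⁻¹ * g⁻¹ * a * (g * a⁻¹ * g⁻¹) * (g * (g * a * g⁻¹) * g⁻¹)
      = (a⁻¹ * g * a⁻¹⁻¹ * g⁻¹)⁻¹ * (g * (a⁻¹ * g * a⁻¹⁻¹ * g⁻¹)) * g⁻¹ := by group
    _ = 1 := by rw [← h3]; group

theorem autInducedBy_top_eq_range (Q : Subgroup G) :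
    autInducedBy ⊤ Q = (Q.normalizerMonoidHom).range := by
  ext α
  rw [Helper26.mem_autInducedBy_iff]
  constructor
  · rintro ⟨g, -, hg⟩
    have hgN : g ∈ Subgroup.normalizer (Q : Set G) := by
      rw [Subgroup.mem_normalizer_iff]
      intro k
      constructor
      · intro hk
        have := (α ⟨k, hk⟩).2
        rw [hg] at this
        exact this
      · intro hk
        have h1 := hg (α.symm ⟨_, hk⟩)
        rw [MulEquiv.apply_symm_apply] at h1
        have h2 : k = ((α.symm ⟨_, hk⟩ : Q) : G) := by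
          have h3 : g * k * g⁻¹ = g * ((α.symm ⟨_, hk⟩ : Q) : G) * g⁻¹ := h1
          exact mul_left_cancel (mul_right_cancel h3)
        rw [h2]
        exact (α.symm ⟨_, hk⟩).2
    refine ⟨⟨g, hgN⟩, ?_⟩
    ext x
    exact (hg x).symm
  · rintro ⟨n, rfl⟩
    exact ⟨n, Subgroup.mem_top _, fun x => rfl⟩

end Cfsg.Agent.Lib.Helper27.PSt
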