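import Cfsg.Agent.Lib.Helper27.PStab
import Cfsg.Agent.Lib.Helper27.FusionNormalizer

set_option autoImplicit false

namespace Cfsg.Agent.Lib.Helper27.PSt

open Cfsg Cfsg.FusionSystem

variable {Ω : Type*} [Group Ω] {S : Subgroup Ω}

theorem mem_pCore_map_iff {p : ℕ} {X : Type*} [Group X] (A : Subgroup X) (χ : X) :
    χ ∈ (pCore p A).map A.subtype ↔
      ∃ B : Subgroup X, B ≤ A ∧ (∀ a ∈ A, ∀ b ∈ B, a * b * a⁻¹ ∈ B) ∧ IsPGroup p B ∧ χ ∈ B := by
  constructor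
  · intro h
    refine ⟨(pCore p A).map A.subtype, ?_, ?_, ?_, h⟩
    · rintro _ ⟨b, -, rfl⟩; exact b.2
    · rintro a ha _ ⟨b, hb, rfl⟩
      exact ⟨⟨a, ha⟩ * b * ⟨a, ha⟩⁻¹, (Cfsg.pCore_normal p A).conj_mem b hb ⟨a, ha⟩, rfl⟩
    · exact Helper17.pCore_isPGroup.map _
  · rintro ⟨B, hBA, hn, hp, hχ⟩
    refine ⟨⟨χ, hBA hχ⟩, ?_, rfl⟩
    have h1 : B.subgroupOf A ≤ pCore p A := by
      apply Helper17.le_pCore
      · constructor
        intro b hb a
        exact hn a a.2 b hb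
      · exact hp.comap_subtype
    exact h1 hχ

theorem stable_all [Finite S] {p : ℕ} (F : FusionSystem S)
    (h : ∀ Q : Subgroup Ω, F.IsFullyNormalized Q → ∀ χ : MulAut Q, χ ∈ F.autGroup Q →
      (∀ a : Q, (χ a⁻¹) * a * (χ a⁻¹) * (χ (χ a)) = 1) →
      χ ∈ (pCore p (F.autGroup Q)).map (F.autGroup Q).subtype)
    {Q : Subgroup Ω} (hQ : Q ≤ S) (χ : MulAut Q) (hχ : χ ∈ F.autGroup Q)
    (hq : ∀ a : Q, (χ a⁻¹) * a * (χ a⁻¹) * (χ (χ a)) = 1) :
    χ ∈ (pCore p (F.autGroup Q)).map (F.autGroup Q).subtype := by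
  obtain ⟨Q', hconj, hfn⟩ := exists_fullyNormalized_conj F hQ
  obtain ⟨e, he⟩ := exists_iso_of_isConj hconj
  have h0 : ∀ a : Q', (MulAut.congr e χ a⁻¹) * a * (MulAut.congr e χ a⁻¹) *
      (MulAut.congr e χ (MulAut.congr e χ a)) = 1 := by
    intro a
    obtain ⟨b, rfl⟩ := e.surjective a
    have := congrArg e (hq b)
    simpa [MulAut.congr] using this
  have h1 := h Q' hfn (MulAut.congr e χ) (he.congr_mem_autGroup hχ) h0
  rw [mem_pCore_map_iff] at h1 ⊢
  obtain ⟨B, hBA, hn, hp, hχB⟩ := h1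
  refine ⟨B.comap (MulAut.congr e).toMonoidHom, ?_, ?_, ?_, hχB⟩
  · intro b hb; exact (he.congr_mem_autGroup_iff b).2 (hBA hb)
  · intro a ha b hb
    show MulAut.congr e (a * b * a⁻¹) ∈ B
    rw [map_mul, map_mul, map_inv]
    exact hn _ (he.congr_mem_autGroup ha) _ hb
  · exact hp.comap_of_injective _ (MulAut.congr e).injective

theorem fix_of_quad {H : Type*} [Group H] (χ : MulAut H)
    (hq : ∀ a : H, (χ a⁻¹) * a * (χ a⁻¹) * (χ (χ a)) = 1) (a : H) :
    χ (a⁻¹ * χ a) = a⁻¹ * χ a := by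
  have h1 : (χ a⁻¹ * a) * (χ a⁻¹ * χ (χ a)) = 1 := by
    rw [← hq a]; group
  have h2 := eq_inv_of_mul_eq_one_right h1
  rw [map_mul, h2, mul_inv_rev, map_inv, inv_inv]

theorem pow_of_quad {H : Type*} [Group H] (χ : MulAut H)
    (hq : ∀ a : H, (χ a⁻¹) * a * (χ a⁻¹) * (χ (χ a)) = 1) (a : H) (n : ℕ) :
    (χ ^ n) a = a * (a⁻¹ * χ a) ^ n := by
  induction n with
  | zero => simp
  | succ n ih =>
    rw [pow_succ', MulAut.mul_apply, ih, map_mul, map_pow, fix_of_quad χ hq a, pow_succ',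
      ← mul_assoc, mul_inv_cancel_left]

theorem pow_card_of_quad {H : Type*} [Group H] [Finite H] (χ : MulAut H)
    (hq : ∀ a : H, (χ a⁻¹) * a * (χ a⁻¹) * (χ (χ a)) = 1) : χ ^ (Nat.card H) = 1 := by
  ext a
  rw [pow_of_quad χ hq, pow_card_eq_one', mul_one, MulAut.one_apply]

theorem cyclic_case {p : ℕ} [Fact p.Prime] {H : Type*} [Group H] [Finite H] (hH : IsPGroup p H)
    (hc : IsCyclic H) (A : Subgroup (MulAut H)) (χ : MulAut H) (hχ : χ ∈ A)
    (hq : ∀ a : H, (χ a⁻¹) * a * (χ a⁻¹) * (χ (χ a)) = 1) :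
    χ ∈ (pCore p A).map A.subtype := by
  rw [mem_pCore_map_iff]
  have hcomm : ∀ a b : MulAut H, a * b = b * a := by
    intro a b
    apply (IsCyclic.mulAutMulEquiv H).injective
    rw [map_mul, map_mul, mul_comm]
  refine ⟨Subgroup.zpowers χ, (Subgroup.zpowers_le).2 hχ, ?_, ?_, Subgroup.mem_zpowers χ⟩
  · intro a _ b hb
    rw [hcomm a b, mul_inv_cancel_right]
    exact hb
  · obtain ⟨n, hn⟩ := (IsPGroup.iff_card).1 hH
    rintro ⟨_, i, rfl⟩
    refine ⟨n, ?_⟩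
    apply Subtype.ext
    show (χ ^ i) ^ (p ^ n) = 1
    rw [← hn, ← zpow_natCast, ← zpow_mul, mul_comm, zpow_mul, zpow_natCast, pow_card_of_quad χ hq,
      one_zpow]

theorem autGroup_le_of_normalizerSystem (F : FusionSystem S) {R : Subgroup Ω}
    {N : FusionSystem (normalizerIn S R)} (hN : F.IsNormalizerSystem R N) {Q : Subgroup Ω}
    (hQ : Q ≤ normalizerIn S R) : N.autGroup Q ≤ F.autGroup Q := by
  intro α hα
  rw [mem_autGroup_iff N hQ] at hα
  rw [hN Q] at hα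
  exact (mem_autGroup_iff F (hQ.trans inf_le_left) α).2 hα.1

theorem autGroup_self_normalizerSystem (F : FusionSystem S) {Q : Subgroup Ω} (hQ : Q ≤ S)
    {N : FusionSystem (normalizerIn S Q)} (hN : F.IsNormalizerSystem Q N) :
    N.autGroup Q = F.autGroup Q := by
  have hQN : Q ≤ normalizerIn S Q := le_normalizerIn hQ
  refine le_antisymm (autGroup_le_of_normalizerSystem F hN hQN) ?_
  intro α hα
  rw [mem_autGroup_iff N hQN, hN Q]
  have hα' := (mem_autGroup_iff F hQ α).1 hα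
  refine ⟨hα', hQN, fun x => hQN (α x).2, ?_⟩
  have hle : Q ⊔ Q ≤ Q := sup_le le_rfl le_rfl
  refine ⟨(Q.subtype.comp α.toMonoidHom).comp (Subgroup.inclusion hle), ?_, fun x => ?_, ?_⟩
  · exact hom_congr F (sup_idem Q).symm hα' (fun x h1 h2 => rfl)
  · rfl
  · rw [map_subgroupOf_eq_iff le_sup_right]
    refine ⟨fun x => (α _).2, fun y hy => ?_⟩
    refine ⟨α.symm ⟨y, hy⟩, ?_⟩
    show ((α (Subgroup.inclusion hle (Subgroup.inclusion le_sup_right (α.symm ⟨y, hy⟩))) : Q) : Ω) = y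
    have : Subgroup.inclusion hle (Subgroup.inclusion le_sup_right (α.symm ⟨y, hy⟩)) =
        α.symm ⟨y, hy⟩ := rfl
    rw [this, MulEquiv.apply_symm_apply]

theorem fullyNormalized_self [Finite S] {Q : Subgroup Ω} (hQ : Q ≤ S)
    (N : FusionSystem (normalizerIn S Q)) : N.IsFullyNormalized Q := by
  refine ⟨le_normalizerIn hQ, fun Q' _ => ?_⟩
  have h1 : normalizerIn (normalizerIn S Q) Q = normalizerIn S Q :=
    inf_eq_left.2 inf_le_right
  rw [h1]
  have : Finite (normalizerIn S Q) :=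
    Finite.of_injective (Subgroup.inclusion (inf_le_left : normalizerIn S Q ≤ S))
      (Subgroup.inclusion_injective _)
  exact Nat.card_le_card_of_injective
    (Subgroup.inclusion (inf_le_left : normalizerIn (normalizerIn S Q) Q' ≤ normalizerIn S Q))
    (Subgroup.inclusion_injective _)

end Cfsg.Agent.Lib.Helper27.PSt
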