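import Cfsg.Agent.Lib.Helper27.LargeExtra7

set_option autoImplicit false

namespace Cfsg.Agent.Lib.Helper27

open Cfsg
open scoped commutatorElement

variable {G : Type*} [Group G]

/-- `O_2(C_G(x))` as a subgroup of `G`. -/
abbrev pcc (x : G) : Subgroup G :=
  (Cfsg.pCore 2 ↥(Subgroup.centralizer ({x} : Set G))).map
    (Subgroup.centralizer ({x} : Set G)).subtype

theorem pcc_le (x : G) : pcc x ≤ Subgroup.centralizer {x} := Subgroup.map_subtype_le _

theorem pcc_two (x : G) : IsPGroup 2 (pcc x) := (Cfsg.Agent.Lib.Helper17.pCore_isPGroup).map _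

theorem pcc_normalizer (x : G) :
    Subgroup.centralizer {x} ≤ Subgroup.normalizer ((pcc x : Subgroup G) : Set G) := by
  apply Cfsg.Agent.Lib.Helper17.le_normalizer_of_conj_mem
  rintro c hc _ ⟨w, hw, rfl⟩
  exact ⟨⟨c, hc⟩ * w * ⟨c, hc⟩⁻¹, (Cfsg.pCore_normal 2 _).conj_mem _ hw _, by simp⟩

theorem le_pcc {N : Subgroup G} {x : G} (hN : N ≤ Subgroup.centralizer {x})
    (hn : Subgroup.centralizer {x} ≤ Subgroup.normalizer (N : Set G)) (h2 : IsPGroup 2 N) :
    N ≤ pcc x := by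
  have hnorm : (N.subgroupOf (Subgroup.centralizer {x})).Normal :=
    (Subgroup.normal_subgroupOf_iff_le_normalizer hN).2 hn
  have hle := Cfsg.Agent.Lib.Helper17.le_pCore hnorm h2.comap_subtype
  intro v hv
  exact ⟨⟨v, hN hv⟩, hle (Subgroup.mem_subgroupOf.2 hv), rfl⟩

theorem map_pcc_le (g x : G) :
    (pcc x).map (MulAut.conj g).toMonoidHom ≤ pcc (g * x * g⁻¹) := by
  apply le_pcc
  · rintro _ ⟨q, hq, rfl⟩
    have h1 := Subgroup.mem_centralizer_singleton_iff.1 (pcc_le x hq)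
    rw [Subgroup.mem_centralizer_singleton_iff]
    simp only [MulEquiv.coe_toMonoidHom, MulAut.conj_apply]
    calc g * q * g⁻¹ * (g * x * g⁻¹) = g * (q * x) * g⁻¹ := by group
      _ = g * (x * q) * g⁻¹ := by rw [h1]
      _ = _ := by group
  · intro c hc
    rw [Subgroup.mem_centralizer_singleton_iff] at hc
    have h1 : g⁻¹ * c * g ∈ Subgroup.centralizer ({x} : Set G) := by
      rw [Subgroup.mem_centralizer_singleton_iff]
      calc g⁻¹ * c * g * x = g⁻¹ * (c * (g * x * g⁻¹)) * g := by group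
        _ = g⁻¹ * (g * x * g⁻¹ * c) * g := by rw [hc]
        _ = _ := by group
    have h2 := pcc_normalizer x h1
    rw [Subgroup.mem_normalizer_iff] at h2 ⊢
    intro y
    rw [Cfsg.Agent.Lib.Helper17.mem_map_conj, Cfsg.Agent.Lib.Helper17.mem_map_conj, h2]
    have : g⁻¹ * c * g * (g⁻¹ * y * g) * (g⁻¹ * c * g)⁻¹ = g⁻¹ * (c * y * c⁻¹) * g := by group
    rw [this]
  · exact (pcc_two x).map _

theorem pcc_conj (g x : G) :
    pcc (g * x * g⁻¹) = (pcc x).map (MulAut.conj g).toMonoidHom := by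
  apply le_antisymm _ (map_pcc_le g x)
  intro v hv
  have h1 : (MulAut.conj g⁻¹).toMonoidHom v ∈ pcc (g⁻¹ * (g * x * g⁻¹) * g⁻¹⁻¹) :=
    map_pcc_le g⁻¹ (g * x * g⁻¹) ⟨v, hv, rfl⟩
  have e : g⁻¹ * (g * x * g⁻¹) * g⁻¹⁻¹ = x := by group
  rw [e] at h1
  rw [Cfsg.Agent.Lib.Helper17.mem_map_conj]
  simpa [MulAut.conj_apply] using h1

theorem conj_mem_pcc {s x q : G} (hq : q ∈ pcc x) : s * q * s⁻¹ ∈ pcc (s * x * s⁻¹) :=
  map_pcc_le s x ⟨q, hq, by simp [MulAut.conj_apply]⟩

theorem self_mem_pcc {z : G} (hz : orderOf z = 2) : z ∈ pcc z := by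
  have hle : Subgroup.zpowers z ≤ pcc z := by
    apply le_pcc
    · rw [Subgroup.zpowers_le]
      exact Subgroup.mem_centralizer_singleton_iff.2 rfl
    · apply Cfsg.Agent.Lib.Helper17.le_normalizer_of_conj_mem
      intro c hc y hy
      rw [Subgroup.mem_centralizer_singleton_iff] at hc
      obtain ⟨k, rfl⟩ := Subgroup.mem_zpowers_iff.1 hy
      have h1 : Commute c (z ^ k) := (show Commute c z from hc).zpow_right k
      have h2 : c * z ^ k * c⁻¹ = z ^ k := by rw [h1.eq]; group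
      rw [h2]; exact hy
    · apply IsPGroup.of_card (n := 1)
      rw [Nat.card_zpowers, hz, pow_one]
  exact hle (Subgroup.mem_zpowers z)

/-- The data `ESData` for `Q(z) = O_2(C(z))`. -/
theorem esdata_pcc [Finite G] {z : G} (hz : orderOf z = 2) (hE : Cfsg.IsExtraspecial 2 ↥(pcc z))
    (hC : Subgroup.centralizer ((pcc z : Subgroup G) : Set G) ≤ pcc z) : ESData (pcc z) z := by
  have hzm := self_mem_pcc hz
  have hzc : (⟨z, hzm⟩ : pcc z) ∈ Subgroup.center (pcc z) := by
    rw [Subgroup.mem_center_iff]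
    intro q
    apply Subtype.ext
    exact Subgroup.mem_centralizer_singleton_iff.1 (pcc_le z q.2)
  have hL2 : Subgroup.centralizer ((pcc z : Subgroup G) : Set G) =
      (Subgroup.center ↥(pcc z)).map (pcc z).subtype := by
    ext c
    constructor
    · intro hc
      refine ⟨⟨c, hC hc⟩, Subgroup.mem_center_iff.2 ?_, rfl⟩
      intro q
      apply Subtype.ext
      exact Subgroup.mem_centralizer_iff.1 hc q q.2
    · rintro ⟨y, hy, rfl⟩
      rw [Subgroup.mem_centralizer_iff]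
      intro q hq
      exact congrArg Subtype.val (Subgroup.mem_center_iff.1 hy ⟨q, hq⟩)
  have hL3 : Subgroup.centralizer (((Subgroup.center ↥(pcc z)).map (pcc z).subtype : Subgroup G)
      : Set G) ≤ Subgroup.normalizer ((pcc z : Subgroup G) : Set G) := by
    intro c hc
    apply pcc_normalizer z
    rw [Subgroup.mem_centralizer_singleton_iff]
    exact (Subgroup.mem_centralizer_iff.1 hc z ⟨_, hzc, rfl⟩).symm
  obtain ⟨z', h', hZ⟩ := exists_ESData (pcc z) hE hL2 hL3
  have hzz' : z = z' := by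
    rcases (hZ z).1 ⟨_, hzc, rfl⟩ with h2 | h2
    · rw [h2, orderOf_one] at hz; omega
    · exact h2
  rw [hzz'] at h' ⊢
  exact hzz' ▸ h'

theorem singular_symm [Finite G] {z : G} (hz : orderOf z = 2)
    (hE : Cfsg.IsExtraspecial 2 ↥(pcc z))
    (hC : Subgroup.centralizer ((pcc z : Subgroup G) : Set G) ≤ pcc z) (g : G)
    (hx : g * z * g⁻¹ ∈ pcc z) : z ∈ pcc (g * z * g⁻¹) := by
  have h := esdata_pcc hz hE hC
  by_cases hbz : g * z * g⁻¹ = z
  · rw [hbz]; exact h.z_mem
  · have S := h.symPair' g hx hbz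
    rw [pcc_conj]
    exact S.zQb

end Cfsg.Agent.Lib.Helper27
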