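import Cfsg.Agent.Lib.Helper27.Singular

set_option autoImplicit false

namespace Cfsg.Agent.Lib.Helper27

open Cfsg
open scoped commutatorElement

variable {G : Type*} [Group G]

/-- General double centralizer theorem in an extraspecial 2-group: `C_Q(C_Q(s)) ≤ ⟨z, s⟩`. -/
theorem ESData.double_cent_finset {Q : Subgroup G} {z : G} (h : ESData Q z) (s : Finset G) :
    (∀ a ∈ s, a ∈ Q) → ∀ x ∈ Q, (∀ c ∈ Q, (∀ a ∈ s, c * a = a * c) → x * c = c * x) →
      x ∈ Subgroup.closure (insert z (s : Set G)) := by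
  classical
  induction s using Finset.induction_on with
  | empty =>
    intro _ x _ hc
    rcases h.cq x (fun c hcQ => hc c hcQ (by simp)) with rfl | rfl
    · exact one_mem _
    · exact Subgroup.subset_closure (by simp)
  | insert a s ha ih =>
    intro hs x hx hc
    have haQ : a ∈ Q := hs a (Finset.mem_insert_self a s)
    have hsQ : ∀ a' ∈ s, a' ∈ Q := fun a' h' => hs a' (Finset.mem_insert_of_mem h')
    have hmono : Subgroup.closure (insert z (s : Set G)) ≤
        Subgroup.closure (insert z ((insert a s : Finset G) : Set G)) := by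
      apply Subgroup.closure_mono
      apply Set.insert_subset_insert
      rw [Finset.coe_insert]
      exact Set.subset_insert _ _
    have hc' : ∀ c ∈ Q, (∀ a' ∈ s, c * a' = a' * c) → c * a = a * c → x * c = c * x := by
      intro c hcQ hcs hca
      apply hc c hcQ
      intro a' ha'
      rcases Finset.mem_insert.1 ha' with rfl | h'
      · exact hca
      · exact hcs a' h'
    by_cases hall : ∀ c ∈ Q, (∀ a' ∈ s, c * a' = a' * c) → c * a = a * c
    · apply hmono
      apply ih hsQ x hx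
      intro c hcQ hcs
      exact hc' c hcQ hcs (hall c hcQ hcs)
    · push Not at hall
      obtain ⟨y₀, hy₀Q, hy₀s, hy₀a⟩ := hall
      have hy₀ : y₀ * a * y₀⁻¹ = z * a := by
        rcases h.comm y₀ hy₀Q a haQ with h1 | h1
        · exfalso; apply hy₀a
          calc y₀ * a = (y₀ * a * y₀⁻¹ * a⁻¹) * (a * y₀) := by group
            _ = a * y₀ := by rw [h1, one_mul]
        · calc y₀ * a * y₀⁻¹ = (y₀ * a * y₀⁻¹ * a⁻¹) * a := by group
            _ = z * a := by rw [h1]
      have hdec : ∀ e' : G, (∀ c ∈ Q, (∀ a' ∈ s, c * a' = a' * c) → c * a = a * c →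
          e' * c = c * e') → e' * y₀ = y₀ * e' →
          ∀ c ∈ Q, (∀ a' ∈ s, c * a' = a' * c) → e' * c = c * e' := by
        intro e' h1 h2 c hcQ hcs
        rcases h.decomp haQ hy₀ hcQ with h3 | h3
        · exact h1 c hcQ hcs h3
        · have h4 := h1 _ (Q.mul_mem (Q.inv_mem hy₀Q) hcQ) (by
            intro a' ha'
            have c1 : Commute y₀ a' := hy₀s a' ha'
            have c2 : Commute c a' := hcs a' ha'
            exact (c1.inv_left.mul_left c2).eq) h3
          calc e' * c = (e' * y₀) * (y₀⁻¹ * c) := by group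
            _ = y₀ * (e' * (y₀⁻¹ * c)) := by rw [h2]; group
            _ = y₀ * (y₀⁻¹ * c * e') := by rw [h4]
            _ = c * e' := by group
      rcases h.comm x hx y₀ hy₀Q with h1 | h1
      · have h2 : x * y₀ = y₀ * x := by
          calc x * y₀ = (x * y₀ * x⁻¹ * y₀⁻¹) * (y₀ * x) := by group
            _ = y₀ * x := by rw [h1, one_mul]
        apply hmono
        exact ih hsQ x hx (hdec x hc' h2)
      · have hx0 : x * y₀ = z * (y₀ * x) := by
          calc x * y₀ = (x * y₀ * x⁻¹ * y₀⁻¹) * (y₀ * x) := by group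
            _ = z * (y₀ * x) := by rw [h1]
        have ha0 : y₀ * a = z * (a * y₀) := by
          calc y₀ * a = (y₀ * a * y₀⁻¹) * y₀ := by group
            _ = z * (a * y₀) := by rw [hy₀]; group
        have hainvz : a⁻¹ * z = z * a⁻¹ := h.cen _ (Q.inv_mem haQ)
        have ha1 : a⁻¹ * y₀ = z * (y₀ * a⁻¹) := by
          calc a⁻¹ * y₀ = a⁻¹ * (y₀ * a) * a⁻¹ := by group
            _ = (a⁻¹ * z) * a * y₀ * a⁻¹ := by rw [ha0]; group
            _ = z * (y₀ * a⁻¹) := by rw [hainvz]; group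
        have h5 : (x * a⁻¹) * y₀ = y₀ * (x * a⁻¹) := by
          calc x * a⁻¹ * y₀ = x * (a⁻¹ * y₀) := by group
            _ = (x * z) * y₀ * a⁻¹ := by rw [ha1]; group
            _ = z * (x * y₀) * a⁻¹ := by rw [h.cen x hx]; group
            _ = (z * z) * (y₀ * (x * a⁻¹)) := by rw [hx0]; group
            _ = y₀ * (x * a⁻¹) := by rw [h.z_sq, one_mul]
        have h6 : ∀ c ∈ Q, (∀ a' ∈ s, c * a' = a' * c) → c * a = a * c →
            (x * a⁻¹) * c = c * (x * a⁻¹) := by
          intro c hcQ hcs hca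
          have c1 : Commute x c := hc' c hcQ hcs hca
          have c2 : Commute a c := (show Commute c a from hca).symm
          exact (c1.mul_left c2.inv_left).eq
        have h7 := ih hsQ (x * a⁻¹) (Q.mul_mem hx (Q.inv_mem haQ)) (hdec _ h6 h5)
        have h8 : x = (x * a⁻¹) * a := by group
        rw [h8]
        exact mul_mem (hmono h7) (Subgroup.subset_closure (by simp))

/-- A singular subgroup. -/
structure SingData (U : Subgroup G) : Prop where
  sq : ∀ u ∈ U, u * u = 1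
  es : ∀ u ∈ U, u ≠ 1 → ESData (pcc u) u
  orth : ∀ u ∈ U, ∀ v ∈ U, u ≠ 1 → v ∈ pcc u

theorem singData_of [Finite G] {z : G} (hz : orderOf z = 2) (hE : Cfsg.IsExtraspecial 2 ↥(pcc z))
    (hC : Subgroup.centralizer ((pcc z : Subgroup G) : Set G) ≤ pcc z)
    (U : Subgroup G) (hU2 : ∀ u ∈ U, u * u = 1)
    (hS : ∀ u ∈ U, u ≠ 1 → ∃ g : G, g * z * g⁻¹ = u)
    (hO : ∀ u ∈ U, ∀ v ∈ U, u ≠ 1 → v ≠ 1 → v ∈ pcc u) : SingData U := by
  refine ⟨hU2, ?_, ?_⟩
  · intro u hu hu1
    obtain ⟨g, rfl⟩ := hS u hu hu1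
    rw [pcc_conj]
    exact (esdata_pcc hz hE hC).conj g
  · intro u hu v hv hu1
    by_cases hv1 : v = 1
    · rw [hv1]; exact one_mem _
    · exact hO u hu v hv hu1 hv1

namespace SingData

variable {U : Subgroup G}

theorem comm (D : SingData U) {u v : G} (hu : u ∈ U) (hv : v ∈ U) : u * v = v * u := by
  by_cases hv1 : v = 1
  · simp [hv1]
  · exact (D.es v hv hv1).cen u (D.orth v hv u hu hv1)

theorem inv_eq (D : SingData U) {u : G} (hu : u ∈ U) : u⁻¹ = u :=
  inv_eq_of_mul_eq_one_left (D.sq u hu)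

theorem pcc_le_normalizer (D : SingData U) {u : G} (hu : u ∈ U) (hu1 : u ≠ 1) :
    pcc u ≤ Subgroup.normalizer (U : Set G) := by
  apply Cfsg.Agent.Lib.Helper17.le_normalizer_of_conj_mem
  intro q hq v hv
  have e : q * v * q⁻¹ = (q * v * q⁻¹ * v⁻¹) * v := by group
  rw [e]
  rcases (D.es u hu hu1).comm q hq v (D.orth u hu v hv hu1) with h | h
  · rw [h, one_mul]; exact hv
  · rw [h]; exact U.mul_mem hu hv

theorem LU_le_normalizer (D : SingData U) :
    (⨆ u ∈ ((U : Set G) \ {1}), pcc u) ≤ Subgroup.normalizer (U : Set G) :=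
  iSup₂_le fun _ hu => D.pcc_le_normalizer hu.1 hu.2

theorem symPair (D : SingData U) {u v : G} (hu : u ∈ U) (hv : v ∈ U) (hu1 : u ≠ 1) (hv1 : v ≠ 1)
    (huv : v ≠ u) : SymPair (pcc u) (pcc v) u v :=
  ⟨D.es u hu hu1, D.es v hv hv1, D.orth u hu v hv hu1, D.orth v hv u hu hv1, huv,
    fun s hs x hx => hs ▸ conj_mem_pcc hx⟩

/-- `Q(u) ∩ Q(v) ≤ Q(uv)`. -/
theorem inf_le_mul (D : SingData U) {u v : G} (hu : u ∈ U) (hv : v ∈ U) (hu1 : u ≠ 1)
    (hv1 : v ≠ 1) (huv : v ≠ u) : pcc u ⊓ pcc v ≤ pcc (u * v) := by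
  have S := D.symPair hu hv hu1 hv1 huv
  obtain ⟨n, hn, hnz⟩ := S.hb.exists_swap S.zQb S.h.z_ne (Ne.symm S.ne)
  intro e he
  have h1 : n⁻¹ * e * n⁻¹⁻¹ * e⁻¹ ∈ Subgroup.closure ({u, v} : Set G) :=
    S.comm_X_E (Subgroup.mem_sup_right (Subgroup.inv_mem _ hn)) he
  have hVE : Subgroup.closure ({u, v} : Set G) ≤ pcc u ⊓ pcc v := by
    rw [Subgroup.closure_le]
    rintro w (rfl | rfl)
    · exact S.z_mem_E
    · exact S.b_mem_E
  have h2 : n⁻¹ * e * n ∈ pcc u ⊓ pcc v := by
    have e1 : n⁻¹ * e * n = (n⁻¹ * e * n⁻¹⁻¹ * e⁻¹) * e := by group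
    rw [e1]
    exact mul_mem (hVE h1) he
  have h3 := conj_mem_pcc (s := n) h2.1
  have e2 : n * (n⁻¹ * e * n) * n⁻¹ = e := by group
  rw [e2, hnz, D.comm hv hu] at h3
  exact h3

end SingData

end Cfsg.Agent.Lib.Helper27
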