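import Cfsg.Agent.Lib.Helper27.Singular2

set_option autoImplicit false

namespace Cfsg.Agent.Lib.Helper27

open Cfsg
open scoped commutatorElement

variable {G : Type*} [Group G]

namespace SingData

variable {U : Subgroup G}

theorem iInf_eq (D : SingData U) (T : Set G) (hT : Subgroup.closure T = U) (hT1 : (1 : G) ∉ T) :
    (⨅ u ∈ ((U : Set G) \ {1}), pcc u) = ⨅ t ∈ T, pcc t := by
  apply le_antisymm
  · apply le_iInf₂
    intro t ht
    exact iInf₂_le t ⟨hT ▸ Subgroup.subset_closure ht, fun h => hT1 (h ▸ ht)⟩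
  · intro x hx
    have hx' : ∀ t ∈ T, x ∈ pcc t := by
      intro t ht
      exact (Subgroup.mem_iInf.1 (Subgroup.mem_iInf.1 hx t) ht)
    have key : ∀ u ∈ Subgroup.closure T, u = 1 ∨ x ∈ pcc u := by
      intro u hu
      induction hu using Subgroup.closure_induction with
      | mem t ht => right; exact hx' t ht
      | one => left; rfl
      | mul a b ha hb iha ihb =>
        by_cases ha1 : a = 1
        · rw [ha1, one_mul]; exact ihb
        by_cases hb1 : b = 1
        · rw [hb1, mul_one]; exact iha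
        by_cases hab : a * b = 1
        · left; exact hab
        right
        have haU : a ∈ U := hT ▸ ha
        have hbU : b ∈ U := hT ▸ hb
        refine D.inf_le_mul haU hbU ha1 hb1 ?_ ⟨iha.resolve_left ha1, ihb.resolve_left hb1⟩
        intro h
        apply hab
        rw [h]; exact D.sq a haU
      | inv a ha iha => rw [D.inv_eq (hT ▸ ha)]; exact iha
    rw [Subgroup.mem_iInf]
    intro u
    rw [Subgroup.mem_iInf]
    intro hu
    rcases key u (hT.symm ▸ hu.1) with h | h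
    · exact absurd h hu.2
    · exact h

theorem mem_QU (x : G) : x ∈ (⨅ u ∈ ((U : Set G) \ {1}), pcc u) ↔
    ∀ u ∈ U, u ≠ 1 → x ∈ pcc u := by
  constructor
  · intro hx u hu hu1
    exact Subgroup.mem_iInf.1 (Subgroup.mem_iInf.1 hx u) ⟨hu, hu1⟩
  · intro h
    rw [Subgroup.mem_iInf]
    intro u
    rw [Subgroup.mem_iInf]
    intro hu
    exact h u hu.1 hu.2

theorem pcc_le_LU {u : G} (hu : u ∈ U) (hu1 : u ≠ 1) :
    pcc u ≤ ⨆ u ∈ ((U : Set G) \ {1}), pcc u :=
  le_iSup₂_of_le u ⟨hu, hu1⟩ le_rfl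

theorem comm_LU_QU (D : SingData U) {g x : G} (hg : g ∈ ⨆ u ∈ ((U : Set G) \ {1}), pcc u)
    (hx : x ∈ ⨅ u ∈ ((U : Set G) \ {1}), pcc u) : g * x * g⁻¹ * x⁻¹ ∈ U := by
  let K : Subgroup G :=
    { carrier := {g | g ∈ Subgroup.normalizer (U : Set G) ∧ g * x * g⁻¹ * x⁻¹ ∈ U}
      one_mem' := ⟨one_mem _, by simp⟩
      mul_mem' := by
        rintro x₁ x₂ ⟨h1, h1'⟩ ⟨h2, h2'⟩
        refine ⟨mul_mem h1 h2, ?_⟩
        have : x₁ * x₂ * x * (x₁ * x₂)⁻¹ * x⁻¹ =
            (x₁ * (x₂ * x * x₂⁻¹ * x⁻¹) * x₁⁻¹) * (x₁ * x * x₁⁻¹ * x⁻¹) := by group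
        rw [this]
        exact mul_mem (conj_mem_of_normalizer h1 h2') h1'
      inv_mem' := by
        rintro y ⟨h1, h1'⟩
        refine ⟨inv_mem h1, ?_⟩
        have : y⁻¹ * x * y⁻¹⁻¹ * x⁻¹ = y⁻¹ * (y * x * y⁻¹ * x⁻¹)⁻¹ * y⁻¹⁻¹ := by group
        rw [this]
        exact conj_mem_of_normalizer (inv_mem h1) (inv_mem h1') }
  have hle : (⨆ u ∈ ((U : Set G) \ {1}), pcc u) ≤ K := by
    apply iSup₂_le
    intro u hu q hq
    refine ⟨D.pcc_le_normalizer hu.1 hu.2 hq, ?_⟩
    rcases (D.es u hu.1 hu.2).comm q hq x ((mem_QU x).1 hx u hu.1 hu.2) with h | h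
    · rw [h]; exact one_mem _
    · rw [h]; exact hu.1
  exact (hle hg).2

theorem exists_conj_eq_mul [Finite G] (D : SingData U) {x : G}
    (hx : x ∈ ⨅ u ∈ ((U : Set G) \ {1}), pcc u) (hxU : x ∉ U) {u : G} (hu : u ∈ U) :
    ∃ g ∈ (⨆ u ∈ ((U : Set G) \ {1}), pcc u) ⊓ Subgroup.centralizer (U : Set G),
      g * x * g⁻¹ = x * u := by
  classical
  by_cases hu1 : u = 1
  · exact ⟨1, one_mem _, by simp [hu1]⟩
  by_contra hcon
  push Not at hcon
  have h := D.es u hu hu1
  have hxu := (mem_QU x).1 hx u hu hu1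
  apply hxU
  have hmem := h.double_cent_finset (Set.toFinite (U : Set G)).toFinset
    (fun a ha => D.orth u hu a (by simpa using ha) hu1) x hxu (by
      intro c hcQ hcs
      rcases h.comm c hcQ x hxu with h1 | h1
      · calc x * c = (c * x * c⁻¹ * x⁻¹)⁻¹ * (c * x) := by group
          _ = c * x := by rw [h1]; simp
      · exfalso
        apply hcon c ⟨pcc_le_LU hu hu1 hcQ, ?_⟩
        · calc c * x * c⁻¹ = (c * x * c⁻¹ * x⁻¹) * x := by group
            _ = x * u := by rw [h1, h.cen x hxu]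
        · show c ∈ Subgroup.centralizer (U : Set G)
          rw [Subgroup.mem_centralizer_iff]
          intro a ha
          exact (hcs a (by simpa using ha)).symm)
  have hle : Subgroup.closure (insert u (((Set.toFinite (U : Set G)).toFinset : Finset G) : Set G))
      ≤ U := by
    rw [Subgroup.closure_le]
    intro a ha
    rcases ha with rfl | ha
    · exact hu
    · simpa using ha
  exact hle hmem

end SingData

end Cfsg.Agent.Lib.Helper27
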