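import Cfsg.Agent.Lib.Helper27.Singular3

set_option autoImplicit false

namespace Cfsg.Agent.Lib.Helper27

open Cfsg
open scoped commutatorElement

variable {G : Type*} [Group G]

theorem conj_eq_on_closure {U : Subgroup G} (φ : U ≃* U) (g : G) (S : Set U)
    (h : ∀ t ∈ S, g * (t : G) * g⁻¹ = ((φ t : U) : G)) :
    ∀ t ∈ Subgroup.closure S, g * (t : G) * g⁻¹ = ((φ t : U) : G) := by
  intro t ht
  induction ht using Subgroup.closure_induction with
  | mem x hx => exact h x hx
  | one => simp
  | mul a b _ _ iha ihb =>
    rw [map_mul, Subgroup.coe_mul, Subgroup.coe_mul, ← iha, ← ihb]; group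
  | inv a _ iha =>
    rw [map_inv, Subgroup.coe_inv, Subgroup.coe_inv, ← iha]; group

namespace SingData

variable {U : Subgroup G}

theorem mem_or (D : SingData U) {F : Subgroup G} (hF : F ≤ U) {u : G} (hu : u ∈ U) {s : Set G}
    (hs : s ⊆ F) {t : G} (ht : t ∈ Subgroup.closure (insert u s)) : t ∈ F ∨ u * t ∈ F := by
  have key : t ∈ U ∧ (t ∈ F ∨ u * t ∈ F) := by
    induction ht using Subgroup.closure_induction with
    | mem x hx =>
      rcases hx with rfl | hx
      · exact ⟨hu, Or.inr (by rw [D.sq _ hu]; exact one_mem _)⟩
      · exact ⟨hF (hs hx), Or.inl (hs hx)⟩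
    | one => exact ⟨one_mem _, Or.inl (one_mem _)⟩
    | mul a b _ _ iha ihb =>
      obtain ⟨haU, ha⟩ := iha
      obtain ⟨hbU, hb⟩ := ihb
      refine ⟨mul_mem haU hbU, ?_⟩
      rcases ha with ha | ha <;> rcases hb with hb | hb
      · exact Or.inl (mul_mem ha hb)
      · right
        have : u * (a * b) = a * (u * b) := by
          rw [← mul_assoc, D.comm hu haU, mul_assoc]
        rw [this]; exact mul_mem ha hb
      · right
        rw [← mul_assoc]; exact mul_mem ha hb
      · left
        have : a * b = (u * a) * (u * b) := by
          calc a * b = (u * u) * a * b := by rw [D.sq u hu, one_mul]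
            _ = u * (u * a) * b := by group
            _ = u * (a * u) * b := by rw [D.comm hu haU]
            _ = (u * a) * (u * b) := by group
        rw [this]; exact mul_mem ha hb
    | inv a _ iha =>
      rw [D.inv_eq iha.1]; exact iha
  exact key.2

theorem induces_all [Finite G] (D : SingData U) (φ : U ≃* U) :
    ∃ g ∈ ⨆ u ∈ ((U : Set G) \ {1}), pcc u, ∀ u : U, g * (u : G) * g⁻¹ = ((φ u : U) : G) := by
  classical
  have key : ∀ s : Finset U, ∃ g ∈ ⨆ u ∈ ((U : Set G) \ {1}), pcc u,
      ∀ t ∈ Subgroup.closure (s : Set U), g * (t : G) * g⁻¹ = ((φ t : U) : G) := by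
    intro s
    induction s using Finset.induction_on with
    | empty =>
      refine ⟨1, one_mem _, ?_⟩
      intro t ht
      simp only [Finset.coe_empty, Subgroup.closure_empty, Subgroup.mem_bot] at ht
      subst ht; simp
    | insert e s he ih =>
      obtain ⟨g, hg, hgs⟩ := ih
      by_cases heF : e ∈ Subgroup.closure (s : Set U)
      · refine ⟨g, hg, fun t ht => hgs t ?_⟩
        have hle : Subgroup.closure ((insert e s : Finset U) : Set U) ≤
            Subgroup.closure (s : Set U) := by
          rw [Subgroup.closure_le, Finset.coe_insert]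
          exact Set.insert_subset heF Subgroup.subset_closure
        exact hle ht
      · have hgN := D.LU_le_normalizer hg
        have hvU : g * (e : G) * g⁻¹ ∈ U := conj_mem_of_normalizer hgN e.2
        by_cases hvw : g * (e : G) * g⁻¹ = ((φ e : U) : G)
        · refine ⟨g, hg, ?_⟩
          rw [Finset.coe_insert]
          apply conj_eq_on_closure
          intro t ht
          rcases ht with rfl | ht
          · exact hvw
          · exact hgs t (Subgroup.subset_closure ht)
        · have hwU : ((φ e : U) : G) ∈ U := (φ e).2
          generalize hv : g * (e : G) * g⁻¹ = v at hvU hvw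
          generalize hw : ((φ e : U) : G) = w at hwU hvw
          have hu : v * w ∈ U := mul_mem hvU hwU
          have hu1 : v * w ≠ 1 := by
            intro h
            apply hvw
            calc v = v * (w * w) := by rw [D.sq w hwU, mul_one]
              _ = (v * w) * w := by group
              _ = w := by rw [h, one_mul]
          have huv : (v * w) * v = w := by
            calc (v * w) * v = v * (w * v) := by group
              _ = v * (v * w) := by rw [D.comm hwU hvU]
              _ = (v * v) * w := by group
              _ = w := by rw [D.sq v hvU, one_mul]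
          have h := D.es _ hu hu1
          have hvQ := D.orth _ hu v hvU hu1
          have hex : ∃ c ∈ pcc (v * w), (∀ a ∈ s.image (fun t => ((φ t : U) : G)), c * a = a * c) ∧
              c * v * c⁻¹ = w := by
            by_contra hcon
            push Not at hcon
            have hmem := h.double_cent_finset (s.image (fun t => ((φ t : U) : G)))
              (fun a ha => by
                obtain ⟨t, -, rfl⟩ := Finset.mem_image.1 ha
                exact D.orth _ hu _ (φ t).2 hu1) v hvQ (by
                intro c hcQ hcs
                rcases h.comm c hcQ v hvQ with h1 | h1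
                · calc v * c = (c * v * c⁻¹ * v⁻¹)⁻¹ * (c * v) := by group
                    _ = c * v := by rw [h1]; simp
                · exfalso
                  apply hcon c hcQ hcs
                  calc c * v * c⁻¹ = (c * v * c⁻¹ * v⁻¹) * v := by group
                    _ = w := by rw [h1, huv])
            have hs'F : ((s.image (fun t => ((φ t : U) : G)) : Finset G) : Set G) ⊆
                (((Subgroup.closure (s : Set U)).map φ.toMonoidHom).map U.subtype : Subgroup G) := by
              intro a ha
              obtain ⟨t, ht, rfl⟩ := Finset.mem_image.1 (Finset.mem_coe.1 ha)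
              exact ⟨φ t, ⟨t, Subgroup.subset_closure ht, rfl⟩, rfl⟩
            rcases D.mem_or (Subgroup.map_subtype_le _) hu hs'F hmem with h1 | h1
            · obtain ⟨_, ⟨f, hf, rfl⟩, hfv⟩ := h1
              apply heF
              have h2 := hgs f hf
              have h3 : g * (f : G) * g⁻¹ = g * (e : G) * g⁻¹ := by
                rw [h2, hv]; exact hfv
              have h4 : (f : G) = e := by
                calc (f : G) = g⁻¹ * (g * (f : G) * g⁻¹) * g := by group
                  _ = g⁻¹ * (g * (e : G) * g⁻¹) * g := by rw [h3]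
                  _ = e := by group
              rw [← Subtype.ext h4]; exact hf
            · rw [huv] at h1
              obtain ⟨_, ⟨f, hf, rfl⟩, hfv⟩ := h1
              apply heF
              have h2 : φ f = φ e := Subtype.ext (hfv.trans hw.symm)
              rw [← φ.injective h2]; exact hf
          obtain ⟨c, hc, hcs, hcv⟩ := hex
          refine ⟨c * g, mul_mem (pcc_le_LU hu hu1 hc) hg, ?_⟩
          rw [Finset.coe_insert]
          apply conj_eq_on_closure
          intro t ht
          rcases ht with rfl | ht
          · calc c * g * (t : G) * (c * g)⁻¹ = c * (g * (t : G) * g⁻¹) * c⁻¹ := by group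
              _ = ((φ t : U) : G) := by rw [hv, hcv, hw]
          · have h2 := hgs t (Subgroup.subset_closure ht)
            have h3 := hcs _ (Finset.mem_image_of_mem (fun t => ((φ t : U) : G)) ht)
            calc c * g * (t : G) * (c * g)⁻¹ = c * (g * (t : G) * g⁻¹) * c⁻¹ := by group
              _ = (c * ((φ t : U) : G)) * c⁻¹ := by rw [h2]
              _ = ((φ t : U) : G) := by rw [h3]; group
  have : Fintype U := Fintype.ofFinite U
  obtain ⟨g, hg, h⟩ := key Finset.univ
  exact ⟨g, hg, fun u => h u (by simp)⟩

theorem main4 [Finite G] (D : SingData U) (hU : U ≠ ⊥) :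
    U ≤ (⨅ u ∈ ((U : Set G) \ {1}), pcc u) ∧
    (⨅ u ∈ ((U : Set G) \ {1}), pcc u) ≤ (⨆ u ∈ ((U : Set G) \ {1}), pcc u) ∧
    (⨆ u ∈ ((U : Set G) \ {1}), pcc u) ≤ Subgroup.normalizer (U : Set G) ∧
    ∀ φ : ↥U ≃* ↥U, ∃ g ∈ (⨆ u ∈ ((U : Set G) \ {1}), pcc u),
      ∀ u : ↥U, g * (u : G) * g⁻¹ = ((φ u : ↥U) : G) := by
  refine ⟨?_, ?_, D.LU_le_normalizer, D.induces_all⟩
  · intro v hv
    exact (mem_QU v).2 (fun u hu hu1 => D.orth u hu v hv hu1)
  · obtain ⟨u', hu'⟩ := Subgroup.ne_bot_iff_exists_ne_one.1 hU
    have hu : (u' : G) ∈ U := u'.2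
    have hu1 : (u' : G) ≠ 1 := fun h' => hu' (Subtype.ext h')
    generalize (u' : G) = u at hu hu1
    exact (iInf₂_le u ⟨hu, hu1⟩).trans (pcc_le_LU hu hu1)

end SingData

end Cfsg.Agent.Lib.Helper27
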