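import Cfsg.Agent.Lib.Helper27.ThreeTrans
import Cfsg.Agent.S5560

/-!
3-transpositions: the width one case (via Glauberman's Z*-theorem), three-strings.
-/

set_option autoImplicit false

namespace Cfsg.Agent.Lib.Helper27

open Cfsg

variable {G : Type*} [Group G]

theorem tt_conj_of_braid {a b : G} (ha : a * a = 1) (hb : b * b = 1) (h : a * b * a = b * a * b) :
    (a * b) * a * (a * b)⁻¹ = b := by
  have hai : a⁻¹ = a := inv_eq_of_mul_eq_one_left ha
  have hbi : b⁻¹ = b := inv_eq_of_mul_eq_one_left hb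
  rw [mul_inv_rev, hai, hbi]
  calc a * b * a * (b * a) = a * (b * a * b) * a := by group
    _ = a * (a * b * a) * a := by rw [h]
    _ = (a * a) * b * (a * a) := by group
    _ = b := by rw [ha]; group

theorem tt_orderOf_mul {D : Set G} (hD : IsThreeTranspositionSet D) {a b : G} (ha : a ∈ D) (hb : b ∈ D)
    (hc : Commute a b → a = b) : ∃ k : ℕ, orderOf (a * b) = 3 ^ k := by
  by_cases hab : a = b
  · refine ⟨0, ?_⟩
    rw [hab, tt_sq hD hb, orderOf_one, pow_zero]
  · have hnc : ¬ Commute a b := fun h => hab (hc h)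
    have h3 : (a * b) ^ 3 = 1 := by
      rcases hD.2 a ha b hb with h | h
      · exfalso
        apply hnc
        rcases tt_commute_or_braid hD ha hb with h' | h'
        · exact h'
        · have h1 : a * b * (a * b) = 1 := by rw [← pow_two]; exact h
          show a * b = b * a
          calc a * b = a * b * ((a * b) * (b * a)) := by
                have : (a * b) * (b * a) = 1 := by
                  calc (a * b) * (b * a) = a * (b * b) * a := by group
                    _ = 1 := by rw [tt_sq hD hb, mul_one, tt_sq hD ha]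
                rw [this, mul_one]
            _ = (a * b * (a * b)) * (b * a) := by group
            _ = b * a := by rw [h1, one_mul]
      · exact h
    have hdvd : orderOf (a * b) ∣ 3 ^ 1 := by rw [pow_one]; exact orderOf_dvd_of_pow_eq_one h3
    obtain ⟨k, -, hk⟩ := (Nat.dvd_prime_pow Nat.prime_three).1 hdvd
    exact ⟨k, hk⟩

/-- A conjugation-closed set of 3-transpositions in which commuting members are equal: all products lie in
`O_3`. -/
theorem tt_width_one_mul_mem [Finite G] {D : Set G} (hD : IsThreeTranspositionSet D)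
    (hconj : ∀ g : G, ∀ d ∈ D, g * d * g⁻¹ ∈ D)
    (hw : ∀ a ∈ D, ∀ b ∈ D, Commute a b → a = b) {a b : G} (ha : a ∈ D) (hb : b ∈ D) :
    a * b ∈ pCore 3 G := by
  have hsub : ∀ x ∈ conjugatesOf a, x ∈ D := by
    intro x hx
    obtain ⟨g, rfl⟩ := isConj_iff.1 (show IsConj a x from hx)
    exact hconj g a ha
  have hb' : b ∈ conjugatesOf a := by
    by_cases hab : a = b
    · rw [← hab]; exact mem_conjugatesOf_self
    · have hbr : a * b * a = b * a * b :=
        (tt_commute_or_braid hD ha hb).resolve_left (fun h => hab (hw a ha b hb h))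
      exact isConj_iff.2 ⟨a * b, tt_conj_of_braid (tt_sq hD ha) (tt_sq hD hb) hbr⟩
  exact Cfsg.Agent.S5560.result Nat.prime_three (by norm_num) a (hD.1 a ha)
    (fun x hx y hy => tt_orderOf_mul hD (hsub x hx) (hsub y hy) (hw x (hsub x hx) y (hsub y hy)))
    a mem_conjugatesOf_self b hb'

/-- Relative version: a set `W` of 3-transpositions, closed under conjugation by its own members, in which commuting
members are equal: the products of two members generate a `3`-group. -/
theorem tt_width_one_isPGroup [Finite G] {W : Set G} (hW : IsThreeTranspositionSet W)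
    (hconj : ∀ x ∈ W, ∀ y ∈ W, x * y * x⁻¹ ∈ W)
    (hw : ∀ a ∈ W, ∀ b ∈ W, Commute a b → a = b) :
    IsPGroup 3 (Subgroup.closure {z : G | ∃ a ∈ W, ∃ b ∈ W, z = a * b}) := by
  set H : Subgroup G := Subgroup.closure W with hH
  have hWH : ∀ x ∈ W, x ∈ H := fun x hx => Subgroup.subset_closure hx
  set W' : Set H := {x : H | (x : G) ∈ W} with hW'
  have hconj' : ∀ g : H, ∀ d ∈ W', g * d * g⁻¹ ∈ W' := by
    rintro ⟨g, hg⟩
    induction hg using Subgroup.closure_induction with
    | mem x hx => intro d hd; exact hconj x hx d hd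
    | one =>
      intro d hd
      show (1 : G) * d * (1 : G)⁻¹ ∈ W
      rw [one_mul, inv_one, mul_one]; exact hd
    | mul x y hx hy ihx ihy =>
      intro d hd
      have h1 := ihx _ (ihy d hd)
      have e : (⟨x * y, mul_mem hx hy⟩ : H) * d * (⟨x * y, mul_mem hx hy⟩ : H)⁻¹ =
          ⟨x, hx⟩ * (⟨y, hy⟩ * d * (⟨y, hy⟩ : H)⁻¹) * (⟨x, hx⟩ : H)⁻¹ := by
        apply Subtype.ext
        show x * y * d * (x * y)⁻¹ = x * (y * d * y⁻¹) * x⁻¹
        group
      rw [e]; exact h1
    | inv x hx ihx =>
      intro d hd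
      -- conjugation by `x` is a bijection of the finite set `W'`
      have hinj : Function.Injective (fun w : W' => (⟨⟨x, hx⟩ * w.1 * (⟨x, hx⟩ : H)⁻¹, ihx w.1 w.2⟩ : W')) := by
        intro u v huv
        have := congrArg (fun t : W' => (t.1 : H)) huv
        simp only at this
        exact Subtype.ext (mul_left_cancel (mul_right_cancel this))
      obtain ⟨w, hw'⟩ := (Finite.injective_iff_surjective.1 hinj) ⟨d, hd⟩
      have h2 : (⟨x, hx⟩ : H) * w.1 * (⟨x, hx⟩ : H)⁻¹ = d := congrArg (fun t : W' => (t.1 : H)) hw'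
      have e : (⟨x⁻¹, inv_mem hx⟩ : H) * d * (⟨x⁻¹, inv_mem hx⟩ : H)⁻¹ = w.1 := by
        rw [← h2]
        apply Subtype.ext
        show x⁻¹ * (x * w.1 * x⁻¹) * (x⁻¹)⁻¹ = w.1
        group
      rw [e]; exact w.2
  have hset' : IsThreeTranspositionSet W' := by
    refine ⟨fun d hd => ?_, fun d hd e he => ?_⟩
    · rw [← Subgroup.orderOf_coe]; exact hW.1 _ hd
    · rcases hW.2 _ hd _ he with h | h
      · left; exact Subtype.ext h
      · right; exact Subtype.ext h
  have hw' : ∀ a ∈ W', ∀ b ∈ W', Commute a b → a = b := by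
    intro a ha b hb hab
    exact Subtype.ext (hw _ ha _ hb (congrArg Subtype.val hab.eq))
  have : Fact (Nat.Prime 3) := ⟨Nat.prime_three⟩
  have hp : IsPGroup 3 ((pCore 3 H).map H.subtype) := (pCore_isPGroup).map _
  refine hp.to_le ((Subgroup.closure_le _).2 ?_)
  rintro z ⟨a, ha, b, hb, rfl⟩
  exact ⟨⟨a, hWH a ha⟩ * ⟨b, hWH b hb⟩,
    tt_width_one_mul_mem hset' hconj' hw' (a := ⟨a, hWH a ha⟩) (b := ⟨b, hWH b hb⟩) ha hb, rfl⟩

end Cfsg.Agent.Lib.Helper27
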