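import Cfsg.Agent.Lib.Helper27.ThreeTrans2

/-!
3-transpositions: three-strings and the `W`-classes.
-/

set_option autoImplicit false

namespace Cfsg.Agent.Lib.Helper27

open Cfsg

variable {G : Type*} [Group G]

section strings

variable {a d y : G}

theorem string_fix (hy : y * y = 1) (hay : a * y = y * a)
    (h1 : a * d * a = d * a * d) (h2 : y * d * y = d * y * d) :
    d * (y * (a * d * a) * y) * d = y * (a * d * a) * y := by
  have hyay : y * a * y = a := by rw [← hay, mul_assoc, hy, mul_one]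
  calc d * (y * (a * d * a) * y) * d = d * (y * (d * a * d) * y) * d := by rw [h1]
    _ = (d * y * d) * a * (d * y * d) := by group
    _ = (y * d * y) * a * (y * d * y) := by rw [← h2]
    _ = y * d * (y * a * y) * d * y := by group
    _ = y * d * a * d * y := by rw [hyay]
    _ = y * (d * a * d) * y := by group
    _ = y * (a * d * a) * y := by rw [h1]

theorem string_commute (hd : d * d = 1) (hy : y * y = 1) (hay : a * y = y * a)
    (h1 : a * d * a = d * a * d) (h2 : y * d * y = d * y * d) :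
    Commute (y * (a * d * a) * y) d := by
  have h := string_fix hy hay h1 h2
  show y * (a * d * a) * y * d = d * (y * (a * d * a) * y)
  calc y * (a * d * a) * y * d = d * (y * (a * d * a) * y) * d * d := by rw [h]
    _ = d * (y * (a * d * a) * y) * (d * d) := by group
    _ = d * (y * (a * d * a) * y) := by rw [hd, mul_one]

theorem string_ne (hd : d * d = 1) (hy : y * y = 1) (hne : a ≠ y)
    (h1 : a * d * a = d * a * d) (h2 : y * d * y = d * y * d) :
    y * (a * d * a) * y ≠ d := by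
  intro h
  apply hne
  have e1 : a * d * a = y * d * y := by
    calc a * d * a = (y * y) * (a * d * a) * (y * y) := by rw [hy]; group
      _ = y * (y * (a * d * a) * y) * y := by group
      _ = y * d * y := by rw [h]
  rw [h1, h2] at e1
  calc a = (d * d) * a * (d * d) := by rw [hd]; group
    _ = d * (d * a * d) * d := by group
    _ = d * (d * y * d) * d := by rw [e1]
    _ = (d * d) * y * (d * d) := by group
    _ = y := by rw [hd]; group

theorem string_bab (ha : a * a = 1) (hd : d * d = 1) (hy : y * y = 1) (hay : a * y = y * a)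
    (h1 : a * d * a = d * a * d) :
    (y * (a * d * a) * y) * a * (y * (a * d * a) * y) = y * d * y := by
  have hyay : y * a * y = a := by rw [← hay, mul_assoc, hy, mul_one]
  calc (y * (a * d * a) * y) * a * (y * (a * d * a) * y)
      = y * (a * d * a) * (y * a * y) * (a * d * a) * y := by group
    _ = y * (a * d * a) * a * (a * d * a) * y := by rw [hyay]
    _ = y * (a * d * (a * a) * (a * d * a)) * y := by group
    _ = y * (a * (d * a * d) * a) * y := by rw [ha]; group
    _ = y * (a * (a * d * a) * a) * y := by rw [h1]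
    _ = y * ((a * a) * d * (a * a)) * y := by group
    _ = y * d * y := by rw [ha]; group

theorem string_conj (ha : a * a = 1) (hd : d * d = 1) (hy : y * y = 1) (hay : a * y = y * a)
    (h1 : a * d * a = d * a * d) (h2 : y * d * y = d * y * d) :
    d * ((y * (a * d * a) * y) * a * (y * (a * d * a) * y)) * d = y := by
  rw [string_bab ha hd hy hay h1, h2]
  calc d * (d * y * d) * d = (d * d) * y * (d * d) := by group
    _ = y := by rw [hd]; group

theorem string_not_commute (ha : a * a = 1) (hd : d * d = 1) (hy : y * y = 1) (hay : a * y = y * a)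
    (h1 : a * d * a = d * a * d) (hyd : ¬ Commute y d) :
    ¬ Commute a (y * (a * d * a) * y) := by
  intro hc
  apply hyd
  have hbb : (y * (a * d * a) * y) * (y * (a * d * a) * y) = 1 := by
    calc (y * (a * d * a) * y) * (y * (a * d * a) * y)
        = y * (a * d * a) * (y * y) * (a * d * a) * y := by group
      _ = y * (a * d * (a * a) * d * a) * y := by rw [hy]; group
      _ = y * (a * (d * d) * a) * y := by rw [ha]; group
      _ = 1 := by rw [hd, mul_one, ha, mul_one, hy]
  have e := string_bab ha hd hy hay h1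
  rw [← hc.eq, mul_assoc, hbb, mul_one] at e
  -- a = y d y, and a commutes with y
  show y * d = d * y
  have e2 : (y * d * y) * y = y * (y * d * y) := by rw [← e]; exact hay
  calc y * d = (y * d * y) * y := by rw [mul_assoc, hy, mul_one]
    _ = y * (y * d * y) := e2
    _ = (y * y) * d * y := by group
    _ = d * y := by rw [hy, one_mul]

end strings

/-- the members of `D` different from `x` commuting with `x`. -/
def Dp (D : Set G) (x : G) : Set G := {y : G | y ∈ D ∧ y ≠ x ∧ Commute x y}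

theorem Dp_conj {D : Set G} (hconj : ∀ g : G, ∀ x ∈ D, g * x * g⁻¹ ∈ D) (g x y : G) :
    g * y * g⁻¹ ∈ Dp D (g * x * g⁻¹) ↔ y ∈ Dp D x := by
  constructor
  · rintro ⟨h1, h2, h3⟩
    refine ⟨?_, ?_, ?_⟩
    · have := hconj g⁻¹ _ h1
      have e : g⁻¹ * (g * y * g⁻¹) * g⁻¹⁻¹ = y := by group
      rwa [e] at this
    · rintro rfl; exact h2 rfl
    · have := h3.eq
      show x * y = y * x
      have e1 : g * x * g⁻¹ * (g * y * g⁻¹) = g * (x * y) * g⁻¹ := by group
      have e2 : g * y * g⁻¹ * (g * x * g⁻¹) = g * (y * x) * g⁻¹ := by group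
      rw [e1, e2] at this
      exact mul_left_cancel (mul_right_cancel this)
  · rintro ⟨h1, h2, h3⟩
    refine ⟨hconj g y h1, ?_, ?_⟩
    · intro h; exact h2 (mul_left_cancel (mul_right_cancel h))
    · show g * x * g⁻¹ * (g * y * g⁻¹) = g * y * g⁻¹ * (g * x * g⁻¹)
      have e1 : g * x * g⁻¹ * (g * y * g⁻¹) = g * (x * y) * g⁻¹ := by group
      have e2 : g * y * g⁻¹ * (g * x * g⁻¹) = g * (y * x) * g⁻¹ := by group
      rw [e1, e2, h3.eq]

theorem Dp_eq_conj {D : Set G} (hconj : ∀ g : G, ∀ x ∈ D, g * x * g⁻¹ ∈ D) {x y : G}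
    (h : Dp D x = Dp D y) (g : G) : Dp D (g * x * g⁻¹) = Dp D (g * y * g⁻¹) := by
  ext z
  have e : z = g * (g⁻¹ * z * g) * g⁻¹ := by group
  rw [e, Dp_conj hconj, Dp_conj hconj, h]

theorem Dp_not_commute {D : Set G} {x y : G} (hy : y ∈ D) (h : Dp D x = Dp D y) (hne : x ≠ y) :
    ¬ Commute x y := by
  intro hc
  have : y ∈ Dp D x := ⟨hy, hne.symm, hc⟩
  rw [h] at this
  exact this.2.1 rfl

theorem Dp_subset_conj {D : Set G} (hD : IsThreeTranspositionSet D)
    (hconj : ∀ g : G, ∀ x ∈ D, g * x * g⁻¹ ∈ D) {d w a : G} (hd : d ∈ D) (hw : w ∈ D) (ha : a ∈ D)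
    (h : Dp D d = Dp D w) : Dp D a ⊆ Dp D ((d * w) * a * (d * w)⁻¹) := by
  have hdd := tt_sq hD hd
  have hww := tt_sq hD hw
  have haa := tt_sq hD ha
  by_cases hdw : d = w
  · rw [← hdw, hdd]; simp
  have hnc : ¬ Commute d w := Dp_not_commute hw h hdw
  have hbr : d * w * d = w * d * w := (tt_commute_or_braid hD hd hw).resolve_left hnc
  have hxd : (d * w) * d * (d * w)⁻¹ = w := tt_conj_of_braid hdd hww hbr
  have hxi : (d * w)⁻¹ = w * d := by rw [mul_inv_rev, tt_inv hD hd, tt_inv hD hw]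
  by_cases had : Dp D a = Dp D d
  · have := Dp_eq_conj hconj had (d * w)
    rw [hxd] at this
    rw [this, ← h, had]
  by_cases hcda : Commute d a
  · have hne : a ≠ d := by rintro rfl; exact had rfl
    have h1 : a ∈ Dp D d := ⟨ha, hne, hcda⟩
    have hcwa : Commute w a := by rw [h] at h1; exact h1.2.2
    have : (d * w) * a * (d * w)⁻¹ = a := by
      rw [(hcda.mul_left hcwa).eq, mul_assoc, mul_inv_cancel, mul_one]
    rw [this]
  have hnew : a ≠ w := by rintro rfl; exact had h.symm
  have hcwa : ¬ Commute w a := by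
    intro hc
    have h1 : a ∈ Dp D w := ⟨ha, hnew, hc⟩
    rw [← h] at h1
    exact hcda h1.2.2
  rintro y ⟨hy, hya, hcay⟩
  have hyy := tt_sq hD hy
  by_cases hcdy : Commute d y
  · have hne : y ≠ d := by rintro rfl; exact hcda hcay.symm
    have h1 : y ∈ Dp D d := ⟨hy, hne, hcdy⟩
    have hcwy : Commute w y := by rw [h] at h1; exact h1.2.2
    have e : (d * w) * y * (d * w)⁻¹ = y := by
      rw [(hcdy.mul_left hcwy).eq, mul_assoc, mul_inv_cancel, mul_one]
    rw [← e, Dp_conj hconj]
    exact ⟨hy, hya, hcay⟩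
  · have b1 : a * d * a = d * a * d :=
      (tt_commute_or_braid hD ha hd).resolve_left (fun hc => hcda hc.symm)
    have b2 : y * d * y = d * y * d :=
      (tt_commute_or_braid hD hy hd).resolve_left (fun hc => hcdy hc.symm)
    set b := y * (a * d * a) * y with hb
    have hbD : b ∈ D := by
      have := hconj (y * a) d hd
      have e : y * a * d * (y * a)⁻¹ = b := by
        rw [mul_inv_rev, tt_inv hD hy, tt_inv hD ha, hb]; group
      rwa [e] at this
    have hbb := tt_sq hD hbD
    have hcbd : Commute b d := string_commute hdd hyy hcay.eq b1 b2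
    have hbd : b ≠ d := string_ne hdd hyy hya.symm b1 b2
    have hbmem : b ∈ Dp D d := ⟨hbD, hbd, hcbd.symm⟩
    have hbw : b ∈ Dp D w := by rw [← h]; exact hbmem
    have hcab : ¬ Commute a b := string_not_commute haa hdd hyy hcay.eq b1 (fun hc => hcdy hc.symm)
    have hyeq : d * (b * a * b) * d = y := string_conj haa hdd hyy hcay.eq b1 b2
    -- the string w - a - b
    have c1 : w * a * w = a * w * a := (tt_commute_or_braid hD hw ha).resolve_left hcwa
    have c2 : b * a * b = a * b * a :=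
      (tt_commute_or_braid hD hbD ha).resolve_left (fun hc => hcab hc.symm)
    set c := b * (w * a * w) * b with hc
    have hcc : Commute c a := string_commute haa hbb hbw.2.2.eq c1 c2
    have hca : c ≠ a := string_ne haa hbb hbw.2.1.symm c1 c2
    have hcD : c ∈ D := by
      have := hconj (b * w) a ha
      have e : b * w * a * (b * w)⁻¹ = c := by
        rw [mul_inv_rev, tt_inv hD hbD, tt_inv hD hw, hc]; group
      rwa [e] at this
    have e1 : y = (d * b) * a * (d * b)⁻¹ := by
      rw [mul_inv_rev, tt_inv hD hd, tt_inv hD hbD, ← hyeq]; group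
    have e2 : (d * w) * a * (d * w)⁻¹ = (d * b) * c * (d * b)⁻¹ := by
      rw [mul_inv_rev, mul_inv_rev, tt_inv hD hd, tt_inv hD hbD, tt_inv hD hw, hc]
      calc d * w * a * (w * d) = d * (1 * (w * a * w) * 1) * d := by group
        _ = d * ((b * b) * (w * a * w) * (b * b)) * d := by rw [hbb]
        _ = d * b * (b * (w * a * w) * b) * (b * d) := by group
    rw [e1, e2, Dp_conj hconj]
    exact ⟨ha, hca.symm, hcc⟩

theorem Dp_conj_eq {D : Set G} (hD : IsThreeTranspositionSet D)
    (hconj : ∀ g : G, ∀ x ∈ D, g * x * g⁻¹ ∈ D) {d w a : G} (hd : d ∈ D) (hw : w ∈ D) (ha : a ∈ D)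
    (h : Dp D d = Dp D w) : Dp D ((d * w) * a * (d * w)⁻¹) = Dp D a := by
  apply Set.Subset.antisymm _ (Dp_subset_conj hD hconj hd hw ha h)
  have := Dp_subset_conj hD hconj hw hd (hconj (d * w) a ha) h.symm
  have e : w * d * (d * w * a * (d * w)⁻¹) * (w * d)⁻¹ = a := by
    have : w * d = (d * w)⁻¹ := by rw [mul_inv_rev, tt_inv hD hd, tt_inv hD hw]
    rw [this]; group
  rwa [e] at this

theorem mem_normalizer_closure {S : Set G} {z : G} (h1 : ∀ s ∈ S, z * s * z⁻¹ ∈ S)
    (h2 : ∀ s ∈ S, z⁻¹ * s * z ∈ S) : z ∈ Subgroup.normalizer (Subgroup.closure S : Set G) := by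
  have key : ∀ z : G, (∀ s ∈ S, z * s * z⁻¹ ∈ S) → ∀ x ∈ Subgroup.closure S, z * x * z⁻¹ ∈ Subgroup.closure S := by
    intro z hz x hx
    induction hx using Subgroup.closure_induction with
    | mem x hx => exact Subgroup.subset_closure (hz x hx)
    | one => simp
    | mul x y _ _ ihx ihy =>
      have e : z * (x * y) * z⁻¹ = (z * x * z⁻¹) * (z * y * z⁻¹) := by group
      rw [e]; exact mul_mem ihx ihy
    | inv x _ ihx =>
      have e : z * x⁻¹ * z⁻¹ = (z * x * z⁻¹)⁻¹ := by group
      rw [e]; exact inv_mem ihx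
  rw [Subgroup.mem_normalizer_iff]
  intro x
  constructor
  · exact key z h1 x
  · intro hx
    have := key z⁻¹ (by intro s hs; rw [inv_inv]; exact h2 s hs) _ hx
    have e : z⁻¹ * (z * x * z⁻¹) * z⁻¹⁻¹ = x := by group
    rwa [e] at this

/-- the group generated by the products of two members of the `W`-class of `d`. -/
def WGrp (D : Set G) (d : G) : Subgroup G :=
  Subgroup.closure {z : G | ∃ a ∈ {w : G | w ∈ D ∧ Dp D d = Dp D w}, ∃ b ∈ {w : G | w ∈ D ∧ Dp D d = Dp D w}, z = a * b}

theorem WGrp_isPGroup [Finite G] {D : Set G} (hD : IsThreeTranspositionSet D)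
    (hconj : ∀ g : G, ∀ x ∈ D, g * x * g⁻¹ ∈ D) (d : G) : IsPGroup 3 (WGrp D d) := by
  apply tt_width_one_isPGroup
  · exact ⟨fun x hx => hD.1 x hx.1, fun x hx y hy => hD.2 x hx.1 y hy.1⟩
  · rintro x ⟨hx, hx'⟩ y ⟨hy, hy'⟩
    refine ⟨hconj x y hy, ?_⟩
    have := Dp_eq_conj hconj (hx'.symm.trans hy') x
    have e : x * x * x⁻¹ = x := by group
    rw [e] at this
    exact hx'.trans this
  · rintro x ⟨hx, hx'⟩ y ⟨hy, hy'⟩ hc
    by_contra hne
    exact Dp_not_commute hy (hx'.symm.trans hy') hne hc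

theorem WGrp_le_normalizer {D : Set G} (hD : IsThreeTranspositionSet D)
    (hconj : ∀ g : G, ∀ x ∈ D, g * x * g⁻¹ ∈ D) (d e : G) :
    WGrp D d ≤ Subgroup.normalizer (WGrp D e : Set G) := by
  unfold WGrp
  rw [Subgroup.closure_le]
  rintro z ⟨a, ⟨ha, ha'⟩, b, ⟨hb, hb'⟩, rfl⟩
  have hab : Dp D a = Dp D b := ha'.symm.trans hb'
  apply mem_normalizer_closure
  · rintro s ⟨u, ⟨hu, hu'⟩, v, ⟨hv, hv'⟩, rfl⟩
    refine ⟨(a * b) * u * (a * b)⁻¹, ⟨hconj _ u hu, ?_⟩, (a * b) * v * (a * b)⁻¹, ⟨hconj _ v hv, ?_⟩, by group⟩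
    · rw [Dp_conj_eq hD hconj ha hb hu hab]; exact hu'
    · rw [Dp_conj_eq hD hconj ha hb hv hab]; exact hv'
  · rintro s ⟨u, ⟨hu, hu'⟩, v, ⟨hv, hv'⟩, rfl⟩
    have hi : (a * b)⁻¹ = b * a := by rw [mul_inv_rev, tt_inv hD ha, tt_inv hD hb]
    have hi' : a * b = (b * a)⁻¹ := by rw [← hi, inv_inv]
    refine ⟨(b * a) * u * (b * a)⁻¹, ⟨hconj _ u hu, ?_⟩, (b * a) * v * (b * a)⁻¹, ⟨hconj _ v hv, ?_⟩, ?_⟩
    · rw [Dp_conj_eq hD hconj hb ha hu hab.symm]; exact hu'
    · rw [Dp_conj_eq hD hconj hb ha hv hab.symm]; exact hv'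
    · rw [hi, hi']; group

theorem W_mul_mem_pCore [Finite G] {D : Set G} (hD : IsThreeTranspositionSet D)
    (hconj : ∀ g : G, ∀ x ∈ D, g * x * g⁻¹ ∈ D) {d w : G} (hd : d ∈ D) (hw : w ∈ D)
    (h : Dp D d = Dp D w) : d * w ∈ pCore 3 G := by
  have : Fact (Nat.Prime 3) := ⟨Nat.prime_three⟩
  have hX : Subgroup.zpowers (d * w) ≤ WGrp D d := by
    rw [Subgroup.zpowers_le]
    exact Subgroup.subset_closure ⟨d, ⟨hd, rfl⟩, w, ⟨hw, h⟩, rfl⟩
  obtain ⟨N, hN, hNp, hle⟩ := Cfsg.Agent.S0199.result (p := 3) (Subgroup.zpowers (d * w))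
    ((WGrp_isPGroup hD hconj d).to_le hX) (by
    intro g
    have hX' : (Subgroup.zpowers (d * w)).map (MulAut.conj g).toMonoidHom ≤ WGrp D (g * d * g⁻¹) := by
      rw [MonoidHom.map_zpowers, Subgroup.zpowers_le]
      refine Subgroup.subset_closure ⟨g * d * g⁻¹, ⟨hconj g d hd, rfl⟩, g * w * g⁻¹,
        ⟨hconj g w hw, Dp_eq_conj hconj h g⟩, ?_⟩
      show g * (d * w) * g⁻¹ = _
      group
    exact (IsPGroup.to_sup_of_normal_right' (WGrp_isPGroup hD hconj d) (WGrp_isPGroup hD hconj (g * d * g⁻¹))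
      (WGrp_le_normalizer hD hconj _ _)).to_le (sup_le_sup hX hX'))
  exact le_pCore hN hNp (hle (Subgroup.mem_zpowers _))

end Cfsg.Agent.Lib.Helper27
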