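import Cfsg.Agent.Lib.Helper27.ThreeTrans3

/-!
3-transpositions: action of a class on commuting normal subgroups.
-/

set_option autoImplicit false

namespace Cfsg.Agent.Lib.Helper27

open Cfsg
open scoped commutatorElement

variable {G : Type*} [Group G]

/-- A normal subgroup centralized by one member of the class is central. -/
theorem tt_le_center {D : Set G} (hD : IsThreeTranspositionClass D) {N : Subgroup G} (hN : N.Normal)
    {d : G} (hd : d ∈ D) (h : ∀ x ∈ N, Commute d x) : N ≤ Subgroup.center G := by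
  intro n hn
  have h1 : D ⊆ Subgroup.centralizer ({n} : Set G) := by
    intro e he
    obtain ⟨g, rfl⟩ := tt_class_isConj hD hd he
    rw [SetLike.mem_coe, Subgroup.mem_centralizer_singleton_iff]
    have h2 := (h (g⁻¹ * n * g⁻¹⁻¹) (hN.conj_mem n hn g⁻¹)).eq
    rw [inv_inv] at h2
    calc g * d * g⁻¹ * n = g * (d * (g⁻¹ * n * g)) * g⁻¹ := by group
      _ = g * ((g⁻¹ * n * g) * d) * g⁻¹ := by rw [h2]
      _ = n * (g * d * g⁻¹) := by group
  have h2 : Subgroup.closure D ≤ Subgroup.centralizer ({n} : Set G) := (Subgroup.closure_le _).2 h1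
  rw [hD.2.2] at h2
  rw [Subgroup.mem_center_iff]
  intro g
  have := h2 (Subgroup.mem_top g)
  rw [Subgroup.mem_centralizer_singleton_iff] at this
  exact this

/-- If the commutators `[d, x]`, `x ∈ E`, centralize the perfect normal subgroup `E` then `d` centralizes `E`. -/
theorem commute_of_commutator_central {E : Subgroup G} (hE : E.Normal) (hperf : ⁅E, E⁆ = E) {d : G}
    (h : ∀ x ∈ E, ∀ y ∈ E, Commute (d * x * d⁻¹ * x⁻¹) y) : ∀ x ∈ E, Commute d x := by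
  have hle : ⁅E, E⁆ ≤ Subgroup.centralizer ({d} : Set G) := by
    rw [Subgroup.commutator_le]
    intro x hx y hy
    rw [Subgroup.mem_centralizer_singleton_iff]
    set z := d * x * d⁻¹ * x⁻¹ with hz
    set w := d * y * d⁻¹ * y⁻¹ with hw
    have hzE : z ∈ E := mul_mem (hE.conj_mem x hx d) (inv_mem hx)
    have hwE : w ∈ E := mul_mem (hE.conj_mem y hy d) (inv_mem hy)
    have e1 : d * x * d⁻¹ = z * x := by rw [hz]; group
    have e2 : d * y * d⁻¹ = w * y := by rw [hw]; group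
    have hzx : Commute z x := h x hx x hx
    have hzy : Commute z y := h x hx y hy
    have hzw : Commute z w := h x hx w hwE
    have hwx : Commute w x := h y hy x hx
    have hwy : Commute w y := h y hy y hy
    have key : d * ⁅x, y⁆ * d⁻¹ = ⁅x, y⁆ := by
      calc d * ⁅x, y⁆ * d⁻¹ = ⁅d * x * d⁻¹, d * y * d⁻¹⁆ := by
            simp only [commutatorElement_def]; group
        _ = ⁅z * x, w * y⁆ := by rw [e1, e2]
        _ = (z * x) * (w * y) * (z * x)⁻¹ * (w * y)⁻¹ := rfl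
        _ = z * (x * w) * y * x⁻¹ * z⁻¹ * y⁻¹ * w⁻¹ := by group
        _ = z * (w * x) * y * x⁻¹ * z⁻¹ * y⁻¹ * w⁻¹ := by rw [hwx.eq]
        _ = z * w * (x * y * x⁻¹) * (z⁻¹ * y⁻¹) * w⁻¹ := by group
        _ = z * w * (x * y * x⁻¹) * (y⁻¹ * z⁻¹) * w⁻¹ := by rw [(hzy.inv_inv).eq]
        _ = z * w * ((x * y * x⁻¹ * y⁻¹) * z⁻¹) * w⁻¹ := by group
        _ = z * w * (z⁻¹ * (x * y * x⁻¹ * y⁻¹)) * w⁻¹ := by
            rw [(((hzx.mul_right hzy).mul_right hzx.inv_right).mul_right hzy.inv_right).inv_left.eq]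
        _ = (z * w * z⁻¹) * ((x * y * x⁻¹ * y⁻¹) * w⁻¹) := by group
        _ = (z * w * z⁻¹) * (w⁻¹ * (x * y * x⁻¹ * y⁻¹)) := by
            rw [(((hwx.mul_right hwy).mul_right hwx.inv_right).mul_right hwy.inv_right).inv_left.eq]
        _ = (w * z * z⁻¹) * (w⁻¹ * (x * y * x⁻¹ * y⁻¹)) := by rw [hzw.eq]
        _ = ⁅x, y⁆ := by simp only [commutatorElement_def]; group
    calc ⁅x, y⁆ * d = (d * ⁅x, y⁆ * d⁻¹) * d := by rw [key]
      _ = d * ⁅x, y⁆ := by group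
  rw [hperf] at hle
  intro x hx
  have := hle hx
  rw [Subgroup.mem_centralizer_singleton_iff] at this
  exact this.symm

/-- the set of `E`-conjugates of `d`. -/
def conjSet (E : Subgroup G) (d : G) : Set G := {w : G | ∃ x ∈ E, w = x * d * x⁻¹}

/-- the group generated by the products of two `E`-conjugates of `d`. -/
def conjGrp (E : Subgroup G) (d : G) : Subgroup G :=
  Subgroup.closure {z : G | ∃ a ∈ conjSet E d, ∃ b ∈ conjSet E d, z = a * b}

theorem conjGrp_le {E : Subgroup G} (hE : E.Normal) {d : G} (hdd : d * d = 1) : conjGrp E d ≤ E := by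
  unfold conjGrp
  rw [Subgroup.closure_le]
  rintro z ⟨a, ⟨x, hx, rfl⟩, b, ⟨y, hy, rfl⟩, rfl⟩
  have hdi : d⁻¹ = d := inv_eq_of_mul_eq_one_left hdd
  have e : x * d * x⁻¹ * (y * d * y⁻¹) = x * (d * (x⁻¹ * y) * d⁻¹) * y⁻¹ := by rw [hdi]; group
  rw [e]
  exact mul_mem (mul_mem hx (hE.conj_mem _ (mul_mem (inv_mem hx) hy) d)) (inv_mem hy)

theorem le_normalizer_conjGrp (E : Subgroup G) (d : G) :
    E ≤ Subgroup.normalizer (conjGrp E d : Set G) := by
  intro g hg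
  apply mem_normalizer_closure
  · rintro s ⟨a, ⟨x, hx, rfl⟩, b, ⟨y, hy, rfl⟩, rfl⟩
    exact ⟨_, ⟨g * x, mul_mem hg hx, rfl⟩, _, ⟨g * y, mul_mem hg hy, rfl⟩, by group⟩
  · rintro s ⟨a, ⟨x, hx, rfl⟩, b, ⟨y, hy, rfl⟩, rfl⟩
    exact ⟨_, ⟨g⁻¹ * x, mul_mem (inv_mem hg) hx, rfl⟩, _, ⟨g⁻¹ * y, mul_mem (inv_mem hg) hy, rfl⟩, by group⟩

theorem commutator_mem_conjGrp {E : Subgroup G} {d : G} (hdd : d * d = 1) {x : G} (hx : x ∈ E) :
    d * x * d⁻¹ * x⁻¹ ∈ conjGrp E d := by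
  have hdi : d⁻¹ = d := inv_eq_of_mul_eq_one_left hdd
  refine Subgroup.subset_closure ⟨d, ⟨1, one_mem _, by group⟩, x * d * x⁻¹, ⟨x, hx, rfl⟩, ?_⟩
  rw [hdi]; group

theorem conjSet_conj_mem {E : Subgroup G} (hE : E.Normal) {d : G} (hdd : d * d = 1) {a b : G}
    (ha : a ∈ conjSet E d) (hb : b ∈ conjSet E d) : a * b * a⁻¹ ∈ conjSet E d := by
  obtain ⟨x, hx, rfl⟩ := ha
  obtain ⟨y, hy, rfl⟩ := hb
  have hdi : d⁻¹ = d := inv_eq_of_mul_eq_one_left hdd
  refine ⟨x * (d * (x⁻¹ * y) * d⁻¹), mul_mem hx (hE.conj_mem _ (mul_mem (inv_mem hx) hy) d), ?_⟩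
  have e : (x * (d * (x⁻¹ * y) * d⁻¹)) * d * (x * (d * (x⁻¹ * y) * d⁻¹))⁻¹
      = x * d * x⁻¹ * (y * (d⁻¹ * d * d) * y⁻¹) * (x * d * x⁻¹)⁻¹ := by group
  rw [e, inv_mul_cancel, one_mul]

/-- If all `d * (x d x⁻¹)`, `x ∈ E`, have `r`-th power one (`r = 2` or `3`) then `conjGrp E d` is solvable. -/
theorem conjGrp_isSolvable [Finite G] {D : Set G} (hD : IsThreeTranspositionSet D)
    (hconj : ∀ g : G, ∀ x ∈ D, g * x * g⁻¹ ∈ D) {E : Subgroup G} (hE : E.Normal) {d : G} (hd : d ∈ D)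
    (h : (∀ x ∈ E, (d * (x * d * x⁻¹)) ^ 2 = 1) ∨ (∀ x ∈ E, (d * (x * d * x⁻¹)) ^ 3 = 1)) :
    Group.IsSolvable (conjGrp E d) := by
  have hdd := tt_sq hD hd
  have hsub : ∀ a ∈ conjSet E d, a ∈ D := by
    rintro a ⟨x, -, rfl⟩; exact hconj x d hd
  have hpow : ∀ k : ℕ, (∀ x ∈ E, (d * (x * d * x⁻¹)) ^ k = 1) →
      ∀ a ∈ conjSet E d, ∀ b ∈ conjSet E d, (a * b) ^ k = 1 := by
    rintro k hk a ⟨x, hx, rfl⟩ b ⟨y, hy, rfl⟩
    have e : x * d * x⁻¹ * (y * d * y⁻¹) = x * (d * ((x⁻¹ * y) * d * (x⁻¹ * y)⁻¹)) * x⁻¹ := by group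
    rw [e, conj_pow, hk _ (mul_mem (inv_mem hx) hy)]; group
  rcases h with h | h
  · have hc : ∀ a ∈ conjSet E d, ∀ b ∈ conjSet E d, Commute a b := by
      intro a ha b hb
      have h1 : a * b * (a * b) = 1 := by rw [← pow_two]; exact hpow 2 h a ha b hb
      show a * b = b * a
      calc a * b = a * b * ((a * b) * (b * a)) := by
            have : (a * b) * (b * a) = 1 := by
              calc (a * b) * (b * a) = a * (b * b) * a := by group
                _ = 1 := by rw [tt_sq hD (hsub b hb), mul_one, tt_sq hD (hsub a ha)]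
            rw [this, mul_one]
        _ = (a * b * (a * b)) * (b * a) := by group
        _ = b * a := by rw [h1, one_mul]
    have : IsMulCommutative (conjGrp E d) := by
      apply Subgroup.isMulCommutative_closure
      rintro _ ⟨a, ha, b, hb, rfl⟩ _ ⟨a', ha', b', hb', rfl⟩
      exact (((hc a ha a' ha').mul_right (hc a ha b' hb')).mul_left
        ((hc b hb a' ha').mul_right (hc b hb b' hb'))).eq
    exact Group.isSolvable_of_comm (fun a b => this.is_comm.comm a b)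
  · have : Fact (Nat.Prime 3) := ⟨Nat.prime_three⟩
    have hp : IsPGroup 3 (conjGrp E d) := by
      apply tt_width_one_isPGroup
      · exact ⟨fun x hx => hD.1 x (hsub x hx), fun x hx y hy => hD.2 x (hsub x hx) y (hsub y hy)⟩
      · intro x hx y hy; exact conjSet_conj_mem hE hdd hx hy
      · intro a ha b hb hc
        have h3 := hpow 3 h a ha b hb
        have h2 : (a * b) ^ 2 = 1 := by
          rw [pow_two]
          calc (a * b) * (a * b) = a * (b * a) * b := by group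
            _ = a * (a * b) * b := by rw [hc.eq]
            _ = (a * a) * (b * b) := by group
            _ = 1 := by rw [tt_sq hD (hsub a ha), tt_sq hD (hsub b hb), one_mul]
        have h1 : a * b = 1 := by
          calc a * b = (a * b) ^ 3 * ((a * b) ^ 2)⁻¹ := by group
            _ = 1 := by rw [h3, h2]; group
        have := eq_inv_of_mul_eq_one_left h1
        rwa [tt_inv hD (hsub b hb)] at this
    have := hp.isNilpotent
    exact IsNilpotent.to_isSolvable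

/-- Lemma A. -/
theorem tt_commute_of_uniform [Finite G] {D : Set G} (hD : IsThreeTranspositionSet D)
    (hconj : ∀ g : G, ∀ x ∈ D, g * x * g⁻¹ ∈ D) {E : Subgroup G} (hE : E.Normal) (hperf : ⁅E, E⁆ = E)
    (hsolv : ∀ X : Subgroup G, Group.IsSolvable X → E ≤ Subgroup.normalizer (X : Set G) → ⁅E, X⁆ = ⊥)
    {d : G} (hd : d ∈ D)
    (h : (∀ x ∈ E, (d * (x * d * x⁻¹)) ^ 2 = 1) ∨ (∀ x ∈ E, (d * (x * d * x⁻¹)) ^ 3 = 1)) :
    ∀ x ∈ E, Commute d x := by
  have h1 := hsolv _ (conjGrp_isSolvable hD hconj hE hd h) (le_normalizer_conjGrp E d)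
  rw [Subgroup.commutator_eq_bot_iff_le_centralizer] at h1
  apply commute_of_commutator_central hE hperf
  intro x hx y hy
  have := h1 hy
  rw [Subgroup.mem_centralizer_iff] at this
  exact this _ (commutator_mem_conjGrp (tt_sq hD hd) hx)

/-- Lemma B: the order six argument. -/
theorem tt_no_order_six {D : Set G} (hD : IsThreeTranspositionSet D)
    (hconj : ∀ g : G, ∀ x ∈ D, g * x * g⁻¹ ∈ D) {N₁ N₂ : Subgroup G} (hN₂ : N₂.Normal)
    (hcomm : ∀ x ∈ N₁, ∀ y ∈ N₂, Commute x y) {d : G} (hd : d ∈ D) {x₁ x₂ : G} (hx₁ : x₁ ∈ N₁) (hx₂ : x₂ ∈ N₂)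
    (hN₁ : N₁.Normal)
    (h1 : (d * (x₁ * d * x₁⁻¹)) ^ 2 = 1) (h1' : d * (x₁ * d * x₁⁻¹) ≠ 1)
    (h2 : (d * (x₂ * d * x₂⁻¹)) ^ 3 = 1) (h2' : d * (x₂ * d * x₂⁻¹) ≠ 1) : False := by
  have hdd := tt_sq hD hd
  have hdi := tt_inv hD hd
  set y₁ := d * (x₁ * d * x₁⁻¹) with hy₁
  set y₂ := d * (x₂ * d * x₂⁻¹) with hy₂
  have hy₁N : y₁ ∈ N₁ := by
    have e : y₁ = (d * x₁ * d⁻¹) * x₁⁻¹ := by rw [hy₁, hdi]; group
    rw [e]; exact mul_mem (hN₁.conj_mem _ hx₁ d) (inv_mem hx₁)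
  have hy₂N : y₂ ∈ N₂ := by
    have e : y₂ = (d * x₂ * d⁻¹) * x₂⁻¹ := by rw [hy₂, hdi]; group
    rw [e]; exact mul_mem (hN₂.conj_mem _ hx₂ d) (inv_mem hx₂)
  have hc : Commute y₁ y₂ := hcomm _ hy₁N _ hy₂N
  have e : d * ((x₁ * x₂) * d * (x₁ * x₂)⁻¹) = y₁ * y₂ := by
    have hc' := (hcomm _ hx₁ _ hy₂N).eq
    calc d * ((x₁ * x₂) * d * (x₁ * x₂)⁻¹) = d * x₁ * (d * d) * (x₂ * d * x₂⁻¹) * x₁⁻¹ := by
          rw [hdd]; group
      _ = d * x₁ * d * (y₂ * x₁⁻¹) := by rw [hy₂]; group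
      _ = d * x₁ * d * (x₁⁻¹ * y₂) := by
          rw [((hcomm _ hx₁ _ hy₂N).inv_left).eq]
      _ = y₁ * y₂ := by rw [hy₁]; group
  rcases hD.2 d hd _ (hconj (x₁ * x₂) d hd) with h | h
  · rw [e, hc.mul_pow, h1, one_mul] at h
    apply h2'
    calc y₂ = y₂ ^ 3 * (y₂ ^ 2)⁻¹ := by group
      _ = 1 := by rw [h2, h]; group
  · rw [e, hc.mul_pow, h2, mul_one] at h
    apply h1'
    calc y₁ = y₁ ^ 3 * (y₁ ^ 2)⁻¹ := by group
      _ = 1 := by rw [h1, h]; group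

end Cfsg.Agent.Lib.Helper27
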