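import Cfsg.Agent.Lib.Helper27.ThreeTrans4
import Cfsg.Agent.Lib.Helper10.Components
import Cfsg.Agent.Lib.Helper23.Fitting
import Cfsg.Agent.S5347
import Cfsg.Agent.S5348
import Cfsg.Agent.S5349
import Cfsg.Agent.S5350

/-!
3-transpositions: the Fitting trichotomy.
-/

set_option autoImplicit false

namespace Cfsg.Agent.Lib.Helper27

open Cfsg
open scoped commutatorElement

variable {G : Type*} [Group G]

theorem IsThreeTranspositionClass.toGroup {D : Set G} (hD : IsThreeTranspositionClass D) :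
    IsThreeTranspositionGroup D :=
  ⟨hD.1, fun g _ hx => tt_class_conj_mem hD g hx, hD.2.2⟩

theorem tt_pCore_le_center [Finite G] {D : Set G} (hD : IsThreeTranspositionClass D)
    {p : ℕ} (hp : p.Prime) (hp3 : 3 < p) : pCore p G ≤ Subgroup.center G := by
  obtain ⟨d, hd, -⟩ := hD.2.1
  have : Fact p.Prime := ⟨hp⟩
  have hN : (pCore p G).Normal := pCore_normal'
  apply tt_le_center hD hN hd
  apply Cfsg.Agent.S5347.result (IsThreeTranspositionClass.toGroup hD) hp hp3 _ pCore_isPGroup hd
  rw [Subgroup.normalizer_eq_top]; trivial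

theorem tt_two_or_three_central [Finite G] {D : Set G} (hD : IsThreeTranspositionClass D)
    (hD2 : ∃ a ∈ D, ∃ b ∈ D, a ≠ b) :
    pCore 2 G ≤ Subgroup.center G ∨ pCore 3 G ≤ Subgroup.center G := by
  obtain ⟨d, hd, -⟩ := hD.2.1
  rcases Cfsg.Agent.S5348.result (IsThreeTranspositionClass.toGroup hD) hd with h | h
  · left
    apply tt_le_center hD pCore_normal' hd
    intro g hg
    have h1 : g * d * g⁻¹ ∈ {v : G | ∃ g ∈ Cfsg.pCore 2 G, v = g * d * g⁻¹} := ⟨g, hg, rfl⟩
    rw [← (Cfsg.Agent.S5349.result hD hD2 hd).2, h] at h1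
    have h2 : g * d * g⁻¹ = d := h1
    show d * g = g * d
    calc d * g = (g * d * g⁻¹) * g := by rw [h2]
      _ = g * d := by group
  · right
    apply tt_le_center hD pCore_normal' hd
    intro g hg
    have h1 : g * d * g⁻¹ ∈ {v : G | ∃ g ∈ Cfsg.pCore 3 G, v = g * d * g⁻¹} := ⟨g, hg, rfl⟩
    rw [← (Cfsg.Agent.S5350.result hD hD2 hd).2, h] at h1
    have h2 : g * d * g⁻¹ = d := h1
    show d * g = g * d
    calc d * g = (g * d * g⁻¹) * g := by rw [h2]
      _ = g * d := by group

theorem eq_one_of_pow_of_isPGroup {p q : ℕ} (hpq : Nat.Coprime q p) {N : Subgroup G} (hN : IsPGroup p N)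
    {x : G} (hx : x ∈ N) (h : x ^ q = 1) : x = 1 := by
  obtain ⟨k, hk⟩ := hN ⟨x, hx⟩
  have hk' : x ^ p ^ k = 1 := congrArg Subtype.val hk
  have h3 : orderOf x ∣ Nat.gcd q (p ^ k) :=
    Nat.dvd_gcd (orderOf_dvd_of_pow_eq_one h) (orderOf_dvd_of_pow_eq_one hk')
  have hcop : Nat.Coprime q (p ^ k) := Nat.Coprime.pow_right _ hpq
  rw [hcop] at h3
  exact orderOf_eq_one_iff.1 (Nat.dvd_one.1 h3)

/-- A perfect normal subgroup `E`, centralizing all solvable subgroups it normalizes, that commutes with a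
noncentral normal `2`- or `3`-subgroup is trivial. -/
theorem tt_perfect_eq_bot [Finite G] {D : Set G} (hD : IsThreeTranspositionClass D)
    {E : Subgroup G} (hE : E.Normal) (hperf : ⁅E, E⁆ = E)
    (hsolv : ∀ X : Subgroup G, Group.IsSolvable X → E ≤ Subgroup.normalizer (X : Set G) → ⁅E, X⁆ = ⊥)
    {N : Subgroup G} (hN : N.Normal) (hNE : ∀ x ∈ N, ∀ y ∈ E, Commute x y)
    (hNp : IsPGroup 2 N ∨ IsPGroup 3 N) (hNc : ¬ N ≤ Subgroup.center G) : E = ⊥ := by
  have hset := hD.1
  have hconj : ∀ g : G, ∀ x ∈ D, g * x * g⁻¹ ∈ D := fun g x hx => tt_class_conj_mem hD g hx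
  obtain ⟨d, hd, -⟩ := hD.2.1
  have hdi := tt_inv hset hd
  have hex : ∃ x ∈ N, d * (x * d * x⁻¹) ≠ 1 := by
    by_contra hcon
    push Not at hcon
    apply hNc
    apply tt_le_center hD hN hd
    intro x hx
    have h1 := hcon x hx
    show d * x = x * d
    have h2 : x * d * x⁻¹ = d := by
      have := eq_inv_of_mul_eq_one_right h1
      rwa [hdi] at this
    calc d * x = (x * d * x⁻¹) * x := by rw [h2]
      _ = x * d := by group
  obtain ⟨x₁, hx₁, hne⟩ := hex
  have hmem : d * (x₁ * d * x₁⁻¹) ∈ N := by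
    have e : d * (x₁ * d * x₁⁻¹) = (d * x₁ * d⁻¹) * x₁⁻¹ := by rw [hdi]; group
    rw [e]; exact mul_mem (hN.conj_mem _ hx₁ d) (inv_mem hx₁)
  have hcent : ∀ x ∈ E, Commute d x := by
    apply tt_commute_of_uniform hset hconj hE hperf hsolv hd
    rcases hNp with hp | hp
    · left
      have h1 : (d * (x₁ * d * x₁⁻¹)) ^ 2 = 1 := by
        rcases hset.2 d hd _ (hconj x₁ d hd) with h | h
        · exact h
        · exact absurd (eq_one_of_pow_of_isPGroup (by norm_num) hp hmem h) hne
      intro x hx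
      rcases hset.2 d hd _ (hconj x d hd) with h | h
      · exact h
      · by_cases h' : d * (x * d * x⁻¹) = 1
        · rw [h', one_pow]
        · exact (tt_no_order_six hset hconj hE hNE hd hx₁ hx hN h1 hne h h').elim
    · right
      have h1 : (d * (x₁ * d * x₁⁻¹)) ^ 3 = 1 := by
        rcases hset.2 d hd _ (hconj x₁ d hd) with h | h
        · exact absurd (eq_one_of_pow_of_isPGroup (by norm_num) hp hmem h) hne
        · exact h
      intro x hx
      rcases hset.2 d hd _ (hconj x d hd) with h | h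
      · by_cases h' : d * (x * d * x⁻¹) = 1
        · rw [h', one_pow]
        · exact (tt_no_order_six hset hconj hN (fun a ha b hb => (hNE b hb a ha).symm) hd hx hx₁ hE
            h h' h1 hne).elim
      · exact h
  have hc := tt_le_center hD hE hd hcent
  rw [← hperf, Subgroup.commutator_eq_bot_iff_le_centralizer]
  intro x hx
  rw [Subgroup.mem_centralizer_iff]
  intro y _
  exact (Subgroup.mem_center_iff.1 (hc hx) y)

theorem layer_solv_hyp [Finite G] (X : Subgroup G) (hX : Group.IsSolvable X)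
    (h : layer G ≤ Subgroup.normalizer (X : Set G)) : ⁅layer G, X⁆ = ⊥ := by
  rw [Subgroup.commutator_eq_bot_iff_le_centralizer, Helper10.layer_le_iff]
  intro L hL
  rw [← Subgroup.commutator_eq_bot_iff_le_centralizer]
  exact Helper10.component_commutator_solvable hL hX ((Helper10.component_le_layer hL).trans h)

theorem pCore_commute_layer [Finite G] (p : ℕ) [Fact p.Prime] :
    ∀ x ∈ pCore p G, ∀ y ∈ layer G, Commute x y := by
  intro x hx y hy
  have h := Helper10.layer_commutator_fitting G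
  rw [Subgroup.commutator_eq_bot_iff_le_centralizer] at h
  have h1 := h hy
  rw [Subgroup.mem_centralizer_iff] at h1
  exact h1 x (Helper23.pCore_le_fittingSubgroup p G hx)

theorem tt_layer_eq_bot [Finite G] {D : Set G} (hD : IsThreeTranspositionClass D)
    (h : ¬ pCore 2 G ≤ Subgroup.center G ∨ ¬ pCore 3 G ≤ Subgroup.center G) : layer G = ⊥ := by
  have h2 : Fact (Nat.Prime 2) := ⟨Nat.prime_two⟩
  have h3 : Fact (Nat.Prime 3) := ⟨Nat.prime_three⟩
  rcases h with h | h
  · exact tt_perfect_eq_bot hD (Helper10.layer_normal G) (Helper10.layer_perfect G) layer_solv_hyp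
      pCore_normal' (pCore_commute_layer 2) (Or.inl pCore_isPGroup) h
  · exact tt_perfect_eq_bot hD (Helper10.layer_normal G) (Helper10.layer_perfect G) layer_solv_hyp
      pCore_normal' (pCore_commute_layer 3) (Or.inr pCore_isPGroup) h

theorem tt_fitting_le_center [Finite G] {D : Set G} (hD : IsThreeTranspositionClass D)
    (h2 : pCore 2 G ≤ Subgroup.center G) (h3 : pCore 3 G ≤ Subgroup.center G) :
    fittingSubgroup G ≤ Subgroup.center G := by
  rw [Helper23.fittingSubgroup_eq_iSup_pCore]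
  apply iSup_le
  rintro ⟨p, hp⟩
  have hpp : p.Prime := Nat.prime_of_mem_primeFactors hp
  show pCore p G ≤ _
  by_cases h : 3 < p
  · exact tt_pCore_le_center hD hpp h
  · have : p = 2 ∨ p = 3 := by
      have := hpp.two_le
      omega
    rcases this with rfl | rfl
    · exact h2
    · exact h3

theorem tt_layer_ne_bot [Finite G] {D : Set G} (hD : IsThreeTranspositionClass D)
    (hD2 : ∃ a ∈ D, ∃ b ∈ D, a ≠ b)
    (h2 : pCore 2 G ≤ Subgroup.center G) (h3 : pCore 3 G ≤ Subgroup.center G) : layer G ≠ ⊥ := by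
  intro hl
  have hF := tt_fitting_le_center hD h2 h3
  have hFs : generalizedFittingSubgroup G ≤ Subgroup.center G := by
    unfold generalizedFittingSubgroup
    rw [hl, bot_sup_eq]; exact hF
  have h1 := Helper10.centralizer_genFitting_le G
  have h4 : Subgroup.centralizer (generalizedFittingSubgroup G : Set G) = ⊤ := by
    rw [eq_top_iff]
    intro g _
    rw [Subgroup.mem_centralizer_iff]
    intro x hx
    exact (Subgroup.mem_center_iff.1 (hFs hx) g).symm
  rw [h4] at h1
  obtain ⟨d, hd, -⟩ := hD.2.1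
  obtain ⟨e, he, hde⟩ := tt_class_exists_not_commute hD hD2 hd
  apply hde
  exact (Subgroup.mem_center_iff.1 (hFs (h1 (Subgroup.mem_top d))) e).symm

end Cfsg.Agent.Lib.Helper27
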