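import Cfsg.Agent.Lib.Helper27.ThreeTrans5
import Cfsg.Agent.S0144

/-!
3-transpositions: the component.
-/

set_option autoImplicit false

namespace Cfsg.Agent.Lib.Helper27

open Cfsg
open scoped commutatorElement

variable {G : Type*} [Group G]

theorem card_eq_two_pow_mul_three_pow {n : ℕ} (hn : n ≠ 0) (h : ∀ p : ℕ, p.Prime → p ∣ n → p = 2 ∨ p = 3) :
    ∃ a b : ℕ, n = 2 ^ a * 3 ^ b := by
  refine ⟨n.factorization 2, (ordCompl[2] n).factorization 3, ?_⟩
  have h1 := Nat.ordProj_mul_ordCompl_eq_self n 2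
  have h2 := Nat.ordProj_mul_ordCompl_eq_self (ordCompl[2] n) 3
  have hm : ordCompl[2] n ≠ 0 := (Nat.ordCompl_pos 2 hn).ne'
  have h3 : ordCompl[3] (ordCompl[2] n) = 1 := by
    by_contra hne
    obtain ⟨p, hp, hpd⟩ := Nat.exists_prime_and_dvd hne
    have hd1 : p ∣ ordCompl[2] n := hpd.trans (Nat.ordCompl_dvd _ 3)
    have hd2 : p ∣ n := hd1.trans (Nat.ordCompl_dvd _ 2)
    rcases h p hp hd2 with rfl | rfl
    · exact Nat.not_dvd_ordCompl Nat.prime_two hn hd1
    · exact Nat.not_dvd_ordCompl Nat.prime_three hm hpd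
  rw [h3, mul_one] at h2
  rw [h2]; exact h1.symm

/-- a finite group all of whose elements have square or cube one is solvable. -/
theorem isSolvable_of_sq_or_cube {Q : Type*} [Group Q] [Finite Q] (h : ∀ q : Q, q ^ 2 = 1 ∨ q ^ 3 = 1) :
    Group.IsSolvable Q := by
  obtain ⟨a, b, hab⟩ := card_eq_two_pow_mul_three_pow (n := Nat.card Q) Nat.card_pos.ne' (by
    intro p hp hpd
    have : Fact p.Prime := ⟨hp⟩
    obtain ⟨x, hx⟩ := exists_prime_orderOf_dvd_card' p hpd
    rcases h x with h' | h'
    · left
      have := orderOf_dvd_of_pow_eq_one h'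
      rw [hx] at this
      exact (Nat.prime_dvd_prime_iff_eq hp Nat.prime_two).1 this
    · right
      have := orderOf_dvd_of_pow_eq_one h'
      rw [hx] at this
      exact (Nat.prime_dvd_prime_iff_eq hp Nat.prime_three).1 this)
  exact Cfsg.Agent.S0144.result 2 3 a b Nat.prime_two Nat.prime_three hab

theorem not_qs_of_sq_or_cube [Finite G] {L : Subgroup G} (hL : IsQuasisimple L)
    (h : ∀ x ∈ L, (∀ y ∈ L, Commute (x ^ 2) y) ∨ (∀ y ∈ L, Commute (x ^ 3) y)) : False := by
  apply Helper10.qs_not_isSolvable hL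
  have h1 : Group.IsSolvable (L ⧸ Subgroup.center L) := by
    apply isSolvable_of_sq_or_cube
    intro q
    induction q using QuotientGroup.induction_on with
    | H x =>
      rcases h x x.2 with h' | h'
      · left
        rw [← QuotientGroup.mk_pow, QuotientGroup.eq_one_iff, Subgroup.mem_center_iff]
        intro y
        exact Subtype.ext (h' y y.2).eq.symm
      · right
        rw [← QuotientGroup.mk_pow, QuotientGroup.eq_one_iff, Subgroup.mem_center_iff]
        intro y
        exact Subtype.ext (h' y y.2).eq.symm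
  have h2 : Group.IsSolvable (Subgroup.center L) :=
    Group.isSolvable_of_comm (fun a b => Subtype.ext (Subgroup.mem_center_iff.1 a.2 b).symm)
  exact Group.isSolvable_of_ker_le_range (Subgroup.center L).subtype (QuotientGroup.mk' (Subgroup.center L))
    (by rw [QuotientGroup.ker_mk', Subgroup.range_subtype])

theorem tt_mem_normalizer_component [Finite G] {D : Set G} (hD : IsThreeTranspositionSet D)
    (hconj : ∀ g : G, ∀ x ∈ D, g * x * g⁻¹ ∈ D) {L : Subgroup G} (hL : IsComponent L) {d : G} (hd : d ∈ D) :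
    d ∈ Subgroup.normalizer (L : Set G) := by
  have hdi := tt_inv hD hd
  have hL' := Helper10.isComponent_map_mulEquiv (MulAut.conj d) hL
  rcases Helper10.components_eq_or_commute hL hL' with h | h
  · rw [Subgroup.mem_normalizer_iff]
    intro x
    constructor
    · intro hx
      rw [h]
      exact ⟨x, hx, rfl⟩
    · intro hx
      rw [h] at hx
      obtain ⟨y, hy, hyx⟩ := hx
      have : d * y * d⁻¹ = d * x * d⁻¹ := hyx
      rw [← mul_left_cancel (mul_right_cancel this)]
      exact hy
  · exfalso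
    rw [Subgroup.commutator_eq_bot_iff_le_centralizer] at h
    have hc : ∀ x ∈ L, ∀ y ∈ L, Commute x (d * y * d⁻¹) := by
      intro x hx y hy
      have := h hx
      rw [Subgroup.mem_centralizer_iff] at this
      exact (this _ ⟨y, hy, rfl⟩).symm
    apply not_qs_of_sq_or_cube hL.2
    intro x hx
    have key : ∀ k : ℕ, (d * (x * d * x⁻¹)) ^ k = 1 → ∀ y ∈ L, Commute (x ^ k) y := by
      intro k hk y hy
      have e : d * (x * d * x⁻¹) = (d * x * d⁻¹) * x⁻¹ := by rw [hdi]; group
      have hcx : Commute (d * x * d⁻¹) x⁻¹ := ((hc x hx x hx).symm).inv_right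
      rw [e, hcx.mul_pow, conj_pow, inv_pow] at hk
      have e2 : x ^ k = d * x ^ k * d⁻¹ := (mul_inv_eq_one.1 hk).symm
      rw [e2]
      exact (hc y hy _ (pow_mem hx k)).symm
    rcases hD.2 d hd _ (hconj x d hd) with h' | h'
    · exact Or.inl (key 2 h')
    · exact Or.inr (key 3 h')

theorem tt_component_normal [Finite G] {D : Set G} (hD : IsThreeTranspositionClass D)
    {L : Subgroup G} (hL : IsComponent L) : L.Normal := by
  have hconj : ∀ g : G, ∀ x ∈ D, g * x * g⁻¹ ∈ D := fun g x hx => tt_class_conj_mem hD g hx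
  have h1 : Subgroup.closure D ≤ Subgroup.normalizer (L : Set G) := by
    rw [Subgroup.closure_le]
    intro d hd
    exact tt_mem_normalizer_component hD.1 hconj hL hd
  rw [hD.2.2, top_le_iff] at h1
  exact Subgroup.normalizer_eq_top_iff.1 h1

theorem tt_not_centralize_qs {D : Set G} (hD : IsThreeTranspositionClass D)
    {L : Subgroup G} (hLn : L.Normal) (hL : IsQuasisimple L) {d : G} (hd : d ∈ D) :
    ¬ ∀ x ∈ L, Commute d x := by
  intro h
  have hc := tt_le_center hD hLn hd h
  apply Helper10.qs_not_isSolvable hL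
  apply Group.isSolvable_of_comm
  intro a b
  exact Subtype.ext (Subgroup.mem_center_iff.1 (hc a.2) b).symm

theorem exists_ne_one_of_not_centralize {D : Set G} (hD : IsThreeTranspositionSet D) {L : Subgroup G} {d : G}
    (hd : d ∈ D) (h : ¬ ∀ x ∈ L, Commute d x) : ∃ x ∈ L, d * (x * d * x⁻¹) ≠ 1 := by
  by_contra hcon
  push Not at hcon
  apply h
  intro x hx
  have h1 := hcon x hx
  show d * x = x * d
  have h2 : x * d * x⁻¹ = d := by
    have := eq_inv_of_mul_eq_one_right h1
    rwa [tt_inv hD hd] at this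
  calc d * x = (x * d * x⁻¹) * x := by rw [h2]
    _ = x * d := by group

/-- Lemma B'. -/
theorem tt_uniform_of_commuting {D : Set G} (hD : IsThreeTranspositionSet D)
    (hconj : ∀ g : G, ∀ x ∈ D, g * x * g⁻¹ ∈ D) {N₁ N₂ : Subgroup G} (hN₁ : N₁.Normal) (hN₂ : N₂.Normal)
    (hcomm : ∀ x ∈ N₁, ∀ y ∈ N₂, Commute x y) {d : G} (hd : d ∈ D)
    (h2 : ¬ ∀ x ∈ N₂, Commute d x) :
    (∀ x ∈ N₁, (d * (x * d * x⁻¹)) ^ 2 = 1) ∨ (∀ x ∈ N₁, (d * (x * d * x⁻¹)) ^ 3 = 1) := by
  obtain ⟨x₂, hx₂, hne₂⟩ := exists_ne_one_of_not_centralize hD hd h2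
  rcases hD.2 d hd _ (hconj x₂ d hd) with h | h
  · left
    intro x hx
    rcases hD.2 d hd _ (hconj x d hd) with h' | h'
    · exact h'
    · by_cases h1 : d * (x * d * x⁻¹) = 1
      · rw [h1, one_pow]
      · exact (tt_no_order_six hD hconj hN₁ (fun a ha b hb => (hcomm b hb a ha).symm) hd hx₂ hx hN₂
          h hne₂ h' h1).elim
  · right
    intro x hx
    rcases hD.2 d hd _ (hconj x d hd) with h' | h'
    · by_cases h1 : d * (x * d * x⁻¹) = 1
      · rw [h1, one_pow]
      · exact (tt_no_order_six hD hconj hN₂ hcomm hd hx hx₂ hN₁ h' h1 h hne₂).elim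
    · exact h'

theorem tt_component_unique [Finite G] {D : Set G} (hD : IsThreeTranspositionClass D)
    {L K : Subgroup G} (hL : IsComponent L) (hK : IsComponent K) : L = K := by
  have hconj : ∀ g : G, ∀ x ∈ D, g * x * g⁻¹ ∈ D := fun g x hx => tt_class_conj_mem hD g hx
  obtain ⟨d, hd, -⟩ := hD.2.1
  rcases Helper10.components_eq_or_commute hL hK with h | h
  · exact h
  · exfalso
    have hLn := tt_component_normal hD hL
    have hKn := tt_component_normal hD hK
    rw [Subgroup.commutator_eq_bot_iff_le_centralizer] at h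
    have hc : ∀ x ∈ L, ∀ y ∈ K, Commute x y := by
      intro x hx y hy
      have := h hx
      rw [Subgroup.mem_centralizer_iff] at this
      exact (this y hy).symm
    apply tt_not_centralize_qs hD hLn hL.2 hd
    exact tt_commute_of_uniform hD.1 hconj hLn (Helper10.component_perfect hL)
      (fun X hX hn => Helper10.component_commutator_solvable hL hX hn) hd
      (tt_uniform_of_commuting hD.1 hconj hLn hKn hc hd (tt_not_centralize_qs hD hKn hK.2 hd))

/-- Lemma C. -/
theorem tt_mul_mem_of_commute [Finite G] {D : Set G} (hD : IsThreeTranspositionClass D)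
    {L : Subgroup G} (hLn : L.Normal) (hL : IsQuasisimple L) {a b : G} (ha : a ∈ D) (hb : b ∈ D)
    (hab : Commute a b) : a * b ∈ L := by
  have hset := hD.1
  have hconj : ∀ g : G, ∀ x ∈ D, g * x * g⁻¹ ∈ D := fun g x hx => tt_class_conj_mem hD g hx
  have hcomp : IsComponent L := ⟨hLn.isSubnormal, hL⟩
  by_contra hnot
  have hba2 : (b * a) ^ 2 = 1 := by
    rw [pow_two]
    calc (b * a) * (b * a) = b * (a * b) * a := by group
      _ = b * (b * a) * a := by rw [hab.eq]
      _ = (b * b) * (a * a) := by group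
      _ = 1 := by rw [tt_sq hset ha, tt_sq hset hb, one_mul]
  have hcx : ∀ w ∈ conjSet L a, Commute b w := by
    rintro w ⟨x, hx, rfl⟩
    have hxa := hconj x a ha
    rcases hset.2 b hb _ hxa with h | h
    · have h1 : b * (x * a * x⁻¹) * (b * (x * a * x⁻¹)) = 1 := by rw [← pow_two]; exact h
      show b * (x * a * x⁻¹) = (x * a * x⁻¹) * b
      calc b * (x * a * x⁻¹) = b * (x * a * x⁻¹) * ((b * (x * a * x⁻¹)) * ((x * a * x⁻¹) * b)) := by
            have : (b * (x * a * x⁻¹)) * ((x * a * x⁻¹) * b) = 1 := by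
              calc (b * (x * a * x⁻¹)) * ((x * a * x⁻¹) * b)
                  = b * ((x * a * x⁻¹) * (x * a * x⁻¹)) * b := by group
                _ = 1 := by rw [tt_sq hset hxa, mul_one, tt_sq hset hb]
            rw [this, mul_one]
        _ = (b * (x * a * x⁻¹) * (b * (x * a * x⁻¹))) * ((x * a * x⁻¹) * b) := by group
        _ = (x * a * x⁻¹) * b := by rw [h1, one_mul]
    · exfalso
      apply hnot
      have hπ : (QuotientGroup.mk' L) (b * (x * a * x⁻¹)) = (QuotientGroup.mk' L) (b * a) := by
        have hx1 : (QuotientGroup.mk' L) x = 1 := (QuotientGroup.eq_one_iff x).2 hx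
        simp only [map_mul, map_inv, hx1, one_mul, inv_one, mul_one]
      have h3 : ((QuotientGroup.mk' L) (b * a)) ^ 3 = 1 := by rw [← hπ, ← map_pow, h, map_one]
      have h2 : ((QuotientGroup.mk' L) (b * a)) ^ 2 = 1 := by rw [← map_pow, hba2, map_one]
      have h1 : (QuotientGroup.mk' L) (b * a) = 1 := by
        calc (QuotientGroup.mk' L) (b * a)
            = ((QuotientGroup.mk' L) (b * a)) ^ 3 * (((QuotientGroup.mk' L) (b * a)) ^ 2)⁻¹ := by group
          _ = 1 := by rw [h3, h2]; group
      rw [hab.eq]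
      exact (QuotientGroup.eq_one_iff _).1 h1
  have hcM : ∀ z ∈ conjGrp L a, Commute b z := by
    intro z hz
    have hle : conjGrp L a ≤ Subgroup.centralizer ({b} : Set G) := by
      unfold conjGrp
      rw [Subgroup.closure_le]
      rintro _ ⟨u, hu, v, hv, rfl⟩
      rw [SetLike.mem_coe, Subgroup.mem_centralizer_singleton_iff]
      exact ((hcx u hu).mul_right (hcx v hv)).eq.symm
    have := hle hz
    rw [Subgroup.mem_centralizer_singleton_iff] at this
    exact this.symm
  have hML : conjGrp L a ≤ L := conjGrp_le hLn (tt_sq hset ha)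
  have hMn : ((conjGrp L a).subgroupOf L).Normal := by
    rw [Subgroup.normal_subgroupOf_iff_le_normalizer hML]
    exact le_normalizer_conjGrp L a
  rcases Helper10.qs_normal_le_center_or_eq_top hL _ hMn with h | h
  · apply tt_not_centralize_qs hD hLn hL ha
    apply commute_of_commutator_central hLn (Helper10.component_perfect hcomp)
    intro x hx y hy
    have h1 := commutator_mem_conjGrp (E := L) (tt_sq hset ha) hx
    have h2 := h (show (⟨_, hML h1⟩ : L) ∈ (conjGrp L a).subgroupOf L from Subgroup.mem_subgroupOf.2 h1)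
    exact (congrArg Subtype.val (Subgroup.mem_center_iff.1 h2 ⟨y, hy⟩)).symm
  · rw [Subgroup.subgroupOf_eq_top] at h
    exact tt_not_centralize_qs hD hLn hL hb (fun x hx => hcM x (h hx))

theorem tt_exists_component [Finite G] {D : Set G} (hD : IsThreeTranspositionClass D)
    (hD2 : ∃ a ∈ D, ∃ b ∈ D, a ≠ b)
    (h2 : pCore 2 G ≤ Subgroup.center G) (h3 : pCore 3 G ≤ Subgroup.center G) :
    ∃ L : Subgroup G, L.Normal ∧ IsQuasisimple L ∧ generalizedFittingSubgroup G = L ⊔ Subgroup.center G := by
  have hne := tt_layer_ne_bot hD hD2 h2 h3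
  have hex : ∃ L : Subgroup G, IsComponent L := by
    by_contra hcon
    push Not at hcon
    apply hne
    unfold layer
    rw [sSup_eq_bot]
    intro K hK
    exact absurd hK (hcon K)
  obtain ⟨L, hL⟩ := hex
  refine ⟨L, tt_component_normal hD hL, hL.2, ?_⟩
  have hlay : layer G = L := by
    apply le_antisymm
    · rw [Helper10.layer_le_iff]
      intro K hK
      rw [tt_component_unique hD hK hL]
    · exact Helper10.component_le_layer hL
  have hfit : fittingSubgroup G = Subgroup.center G := by
    apply le_antisymm (tt_fitting_le_center hD h2 h3)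
    exact Helper10.le_fittingSubgroup inferInstance (Helper10.isNilpotent_of_isMulCommutative inferInstance)
  unfold generalizedFittingSubgroup
  rw [hlay, hfit]

end Cfsg.Agent.Lib.Helper27
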