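import Cfsg.Agent.Lib.Helper27.ThreeTrans6

/-!
3-transpositions: blocks, primitivity, connectedness.
-/

set_option autoImplicit false

namespace Cfsg.Agent.Lib.Helper27

open Cfsg
open scoped commutatorElement

variable {G : Type*} [Group G]

/-- the conjugate of a set. -/
def cj (g : G) (B : Set G) : Set G := (fun x => g * x * g⁻¹) '' B

theorem cj_mul (g h : G) (B : Set G) : cj (g * h) B = cj g (cj h B) := by
  unfold cj
  rw [Set.image_image]
  congr 1
  funext x
  group

theorem cj_one (B : Set G) : cj 1 B = B := by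
  unfold cj
  simp

theorem mem_cj {g x : G} {B : Set G} (hx : x ∈ B) : g * x * g⁻¹ ∈ cj g B := ⟨x, hx, rfl⟩

theorem cj_inv_cj (g : G) (B : Set G) : cj g⁻¹ (cj g B) = B := by
  rw [← cj_mul, inv_mul_cancel, cj_one]

theorem cj_eq_of_inter {B : Set G} (hblk : ∀ g : G, cj g B = B ∨ Disjoint (cj g B) B) {g k z : G}
    (h1 : z ∈ cj g B) (h2 : z ∈ cj k B) : cj g B = cj k B := by
  obtain ⟨b, hb, rfl⟩ := h1
  obtain ⟨b', hb', hbb⟩ := h2
  have hbb' : k * b' * k⁻¹ = g * b * g⁻¹ := hbb
  have h3 : (k⁻¹ * g) * b * (k⁻¹ * g)⁻¹ = b' := by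
    calc (k⁻¹ * g) * b * (k⁻¹ * g)⁻¹ = k⁻¹ * (g * b * g⁻¹) * k := by group
      _ = k⁻¹ * (k * b' * k⁻¹) * k := by rw [hbb']
      _ = b' := by group
  have h4 : cj (k⁻¹ * g) B = B := by
    rcases hblk (k⁻¹ * g) with h | h
    · exact h
    · exact absurd hb' (Set.disjoint_left.1 h (h3 ▸ mem_cj hb))
  calc cj g B = cj (k * (k⁻¹ * g)) B := by congr 1; group
    _ = cj k B := by rw [cj_mul, h4]

/-- the stabilizer of a set under conjugation. -/
def cjStab (B : Set G) : Subgroup G where
  carrier := {g | cj g B = B}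
  mul_mem' := by
    intro a b ha hb
    show cj (a * b) B = B
    rw [cj_mul, show cj b B = B from hb]; exact ha
  one_mem' := cj_one B
  inv_mem' := by
    intro a ha
    show cj a⁻¹ B = B
    have h : cj a B = B := ha
    calc cj a⁻¹ B = cj a⁻¹ (cj a B) := by rw [h]
      _ = B := cj_inv_cj a B

theorem block_key {D : Set G} (hD : IsThreeTranspositionSet D)
    (hconj : ∀ g : G, ∀ x ∈ D, g * x * g⁻¹ ∈ D) {B : Set G} (hBD : B ⊆ D)
    (hblk : ∀ g : G, cj g B = B ∨ Disjoint (cj g B) B) (hne : B.Nonempty) (k : G) {d' e' : G}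
    (hd' : d' ∈ cj k B) (he' : e' ∈ cj k B) : cj d' B = cj e' B := by
  have hsub : ∀ u ∈ cj k B, u ∈ D := by
    rintro u ⟨b, hb, rfl⟩; exact hconj k b (hBD hb)
  have hself : ∀ u : G, ∀ C : Set G, u ∈ C → u ∈ cj u C := by
    intro u C hu
    have := mem_cj (g := u) hu
    have e : u * u * u⁻¹ = u := by group
    rwa [e] at this
  by_cases hk : cj k B = B
  · rw [hk] at hd' he'
    have h1 : cj d' B = cj 1 B := cj_eq_of_inter hblk (hself d' B hd') (by rw [cj_one]; exact hd')
    have h2 : cj e' B = cj 1 B := cj_eq_of_inter hblk (hself e' B he') (by rw [cj_one]; exact he')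
    rw [h1, h2]
  · obtain ⟨a, ha⟩ := hne
    have haD := hBD ha
    have aux : ∀ u ∈ cj k B, ∀ v ∈ cj k B, Commute a u → Commute a v := by
      intro u hu v hv hc
      by_contra hnc
      have hvD := hsub v hv
      have e1 : a * u * a⁻¹ = u := by rw [hc.eq]; group
      have h1 : cj (a * k) B = cj k B := by
        apply cj_eq_of_inter hblk (z := u) _ hu
        rw [cj_mul, ← e1]; exact mem_cj hu
      have h2 : a * v * a⁻¹ ∈ cj k B := by
        rw [← h1, cj_mul]; exact mem_cj hv
      have hbr : a * v * a = v * a * v := (tt_commute_or_braid hD haD hvD).resolve_left hnc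
      have h3 : a * v * a⁻¹ ∈ cj v B := by
        rw [tt_inv hD haD, hbr]
        have := mem_cj (g := v) ha
        rwa [tt_inv hD hvD] at this
      have h4 : cj v B = cj k B := cj_eq_of_inter hblk h3 h2
      have h5 : cj (v * k) B = cj k B := by
        apply cj_eq_of_inter hblk (z := v) _ hv
        rw [cj_mul]; exact hself v _ hv
      apply hk
      calc cj k B = cj v⁻¹ (cj v (cj k B)) := (cj_inv_cj v _).symm
        _ = cj v⁻¹ (cj k B) := by rw [← cj_mul v k, h5]
        _ = cj v⁻¹ (cj v B) := by rw [h4]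
        _ = B := cj_inv_cj v B
    have hfix : ∀ u ∈ cj k B, Commute a u → cj u B = cj 1 B := by
      intro u hu hc
      apply cj_eq_of_inter hblk (z := a) _ (by rw [cj_one]; exact ha)
      have := mem_cj (g := u) ha
      have e : u * a * u⁻¹ = a := by rw [← hc.eq]; group
      rwa [e] at this
    have hmove : ∀ u ∈ cj k B, ¬ Commute a u → cj u B = cj (a * k) B := by
      intro u hu hnc
      have huD := hsub u hu
      have hbr : a * u * a = u * a * u := (tt_commute_or_braid hD haD huD).resolve_left hnc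
      apply cj_eq_of_inter hblk (z := u * a * u⁻¹) (mem_cj ha)
      rw [tt_inv hD huD, ← hbr, cj_mul]
      have := mem_cj (g := a) hu
      rwa [tt_inv hD haD] at this
    by_cases hc : Commute a d'
    · rw [hfix d' hd' hc, hfix e' he' (aux d' hd' e' he' hc)]
    · rw [hmove d' hd' hc, hmove e' he' (fun h => hc (aux e' he' d' hd' h))]

theorem block_mul_mem_normalCore {D : Set G} (hD : IsThreeTranspositionSet D)
    (hconj : ∀ g : G, ∀ x ∈ D, g * x * g⁻¹ ∈ D) {B : Set G} (hBD : B ⊆ D)
    (hblk : ∀ g : G, cj g B = B ∨ Disjoint (cj g B) B) {d e : G} (hd : d ∈ B) (he : e ∈ B) :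
    d * e ∈ (cjStab B).normalCore := by
  intro h
  show cj (h * (d * e) * h⁻¹) B = B
  have e1 : h * (d * e) * h⁻¹ = (h * d * h⁻¹) * (h * e * h⁻¹) := by group
  rw [e1, cj_mul, ← block_key hD hconj hBD hblk ⟨d, hd⟩ h (mem_cj hd) (mem_cj he), ← cj_mul,
    tt_sq hD (hconj h d (hBD hd)), cj_one]

theorem mem_or_mul_mem_of_index_le_two {D : Set G} (hD : IsThreeTranspositionClass D) {L : Subgroup G}
    (hLn : L.Normal) (hidx : L.index ≤ 2) [Finite G] {d : G} (hd : d ∈ D) (g : G) : g ∈ L ∨ d * g ∈ L := by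
  by_cases hdL : d ∈ L
  · left
    have h1 : Subgroup.closure D ≤ L := by
      rw [Subgroup.closure_le]
      intro e he
      obtain ⟨k, rfl⟩ := tt_class_isConj hD hd he
      exact hLn.conj_mem d hdL k
    rw [hD.2.2] at h1
    exact h1 (Subgroup.mem_top g)
  · have h2 : L.index = 2 := by
      have h0 : L.index ≠ 0 := Subgroup.index_ne_zero_of_finite
      have h1 : L.index ≠ 1 := by
        intro h
        rw [Subgroup.index_eq_one] at h
        exact hdL (h ▸ Subgroup.mem_top d)
      omega
    by_cases hg : g ∈ L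
    · exact Or.inl hg
    · right
      rw [Subgroup.mul_mem_iff_of_index_two h2]
      exact ⟨fun h => absurd h hdL, fun h => absurd h hg⟩

theorem tt_primitive_of_index_le_two [Finite G] {D : Set G} (hD : IsThreeTranspositionClass D)
    (hD2 : ∃ a ∈ D, ∃ b ∈ D, a ≠ b)
    (h2 : pCore 2 G ≤ Subgroup.center G) (h3 : pCore 3 G ≤ Subgroup.center G)
    {L : Subgroup G} (hLn : L.Normal) (hL : IsQuasisimple L) (hidx : L.index ≤ 2) :
    IsPrimitiveUnderConj D := by
  have hset := hD.1
  have hconj : ∀ g : G, ∀ x ∈ D, g * x * g⁻¹ ∈ D := fun g x hx => tt_class_conj_mem hD g hx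
  have hcomp : IsComponent L := ⟨hLn.isSubnormal, hL⟩
  refine ⟨fun a ha b hb => tt_class_isConj hD ha hb, hD2, ?_⟩
  intro B hBD hblk
  by_contra hcon
  push Not at hcon
  obtain ⟨hns, hBne⟩ := hcon
  obtain ⟨d, hd, e, he, hde⟩ := hns
  have hdD := hBD hd
  have heD := hBD he
  set K := (cjStab B).normalCore with hK
  have hKn : K.Normal := Subgroup.normalCore_normal _
  have hx : d * e ∈ K := block_mul_mem_normalCore hset hconj hBD hblk hd he
  have hn : ((K ⊓ L).subgroupOf L).Normal := by
    have : (K ⊓ L).Normal := inferInstance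
    infer_instance
  rcases Helper10.qs_normal_le_center_or_eq_top hL _ hn with h | h
  · -- `K` centralizes `L`
    have hxc : ∀ y ∈ L, Commute (d * e) y := by
      apply commute_of_commutator_central hLn (Helper10.component_perfect hcomp)
      intro x hxL y hy
      have h1 : (d * e) * x * (d * e)⁻¹ * x⁻¹ ∈ K ⊓ L := by
        refine ⟨?_, L.mul_mem (hLn.conj_mem x hxL _) (L.inv_mem hxL)⟩
        have e1 : (d * e) * x * (d * e)⁻¹ * x⁻¹ = (d * e) * (x * (d * e)⁻¹ * x⁻¹) := by group
        rw [e1]
        exact K.mul_mem hx (hKn.conj_mem _ (K.inv_mem hx) x)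
      have h4 := h (show (⟨_, h1.2⟩ : L) ∈ (K ⊓ L).subgroupOf L from Subgroup.mem_subgroupOf.2 h1)
      exact (congrArg Subtype.val (Subgroup.mem_center_iff.1 h4 ⟨y, hy⟩)).symm
    have hdx : d * (d * e) * d⁻¹ = (d * e)⁻¹ := by
      rw [mul_inv_rev, tt_inv hset hdD, tt_inv hset heD, ← mul_assoc, tt_sq hset hdD, one_mul]
    have hconjx : ∀ g : G, g * (d * e) * g⁻¹ = d * e ∨ g * (d * e) * g⁻¹ = (d * e)⁻¹ := by
      intro g
      rcases mem_or_mul_mem_of_index_le_two hD hLn hidx hdD g with hg | hg
      · left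
        rw [← (hxc g hg).eq]; group
      · right
        have e1 : g = d * (d * g) := by rw [← mul_assoc, tt_sq hset hdD, one_mul]
        have e2 : (d * g) * (d * e) * (d * g)⁻¹ = d * e := by rw [← (hxc _ hg).eq]; group
        calc g * (d * e) * g⁻¹ = d * ((d * g) * (d * e) * (d * g)⁻¹) * d⁻¹ := by
              conv_lhs => rw [e1]
              group
          _ = (d * e)⁻¹ := by rw [e2, hdx]
    have hZn : (Subgroup.zpowers (d * e)).Normal := by
      constructor
      intro n hn g
      obtain ⟨m, rfl⟩ := Subgroup.mem_zpowers_iff.1 hn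
      have e1 : g * (d * e) ^ m * g⁻¹ = (g * (d * e) * g⁻¹) ^ m := by
        rw [conj_zpow]
      rw [e1]
      rcases hconjx g with h' | h'
      · rw [h']; exact Subgroup.zpow_mem_zpowers _ _
      · rw [h']; exact zpow_mem (inv_mem (Subgroup.mem_zpowers _)) _
    have hcen : d * e ∈ Subgroup.center G := by
      apply tt_fitting_le_center hD h2 h3
      apply Helper10.le_fittingSubgroup hZn (Helper10.isNilpotent_of_isMulCommutative inferInstance)
      exact Subgroup.mem_zpowers _
    have hV : e ∈ {v : G | v ∈ D ∧ ∀ f ∈ D, Commute v f ↔ Commute d f} := by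
      refine ⟨heD, fun f _ => ?_⟩
      have e1 : e = d * (d * e) := by rw [← mul_assoc, tt_sq hset hdD, one_mul]
      have hcf : Commute (d * e) f := (Subgroup.mem_center_iff.1 hcen f).symm
      constructor
      · intro hc
        have e2 : d = e * (d * e)⁻¹ := by
          rw [mul_inv_rev, tt_inv hset hdD, tt_inv hset heD, ← mul_assoc, tt_sq hset heD, one_mul]
        rw [e2]
        exact hc.mul_left hcf.inv_left
      · intro hc
        rw [e1]
        exact hc.mul_left hcf
    rw [(Cfsg.Agent.S5349.result hD hD2 hdD).2] at hV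
    obtain ⟨g, hg, hge⟩ := hV
    apply hde
    rw [hge, (Subgroup.mem_center_iff.1 (h2 hg) d).symm]
    group
  · rw [Subgroup.subgroupOf_eq_top] at h
    have hLM : L ≤ cjStab B := (h.trans inf_le_left).trans (Subgroup.normalCore_le _)
    have hdM : d ∈ cjStab B := by
      show cj d B = B
      have h1 : d ∈ cj d B := by
        have := mem_cj (g := d) hd
        have e : d * d * d⁻¹ = d := by group
        rwa [e] at this
      rcases hblk d with h' | h'
      · exact h'
      · exact absurd hd (Set.disjoint_left.1 h' h1)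
    apply hBne
    apply Set.Subset.antisymm hBD
    intro f hf
    obtain ⟨g, rfl⟩ := tt_class_isConj hD hdD hf
    have hgM : g ∈ cjStab B := by
      rcases mem_or_mul_mem_of_index_le_two hD hLn hidx hdD g with hg | hg
      · exact hLM hg
      · have e1 : g = d * (d * g) := by rw [← mul_assoc, tt_sq hset hdD, one_mul]
        rw [e1]
        exact mul_mem hdM (hLM hg)
    have : cj g B = B := hgM
    rw [← this]
    exact mem_cj hd

theorem tt_mul_mem_of_reachable [Finite G] {D : Set G} (hD : IsThreeTranspositionClass D)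
    {L : Subgroup G} (hLn : L.Normal) (hL : IsQuasisimple L) {u v : D}
    (h : (commutingGraph D).Reachable u v) : (u : G) * (v : G) ∈ L := by
  obtain ⟨p⟩ := h
  induction p with
  | nil => rename_i u; rw [tt_sq hD.1 u.2]; exact one_mem _
  | @cons u w v hadj _ ih =>
    unfold commutingGraph at hadj
    rw [SimpleGraph.fromRel_adj] at hadj
    have hc : Commute (u : G) (w : G) := by
      rcases hadj.2 with h | h
      · exact h
      · exact h.symm
    have h1 := tt_mul_mem_of_commute hD hLn hL u.2 w.2 hc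
    have e : (u : G) * (v : G) = ((u : G) * w) * ((w : G) * v) := by
      calc (u : G) * (v : G) = u * ((w : G) * w) * v := by rw [tt_sq hD.1 w.2, mul_one]
        _ = ((u : G) * w) * ((w : G) * v) := by group
    rw [e]
    exact mul_mem h1 ih

theorem tt_index_le_two_of_mul_mem [Finite G] {D : Set G} (hD : IsThreeTranspositionClass D)
    {L : Subgroup G} (hLn : L.Normal) (h : ∀ a ∈ D, ∀ b ∈ D, a * b ∈ L) : L.index ≤ 2 := by
  obtain ⟨d, hd, -⟩ := hD.2.1
  have hdd := tt_sq hD.1 hd
  have htop : Subgroup.zpowers d ⊔ L = ⊤ := by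
    rw [eq_top_iff, ← hD.2.2, Subgroup.closure_le]
    intro e he
    have h2 : e = d * (d * e) := by rw [← mul_assoc, hdd, one_mul]
    rw [h2]
    exact mul_mem ((le_sup_left : Subgroup.zpowers d ≤ _) (Subgroup.mem_zpowers d))
      ((le_sup_right : L ≤ Subgroup.zpowers d ⊔ _) (h d hd e he))
  have hcos : ∀ g : G, g ∈ L ∨ d * g ∈ L := by
    intro g
    have hmem : g ∈ ((Subgroup.zpowers d ⊔ L : Subgroup G) : Set G) := by rw [htop]; trivial
    rw [Subgroup.mul_normal] at hmem
    obtain ⟨x, hx, n, hn, rfl⟩ := Set.mem_mul.1 hmem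
    obtain ⟨m, rfl⟩ := Subgroup.mem_zpowers_iff.1 hx
    have hd2 : ∀ j : ℤ, d ^ (j + j) = 1 := by
      intro j
      rw [zpow_add, ← (Commute.refl d).mul_zpow, hdd, one_zpow]
    rcases Int.even_or_odd m with ⟨j, hj⟩ | ⟨j, hj⟩
    · left
      rw [hj, hd2, one_mul]; exact hn
    · right
      have : d ^ m = d := by
        rw [hj, zpow_add, two_mul, hd2, one_mul, zpow_one]
      rw [this, ← mul_assoc, hdd, one_mul]; exact hn
  have hsurj : Function.Surjective (fun b : Bool => if b then (QuotientGroup.mk d : G ⧸ L) else 1) := by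
    intro q
    induction q using QuotientGroup.induction_on with
    | H g =>
      rcases hcos g with hg | hg
      · exact ⟨false, by simp [((QuotientGroup.eq_one_iff g).2 hg)]⟩
      · refine ⟨true, ?_⟩
        simp only [if_true]
        rw [QuotientGroup.eq, tt_inv hD.1 hd]
        exact hg
  have := Nat.card_le_card_of_surjective _ hsurj
  have hb : Nat.card Bool = 2 := by rw [Nat.card_eq_fintype_card, Fintype.card_bool]
  rw [hb] at this
  exact this

end Cfsg.Agent.Lib.Helper27
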