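import Cfsg.Agent.Lib.Helper27.ThreeTrans7

/-!
3-transpositions: consequences of primitivity; modules of the commuting graph.
-/

set_option autoImplicit false

namespace Cfsg.Agent.Lib.Helper27

open Cfsg

variable {G : Type*} [Group G]

theorem block_of_equiv {D : Set G} (hconj : ∀ g : G, ∀ x ∈ D, g * x * g⁻¹ ∈ D) {R : G → G → Prop}
    (hsymm : ∀ x y, R x y → R y x) (htrans : ∀ x y z, R x y → R y z → R x z)
    (hinv : ∀ g x y, R x y → R (g * x * g⁻¹) (g * y * g⁻¹)) (d g : G) :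
    cj g {v : G | v ∈ D ∧ R v d} = {v : G | v ∈ D ∧ R v d} ∨
      Disjoint (cj g {v : G | v ∈ D ∧ R v d}) {v : G | v ∈ D ∧ R v d} := by
  by_cases h : ∃ z ∈ cj g {v : G | v ∈ D ∧ R v d}, z ∈ {v : G | v ∈ D ∧ R v d}
  · left
    obtain ⟨z, ⟨v, ⟨hv, hvd⟩, rfl⟩, -, hz⟩ := h
    have hz' : R (g * v * g⁻¹) d := hz
    have h1 : R (g * d * g⁻¹) d := htrans _ _ _ (hsymm _ _ (hinv g _ _ hvd)) hz'
    have h2 : R d (g⁻¹ * d * g) := by
      have := hinv g⁻¹ _ _ h1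
      have e : g⁻¹ * (g * d * g⁻¹) * g⁻¹⁻¹ = d := by group
      rw [e, inv_inv] at this
      exact this
    apply Set.Subset.antisymm
    · rintro _ ⟨u, ⟨hu, hud⟩, rfl⟩
      exact ⟨hconj g u hu, htrans _ _ _ (hinv g _ _ hud) h1⟩
    · rintro u ⟨hu, hud⟩
      refine ⟨g⁻¹ * u * g, ⟨?_, ?_⟩, ?_⟩
      · have := hconj g⁻¹ u hu
        rwa [inv_inv] at this
      · have := hinv g⁻¹ _ _ hud
        rw [inv_inv] at this
        exact htrans _ _ _ this (hsymm _ _ h2)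
      · show g * (g⁻¹ * u * g) * g⁻¹ = u
        group
  · right
    rw [Set.disjoint_left]
    intro z hz hz'
    exact h ⟨z, hz, hz'⟩

theorem isClass_of_primitive {D : Set G} (hD : IsThreeTranspositionGroup D) (hprim : IsPrimitiveUnderConj D) :
    IsThreeTranspositionClass D := by
  obtain ⟨a, ha, -⟩ := hprim.2.1
  refine ⟨hD.1, ⟨a, ha, ?_⟩, hD.2.2⟩
  ext x
  constructor
  · intro hx
    obtain ⟨g, hg⟩ := hprim.1 a ha x hx
    exact isConj_iff.2 ⟨g, hg⟩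
  · intro hx
    obtain ⟨g, rfl⟩ := isConj_iff.1 (show IsConj a x from hx)
    exact hD.2.1 g a ha

theorem V_trivial_of_primitive {D : Set G} (hD : IsThreeTranspositionClass D) (hprim : IsPrimitiveUnderConj D)
    {d v : G} (hd : d ∈ D) (hv : v ∈ D) (h : VEq D v d) : v = d := by
  have hconj : ∀ g : G, ∀ x ∈ D, g * x * g⁻¹ ∈ D := fun g x hx => tt_class_conj_mem hD g hx
  rcases hprim.2.2 {v : G | v ∈ D ∧ VEq D v d} (fun x hx => hx.1)
    (block_of_equiv hconj (fun _ _ h => h.symm) (fun _ _ _ h h' => h.trans h')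
      (fun g _ _ h => h.conj hconj g) d) with h1 | h1
  · exact h1 ⟨hv, h⟩ ⟨hd, fun _ _ => Iff.rfl⟩
  · exfalso
    obtain ⟨e, he, hde⟩ := tt_class_exists_not_commute hD hprim.2.1 hd
    have : e ∈ {v : G | v ∈ D ∧ VEq D v d} := by rw [h1]; exact he
    exact hde ((this.2 e he).1 (Commute.refl e))

theorem W_trivial_of_primitive {D : Set G} (hD : IsThreeTranspositionClass D) (hprim : IsPrimitiveUnderConj D)
    (hw : ∃ a ∈ D, ∃ b ∈ D, a ≠ b ∧ Commute a b)
    {d v : G} (hd : d ∈ D) (hv : v ∈ D) (h : Dp D v = Dp D d) : v = d := by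
  have hconj : ∀ g : G, ∀ x ∈ D, g * x * g⁻¹ ∈ D := fun g x hx => tt_class_conj_mem hD g hx
  rcases hprim.2.2 {v : G | v ∈ D ∧ Dp D v = Dp D d} (fun x hx => hx.1)
    (block_of_equiv (R := fun x y => Dp D x = Dp D y) hconj (fun _ _ h => h.symm)
      (fun _ _ _ h h' => h.trans h') (fun g _ _ h => Dp_eq_conj hconj h g) d) with h1 | h1
  · exact h1 ⟨hv, h⟩ ⟨hd, rfl⟩
  · exfalso
    obtain ⟨a, ha, b, hb, hab, hc⟩ := hw
    have h2 : a ∈ {v : G | v ∈ D ∧ Dp D v = Dp D d} := by rw [h1]; exact ha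
    have h3 : b ∈ {v : G | v ∈ D ∧ Dp D v = Dp D d} := by rw [h1]; exact hb
    exact Dp_not_commute hb (h2.2.trans h3.2.symm) hab hc

/-- conjugation as a graph homomorphism of the commuting graph. -/
def conjHom {D : Set G} (hconj : ∀ g : G, ∀ x ∈ D, g * x * g⁻¹ ∈ D) (g : G) :
    commutingGraph D →g commutingGraph D where
  toFun x := ⟨g * x.1 * g⁻¹, hconj g x.1 x.2⟩
  map_rel' := by
    intro a b hab
    unfold commutingGraph at hab ⊢
    rw [SimpleGraph.fromRel_adj] at hab ⊢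
    refine ⟨?_, ?_⟩
    · intro h
      apply hab.1
      have := congrArg Subtype.val h
      exact Subtype.ext (mul_left_cancel (mul_right_cancel this))
    · rcases hab.2 with h | h
      · left; exact (Commute.conj_iff g).2 h
      · right; exact (Commute.conj_iff g).2 h

theorem connected_of_primitive {D : Set G} (hD : IsThreeTranspositionClass D) (hprim : IsPrimitiveUnderConj D)
    (hw : ∃ a ∈ D, ∃ b ∈ D, a ≠ b ∧ Commute a b) : (commutingGraph D).Connected := by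
  have hconj : ∀ g : G, ∀ x ∈ D, g * x * g⁻¹ ∈ D := fun g x hx => tt_class_conj_mem hD g hx
  obtain ⟨a, ha, b, hb, hab, hc⟩ := hw
  set R : G → G → Prop := fun x y => ∃ (hx : x ∈ D) (hy : y ∈ D), (commutingGraph D).Reachable ⟨x, hx⟩ ⟨y, hy⟩
    with hR
  have hall : ∀ x (hx : x ∈ D), (commutingGraph D).Reachable ⟨x, hx⟩ ⟨a, ha⟩ := by
    rcases hprim.2.2 {v : G | v ∈ D ∧ R v a} (fun x hx => hx.1)
      (block_of_equiv (R := R) hconj (fun _ _ ⟨hx, hy, h⟩ => ⟨hy, hx, h.symm⟩)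
        (fun _ _ _ ⟨hx, _, h⟩ ⟨_, hz, h'⟩ => ⟨hx, hz, h.trans h'⟩)
        (fun g _ _ ⟨hx, hy, h⟩ => ⟨hconj g _ hx, hconj g _ hy, h.map (conjHom hconj g)⟩) a) with h1 | h1
    · exfalso
      apply hab
      refine h1 ⟨ha, ha, ha, SimpleGraph.Reachable.refl _⟩ ⟨hb, hb, ha, ?_⟩
      apply SimpleGraph.Adj.reachable
      unfold commutingGraph
      rw [SimpleGraph.fromRel_adj]
      exact ⟨fun h => hab (congrArg Subtype.val h).symm, Or.inl hc.symm⟩
    · intro x hx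
      have : x ∈ {v : G | v ∈ D ∧ R v a} := by rw [h1]; exact hx
      obtain ⟨_, _, _, h⟩ := this
      exact h
  have : Nonempty D := ⟨⟨a, ha⟩⟩
  exact SimpleGraph.Connected.mk (fun u v => (hall u.1 u.2).trans (hall v.1 v.2).symm)

theorem pCore_two_le_center_of_V [Finite G] {D : Set G} (hD : IsThreeTranspositionClass D)
    (hD2 : ∃ a ∈ D, ∃ b ∈ D, a ≠ b) (hV : ∀ d ∈ D, ∀ v ∈ D, VEq D v d → v = d) :
    pCore 2 G ≤ Subgroup.center G := by
  obtain ⟨d, hd, -⟩ := hD.2.1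
  apply tt_le_center hD pCore_normal' hd
  intro g hg
  have h1 : g * d * g⁻¹ ∈ {v : G | ∃ g ∈ Cfsg.pCore 2 G, v = g * d * g⁻¹} := ⟨g, hg, rfl⟩
  rw [← (Cfsg.Agent.S5349.result hD hD2 hd).2] at h1
  have h2 : g * d * g⁻¹ = d := hV d hd _ h1.1 h1.2
  show d * g = g * d
  calc d * g = (g * d * g⁻¹) * g := by rw [h2]
    _ = g * d := by group

theorem pCore_three_le_center_of_W [Finite G] {D : Set G} (hD : IsThreeTranspositionClass D)
    (hD2 : ∃ a ∈ D, ∃ b ∈ D, a ≠ b) (hW : ∀ d ∈ D, ∀ v ∈ D, Dp D v = Dp D d → v = d) :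
    pCore 3 G ≤ Subgroup.center G := by
  obtain ⟨d, hd, -⟩ := hD.2.1
  apply tt_le_center hD pCore_normal' hd
  intro g hg
  have h1 : g * d * g⁻¹ ∈ {v : G | ∃ g ∈ Cfsg.pCore 3 G, v = g * d * g⁻¹} := ⟨g, hg, rfl⟩
  rw [← (Cfsg.Agent.S5350.result hD hD2 hd).2] at h1
  have h2 : g * d * g⁻¹ = d := hW d hd _ h1.1 h1.2.symm
  show d * g = g * d
  calc d * g = (g * d * g⁻¹) * g := by rw [h2]
    _ = g * d := by group

/-- a module of the commuting graph closed under conjugation by its members. -/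
def IsMod (D Γ : Set G) : Prop :=
  Γ ⊆ D ∧ (∀ x ∈ Γ, ∀ y ∈ Γ, x * y * x⁻¹ ∈ Γ) ∧
    ∀ y ∈ D, y ∉ Γ → (∀ x ∈ Γ, Commute y x) ∨ (∀ x ∈ Γ, ¬ Commute y x)

theorem IsMod.cjMod {D Γ : Set G} (hconj : ∀ g : G, ∀ x ∈ D, g * x * g⁻¹ ∈ D) (h : IsMod D Γ) (g : G) :
    IsMod D (cj g Γ) := by
  refine ⟨?_, ?_, ?_⟩
  · rintro _ ⟨x, hx, rfl⟩; exact hconj g x (h.1 hx)
  · rintro _ ⟨x, hx, rfl⟩ _ ⟨y, hy, rfl⟩
    exact ⟨x * y * x⁻¹, h.2.1 x hx y hy, by group⟩
  · intro y hy hyn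
    have hy' : g⁻¹ * y * g ∈ D := by
      have := hconj g⁻¹ y hy
      rwa [inv_inv] at this
    have hyn' : g⁻¹ * y * g ∉ Γ := by
      intro hh
      apply hyn
      exact ⟨_, hh, by group⟩
    have key : ∀ x : G, Commute y (g * x * g⁻¹) ↔ Commute (g⁻¹ * y * g) x := by
      intro x
      have e1 : y = g * (g⁻¹ * y * g) * g⁻¹ := by group
      conv_lhs => rw [e1]
      exact Commute.conj_iff g
    rcases h.2.2 _ hy' hyn' with h1 | h1
    · left
      rintro _ ⟨x, hx, rfl⟩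
      exact (key x).2 (h1 x hx)
    · right
      rintro _ ⟨x, hx, rfl⟩ hc
      exact h1 x hx ((key x).1 hc)

theorem IsMod.inter {D Γ Γ' : Set G} (h : IsMod D Γ) (h' : IsMod D Γ') : IsMod D (Γ ∩ Γ') := by
  refine ⟨fun x hx => h.1 hx.1, fun x hx y hy => ⟨h.2.1 x hx.1 y hy.1, h'.2.1 x hx.2 y hy.2⟩, ?_⟩
  intro y hy hyn
  by_cases h1 : y ∈ Γ
  · have h2 : y ∉ Γ' := fun hh => hyn ⟨h1, hh⟩
    rcases h'.2.2 y hy h2 with h3 | h3
    · exact Or.inl (fun x hx => h3 x hx.2)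
    · exact Or.inr (fun x hx => h3 x hx.2)
  · rcases h.2.2 y hy h1 with h3 | h3
    · exact Or.inl (fun x hx => h3 x hx.1)
    · exact Or.inr (fun x hx => h3 x hx.1)

theorem IsMod.subsingleton_of_no_commute {D Γ : Set G} (h : IsMod D Γ)
    (hW : ∀ d ∈ D, ∀ v ∈ D, Dp D v = Dp D d → v = d)
    (hn : ∀ x ∈ Γ, ∀ y ∈ Γ, Commute x y → x = y) : Γ.Subsingleton := by
  have aux : ∀ x ∈ Γ, ∀ z ∈ Γ, Dp D x ⊆ Dp D z := by
    rintro x hx z hz f ⟨hf, hfx, hc⟩
    have hfn : f ∉ Γ := fun hh => hfx (hn x hx f hh hc).symm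
    refine ⟨hf, fun hh => hfn (hh ▸ hz), ?_⟩
    rcases h.2.2 f hf hfn with h1 | h1
    · exact (h1 z hz).symm
    · exact absurd hc.symm (h1 x hx)
  intro x hx z hz
  exact hW z (h.1 hz) x (h.1 hx) (Set.Subset.antisymm (aux x hx z hz) (aux z hz x hx))

theorem IsMod.subsingleton_of_commute {D Γ : Set G} (h : IsMod D Γ)
    (hV : ∀ d ∈ D, ∀ v ∈ D, VEq D v d → v = d)
    (hc : ∀ x ∈ Γ, ∀ y ∈ Γ, Commute x y) : Γ.Subsingleton := by
  have aux : ∀ x ∈ Γ, ∀ z ∈ Γ, ∀ f ∈ D, Commute x f → Commute z f := by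
    intro x hx z hz f hf hxf
    by_cases hfn : f ∈ Γ
    · exact hc z hz f hfn
    · rcases h.2.2 f hf hfn with h1 | h1
      · exact (h1 z hz).symm
      · exact absurd hxf.symm (h1 x hx)
  intro x hx z hz
  exact hV z (h.1 hz) x (h.1 hx) (fun f hf => ⟨aux x hx z hz f hf, aux z hz x hx f hf⟩)

theorem IsMod.diff_singleton {D Γ : Set G} (h : IsMod D Γ) {z : G}
    (hc : ∀ x ∈ Γ, Commute z x) : IsMod D (Γ \ {z}) := by
  refine ⟨fun x hx => h.1 hx.1, ?_, ?_⟩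
  · rintro x ⟨hx, -⟩ y ⟨hy, hyz⟩
    refine ⟨h.2.1 x hx y hy, ?_⟩
    intro hh
    apply hyz
    have hh' : x * y * x⁻¹ = z := hh
    show y = z
    calc y = x⁻¹ * (x * y * x⁻¹) * x := by group
      _ = x⁻¹ * (z * x) := by rw [hh']; group
      _ = x⁻¹ * (x * z) := by rw [(hc x hx).eq]
      _ = z := by group
  · intro y hy hyn
    by_cases hyz : y = z
    · left
      rintro x ⟨hx, -⟩
      rw [hyz]; exact hc x hx
    · have hyn' : y ∉ Γ := fun hh => hyn ⟨hh, hyz⟩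
      rcases h.2.2 y hy hyn' with h1 | h1
      · exact Or.inl (fun x hx => h1 x hx.1)
      · exact Or.inr (fun x hx => h1 x hx.1)

theorem IsMod.eq_of_primitive [Finite G] {D : Set G} (hD : IsThreeTranspositionSet D)
    (hconj : ∀ g : G, ∀ x ∈ D, g * x * g⁻¹ ∈ D) (hprim : IsPrimitiveUnderConj D)
    (hV : ∀ d ∈ D, ∀ v ∈ D, VEq D v d → v = d)
    (hW : ∀ d ∈ D, ∀ v ∈ D, Dp D v = Dp D d → v = d)
    {Γ : Set G} (h : IsMod D Γ) (hnt : Γ.Nontrivial) : Γ = D := by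
  let S : Set (Set G) := {Λ | IsMod D Λ ∧ Λ.Nontrivial ∧ Λ ⊆ Γ}
  have hSne : S.Nonempty := ⟨Γ, h, hnt, le_rfl⟩
  obtain ⟨Λ, hmin⟩ := (Set.toFinite S).exists_minimal hSne
  obtain ⟨hΛ, hΛnt, hΛΓ⟩ := hmin.1
  have hminimal : ∀ Λ' : Set G, IsMod D Λ' → Λ'.Nontrivial → Λ' ⊆ Λ → Λ ⊆ Λ' := by
    intro Λ' h1 h2 h3
    exact hmin.2 ⟨h1, h2, h3.trans hΛΓ⟩ h3
  have hblk : ∀ g : G, cj g Λ = Λ ∨ Disjoint (cj g Λ) Λ := by
    intro g
    by_contra hcon
    push Not at hcon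
    obtain ⟨hne, hnd⟩ := hcon
    rw [Set.not_disjoint_iff] at hnd
    obtain ⟨z, hz', hz⟩ := hnd
    have hΛ' : IsMod D (cj g Λ) := hΛ.cjMod hconj g
    have hcard : (cj g Λ).ncard = Λ.ncard := by
      unfold Cfsg.Agent.Lib.Helper27.cj
      apply Set.ncard_image_of_injective
      intro a b hab
      exact mul_left_cancel (mul_right_cancel hab)
    have hI : ∀ u ∈ Λ, u ∈ cj g Λ → u = z := by
      by_contra hcon
      push Not at hcon
      obtain ⟨u, hu, hu', huz⟩ := hcon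
      have h1 := hminimal (Λ ∩ cj g Λ) (hΛ.inter hΛ') ⟨u, ⟨hu, hu'⟩, z, ⟨hz, hz'⟩, huz⟩ Set.inter_subset_left
      have h2 : Λ ⊆ cj g Λ := fun x hx => (h1 hx).2
      exact hne (Set.eq_of_subset_of_ncard_le h2 hcard.le (Set.toFinite _)).symm
    have hnt' : ∃ x' ∈ cj g Λ, x' ≠ z := by
      obtain ⟨p, hp, q, hq, hpq⟩ := hΛnt
      by_cases hpz : g * p * g⁻¹ = z
      · refine ⟨g * q * g⁻¹, mem_cj hq, ?_⟩
        intro hh
        apply hpq
        exact mul_left_cancel (mul_right_cancel (hpz.trans hh.symm))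
      · exact ⟨_, mem_cj hp, hpz⟩
    obtain ⟨x', hx', hx'z⟩ := hnt'
    have hx'n : x' ∉ Λ := fun hh => hx'z (hI x' hh hx')
    rcases hΛ.2.2 x' (hΛ'.1 hx') hx'n with hall | hnone
    · -- `z` commutes with all of `Λ`
      have hzc : ∀ x ∈ Λ, Commute z x := by
        intro x hx
        by_cases hxz : x = z
        · rw [hxz]
        · have hxn : x ∉ cj g Λ := fun hh => hxz (hI x hx hh)
          rcases hΛ'.2.2 x (hΛ.1 hx) hxn with h1 | h1
          · exact (h1 z hz').symm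
          · exact absurd (hall x hx).symm (h1 x' hx')
      have hsub : (Λ \ {z}).Subsingleton := by
        by_contra hns
        rw [Set.not_subsingleton_iff] at hns
        have := hminimal _ (hΛ.diff_singleton hzc) hns Set.sdiff_subset
        exact (this hz).2 rfl
      have hcomm : ∀ x ∈ Λ, ∀ y ∈ Λ, Commute x y := by
        intro x hx y hy
        by_cases hxz : x = z
        · rw [hxz]; exact hzc y hy
        · by_cases hyz : y = z
          · rw [hyz]; exact (hzc x hx).symm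
          · rw [hsub ⟨hx, hxz⟩ ⟨hy, hyz⟩]
      exact Set.not_subsingleton_iff.2 hΛnt (hΛ.subsingleton_of_commute hV hcomm)
    · have hzn : ∀ x ∈ Λ, x ≠ z → ¬ Commute x z := by
        intro x hx hxz
        have hxn : x ∉ cj g Λ := fun hh => hxz (hI x hx hh)
        rcases hΛ'.2.2 x (hΛ.1 hx) hxn with h1 | h1
        · exact absurd (h1 x' hx').symm (hnone x hx)
        · exact h1 z hz'
      have hno : ∀ x ∈ Λ, ∀ y ∈ Λ, Commute x y → x = y := by
        intro x hx y hy hc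
        by_contra hxy
        by_cases hxz : x = z
        · exact hzn y hy (fun hh => hxy (hxz.trans hh.symm)) (hxz ▸ hc.symm)
        · by_cases hyz : y = z
          · exact hzn x hx hxz (hyz ▸ hc)
          · have hxD := hΛ.1 hx
            have hyD := hΛ.1 hy
            have hzD := hΛ.1 hz
            have b1 : x * z * x = z * x * z := (tt_commute_or_braid hD hxD hzD).resolve_left (hzn x hx hxz)
            have b2 : y * z * y = z * y * z := (tt_commute_or_braid hD hyD hzD).resolve_left (hzn y hy hyz)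
            have hbΛ : y * (x * z * x) * y ∈ Λ := by
              have h1 := hΛ.2.1 y hy _ (hΛ.2.1 x hx z hz)
              rwa [tt_inv hD hxD, tt_inv hD hyD] at h1
            exact hzn _ hbΛ (string_ne (tt_sq hD hzD) (tt_sq hD hyD) hxy b1 b2)
              (string_commute (tt_sq hD hzD) (tt_sq hD hyD) hc.eq b1 b2)
      exact Set.not_subsingleton_iff.2 hΛnt (hΛ.subsingleton_of_no_commute hW hno)
  rcases hprim.2.2 Λ hΛ.1 hblk with h1 | h1
  · exact absurd h1 (Set.not_subsingleton_iff.2 hΛnt)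
  · exact Set.Subset.antisymm h.1 (h1 ▸ hΛΓ)

end Cfsg.Agent.Lib.Helper27
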