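import Mathlib

/-!
Fixed points of a group on an abelian `p`-group are a direct factor of the fixed points of a subgroup of index
prime to `p` (trace argument).
-/

set_option autoImplicit false

namespace Cfsg.Agent.Lib.Helper27

theorem exists_compl_fixed {A V : Type*} [Group A] [Finite A] [CommGroup V] [Finite V] {p : ℕ}
    [Fact p.Prime] (hV : IsPGroup p V) (ρ : A →* MulAut V) (P : Subgroup A) (hP : ¬ p ∣ P.index) :
    ∃ K : Subgroup V, (∀ v ∈ K, ∀ a ∈ P, ρ a v = v) ∧ (∀ v ∈ K, (∀ a, ρ a v = v) → v = 1) ∧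
      ∀ v, (∀ a ∈ P, ρ a v = v) → ∃ u k, (∀ a, ρ a u = u) ∧ k ∈ K ∧ v = u * k := by
  classical
  have : Fintype (A ⧸ P) := Fintype.ofFinite _
  let Tr : V →* V :=
    { toFun := fun v => ∏ q : A ⧸ P, ρ q.out v
      map_one' := by simp
      map_mul' := fun v w => by simp [Finset.prod_mul_distrib] }
  have hTr : ∀ v, Tr v = ∏ q : A ⧸ P, ρ q.out v := fun _ => rfl
  have hn : (Nat.card V).Coprime P.index := by
    obtain ⟨k, hk⟩ := (IsPGroup.iff_card).1 hV
    rw [hk]
    exact Nat.Coprime.pow_left _ ((Nat.Prime.coprime_iff_not_dvd Fact.out).2 hP)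
  have hTrA : ∀ v, (∀ a, ρ a v = v) → Tr v = v ^ P.index := by
    intro v hv
    rw [hTr]
    simp only [hv, Finset.prod_const, Finset.card_univ]
    rw [Subgroup.index, Nat.card_eq_fintype_card]
  have hTrfix : ∀ v, (∀ a ∈ P, ρ a v = v) → ∀ b, ρ b (Tr v) = Tr v := by
    intro v hv b
    rw [hTr, map_prod]
    rw [← Equiv.prod_comp (MulAction.toPerm b : Equiv.Perm (A ⧸ P)) (fun q => ρ q.out v)]
    refine Finset.prod_congr rfl (fun q _ => ?_)
    have h1 : ((MulAction.toPerm b : Equiv.Perm (A ⧸ P)) q).out⁻¹ * (b * q.out) ∈ P := by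
      rw [← QuotientGroup.eq]
      simp only [QuotientGroup.out_eq', MulAction.toPerm_apply]
      conv_lhs => rw [← QuotientGroup.out_eq' q]
      rfl
    have h2 := hv _ h1
    rw [map_mul, MulAut.mul_apply, map_mul, MulAut.mul_apply] at h2
    have h3 := congrArg (ρ ((MulAction.toPerm b : Equiv.Perm (A ⧸ P)) q).out) h2
    rw [← MulAut.mul_apply, ← map_mul, mul_inv_cancel, map_one, MulAut.one_apply] at h3
    exact h3
  let K : Subgroup V :=
    { carrier := {v | (∀ a ∈ P, ρ a v = v) ∧ Tr v = 1}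
      one_mem' := ⟨fun a _ => map_one _, map_one _⟩
      mul_mem' := by
        rintro v w ⟨h1, h2⟩ ⟨h3, h4⟩
        exact ⟨fun a ha => by rw [map_mul, h1 a ha, h3 a ha], by rw [map_mul, h2, h4, one_mul]⟩
      inv_mem' := by
        rintro v ⟨h1, h2⟩
        exact ⟨fun a ha => by rw [map_inv, h1 a ha], by rw [map_inv, h2, inv_one]⟩ }
  refine ⟨K, fun v hv => hv.1, fun v hv hA => ?_, fun v hv => ?_⟩
  · have h1 : v ^ P.index = 1 := by rw [← hTrA v hA]; exact hv.2
    have h2 : (powCoprime hn) v = (powCoprime hn) 1 := by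
      simp [powCoprime, h1]
    exact (powCoprime hn).injective h2
  · obtain ⟨u, hu⟩ := (powCoprime hn).surjective (Tr v)
    have hu' : u ^ P.index = Tr v := hu
    have huA : ∀ a, ρ a u = u := by
      intro a
      apply (powCoprime hn).injective
      show (ρ a u) ^ P.index = u ^ P.index
      rw [← map_pow, hu', hTrfix v hv a]
    refine ⟨u, u⁻¹ * v, huA, ⟨fun a ha => by rw [map_mul, map_inv, huA a, hv a ha], ?_⟩, by group⟩
    rw [map_mul, map_inv, hTrA u huA, hu', inv_mul_cancel]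

end Cfsg.Agent.Lib.Helper27
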